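import Mathlib

/-!
# Project FC (S4146): class sizes `{1, n, m, nm}` with `(n, m) = 1` — definitions and pieces

`Cen x` is the centralizer of `x`, `cs x` its index (the class size), `Prim q x` says `x` has
`q`-power order.  `Four G n m` is the hypothesis, `Goal G n m` the conclusion.  Every `…Stmt` is
the statement of one piece (each with a proof sketch); pieces are proved in separate files
`Cfsg/Agent/Lib/<Seat>/FC<PIECE>.lean` and assembled in `Cfsg/Agent/S4146.lean`.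
-/

namespace Cfsg.Agent.Lib.Helper4.FC

universe u

/-- centralizer of an element -/
abbrev Cen {G : Type u} [Group G] (x : G) : Subgroup G := Subgroup.centralizer ({x} : Set G)

/-- class size of `x`, as the index of its centralizer -/
noncomputable abbrev cs {G : Type u} [Group G] (x : G) : ℕ := (Cen x).index

/-- `x` has `q`-power order -/
def Prim {G : Type u} [Group G] (q : ℕ) (x : G) : Prop := ∃ k : ℕ, orderOf x = q ^ k

/-- the hypothesis (symmetric in `n`, `m`) -/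
def Four (G : Type u) [Group G] (n m : ℕ) : Prop :=
  1 < n ∧ 1 < m ∧ n.Coprime m ∧ (∀ x : G, cs x = 1 ∨ cs x = n ∨ cs x = m ∨ cs x = n * m) ∧
    (∃ x : G, cs x = n) ∧ (∃ x : G, cs x = m) ∧ (∃ x : G, cs x = n * m)

/-- the conclusion -/
def Goal (G : Type u) [Group G] (n m : ℕ) : Prop :=
  Group.IsNilpotent G ∧ IsPrimePow n ∧ IsPrimePow m

theorem four_symm {G : Type u} [Group G] {n m : ℕ} (h : Four G n m) : Four G m n := by
  obtain ⟨h1, h2, h3, h4, h5, h6, h7⟩ := h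
  refine ⟨h2, h1, h3.symm, fun x => ?_, h6, h5, ?_⟩
  · rcases h4 x with h | h | h | h
    · exact Or.inl h
    · exact Or.inr (Or.inr (Or.inl h))
    · exact Or.inr (Or.inl h)
    · exact Or.inr (Or.inr (Or.inr (by rw [h, mul_comm])))
  · obtain ⟨x, hx⟩ := h7
    exact ⟨x, by rw [hx, mul_comm]⟩

theorem goal_symm {G : Type u} [Group G] {n m : ℕ} (h : Goal G n m) : Goal G m n :=
  ⟨h.1, h.2.2, h.2.1⟩

/-- the centralizer of `A` in `H` -/
def CHA {G : Type u} [Group G] (A H : Subgroup G) : Subgroup G :=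
  H ⊓ Subgroup.centralizer (A : Set G)

/-- context of Lemma F: `A` normal abelian Hall subgroup with complement `H`, all elements of `A`
of class size `1` or `m`, and `|A : A ∩ Z(G)| = n` -/
def LCtx (G : Type u) [Group G] (n m : ℕ) (A H : Subgroup G) : Prop :=
  Four G n m ∧ A.Normal ∧ (∀ u ∈ A, ∀ v ∈ A, u * v = v * u) ∧ (Nat.card A).Coprime A.index ∧
    A ⊓ H = ⊥ ∧ A ⊔ H = ⊤ ∧ (∀ y ∈ A, cs y = 1 ∨ cs y = m) ∧
    (Subgroup.center G).relIndex A = n

/-- context of Theorem A, second case: `m = q^i`, `K` a normal `q`-complement, `Q` a Sylow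
`q`-subgroup, `C_Q(b)` centralizes `K` for every `b ∈ Q` of class size `m`, and such `b` exists -/
def A2Ctx (G : Type u) [Group G] (n m q : ℕ) (K : Subgroup G) (Q : Sylow q G) : Prop :=
  Four G n m ∧ q.Prime ∧ (∃ i : ℕ, m = q ^ i) ∧ K.Normal ∧ (Nat.card K).Coprime q ∧
    (∃ e : ℕ, K.index = q ^ e) ∧
    (∀ b : G, b ∈ Q → cs b = m → ∀ x : G, x ∈ Q → x ∈ Cen b → ∀ u ∈ K, x * u = u * x) ∧
    (∃ b : G, b ∈ Q ∧ cs b = m)

/-- fixed points of an automorphism -/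
def FixSub {K : Type u} [Group K] (φ : MulAut K) : Subgroup K :=
  MonoidHom.eqLocus φ.toMonoidHom (MonoidHom.id K)

/-- abstract context of Z2: `φ` of order prime to `|K|`, `K` nonabelian, the fixed points of `φ`
commute pairwise, and every noncentral element has class size `|K : Fix φ|` -/
def Z2Ctx (K : Type u) [Group K] (φ : MulAut K) : Prop :=
  (orderOf φ).Coprime (Nat.card K) ∧ (∃ u v : K, u * v ≠ v * u) ∧
    (∀ u v : K, φ u = u → φ v = v → u * v = v * u) ∧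
    (∀ u : K, u ∉ Subgroup.center K → cs u = (FixSub φ).index)

/-! ## general lemmas -/

/-- L1. Coprime indices: `|G : C(x) ∩ C(y)| = cs x * cs y` (both indices divide it, and it is at
most the product). -/
def L1Stmt : Prop := ∀ (G : Type u) [Group G] [Finite G] (x y : G),
  (cs x).Coprime (cs y) → (Cen x ⊓ Cen y).index = cs x * cs y

/-- L3. Commuting elements of coprime orders: `C(xy) = C(x) ∩ C(y)` (`x`, `y` are powers of
`xy`). -/
def L3Stmt : Prop := ∀ (G : Type u) [Group G] [Finite G] (x y : G),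
  Commute x y → (orderOf x).Coprime (orderOf y) → Cen (x * y) = Cen x ⊓ Cen y

/-- SPLIT. `G = N ⋊ H`, `x ∈ H`: `C(x) = C_N(x) C_H(x)` (if `x` commutes with `n h` then, by
uniqueness of the decomposition, with `n` and with `h`), so `cs x = |N : C_N(x)| |H : C_H(x)|`. -/
def SplitStmt : Prop := ∀ (G : Type u) [Group G] [Finite G] (N H : Subgroup G) (x : G),
  N.Normal → N ⊓ H = ⊥ → N ⊔ H = ⊤ → x ∈ H → cs x = (Cen x).relIndex N * (Cen x).relIndex H

/-- QREG. `b` of `q`-power order, `y ∈ C(b)` of order prime to `q`: `C(b y) = C(b) ∩ C(y)` (L3),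
so `cs (b y) = |G : C(b)| * |C(b) : C_{C(b)}(y)|`. Here `cs y` is computed in the group
`↥(Cen b)`. -/
def QRegStmt : Prop := ∀ (G : Type u) [Group G] [Finite G] (q : ℕ) (b : G),
  Prim q b → ∀ y : ↥(Cen b), (orderOf (y : G)).Coprime q → cs y * cs b = cs (b * (y : G))

/-- PRIM. An element `x` of class size `n` has a power `a` of prime-power order with `cs a = n`:
strong induction on `orderOf x`; if `orderOf x = c * d` with `c, d > 1` coprime, write `x = y z`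
with `y, z` powers of `x` of orders `c`, `d`; `cs y, cs z` divide `n`, so are `1` or `n`; not both
`1` (else `x` is central). `Cen x ≤ Cen a` since `a` is a power of `x`. -/
def PrimStmt : Prop := ∀ (G : Type u) [Group G] [Finite G] (n m : ℕ) (x : G),
  Four G n m → cs x = n → ∃ (p : ℕ) (a : G), p.Prime ∧ Prim p a ∧ cs a = n ∧ Cen x ≤ Cen a

/-- MAXCEN. `cs x = n m` is the largest class size; `C(x y) = C(x) ∩ C(y)` (L3) has index
`≤ n m`, hence equals `C(x)`. -/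
def MaxCenStmt : Prop := ∀ (G : Type u) [Group G] [Finite G] (n m : ℕ) (x y : G), Four G n m →
  cs x = n * m → y ∈ Cen x → (orderOf x).Coprime (orderOf y) → Cen x ≤ Cen y

/-- ZSYL. If all `p`-elements of `C(g)` are central in `G` then `|C(g)|_p = |Z(G)|_p`; if `x`
centralizes a noncentral `p`-element `a` then `p ∣ |C(x) : Z(G)|` (the image of `a` in
`C(x)/Z(G)` is a nontrivial `p`-element), so `|C(x)|_p > |C(g)|_p`. -/
def ZSylStmt : Prop := ∀ (G : Type u) [Group G] [Finite G] (p : ℕ) (g x a : G), p.Prime →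
  (∀ u : G, Prim p u → u ∈ Cen g → u ∈ Subgroup.center G) → Prim p a → a ∉ Subgroup.center G →
  a ∈ Cen x → (cs x).factorization p < (cs g).factorization p

/-! ## the subgroup `M` and its Sylow subgroups -/

/-- MSUB. `M = {x : cs x ∈ {1, m}}` is a normal subgroup when `m < n`: for `x, y ∈ M`, if
`cs (x y) ∉ {1, m}` then `n ∣ cs (x y) ∣ |G : C(x) ∩ C(y)| = cs x * |C(x) : C(x) ∩ C(y)|`, `cs x`
is prime to `n`, so `n ≤ |C(x) : C(x) ∩ C(y)| ≤ cs y ≤ m < n`. -/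
def MSubStmt : Prop := ∀ (G : Type u) [Group G] [Finite G] (n m : ℕ),
  Four G n m → m < n → ∃ M : Subgroup G, M.Normal ∧ ∀ x : G, x ∈ M ↔ (cs x = 1 ∨ cs x = m)

/-- E3. With `M` of MSUB: `M ∩ C(a)` is a union of `G`-classes (for `y ∈ M ∩ C(a)` of class size
`m`, `G = C(a) C(y)` by L1, so the class of `y` is `{c y c⁻¹ : c ∈ C(a)} ⊆ C(a)`), hence normal in
`G`, and `|M : M ∩ C(a)|` divides `cs a = n`; so an element `y ∈ M` of order prime to `n` lies in
`M ∩ C(a)`. -/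
def E3Stmt : Prop := ∀ (G : Type u) [Group G] [Finite G] (n m : ℕ) (a y : G),
  Four G n m → m < n → cs a = n → (cs y = 1 ∨ cs y = m) → (orderOf y).Coprime n → a * y = y * a

/-- APC. For `p ∣ n` a Sylow `p`-subgroup `P` of `M` is central in `M`: for `y ∈ M`,
`|M : C_M(y)|` divides `cs y ∈ {1, m}` (M normal), prime to `p`, so `C_M(y)` contains an
`M`-conjugate of `P`, i.e. `y` is `M`-conjugate into `C_M(P)`; hence `C_M(P) = M` by the covering
lemma `Cfsg.Agent.S4035.eq_top_of_forall_conj_mem`. -/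
def APCStmt : Prop := ∀ (G : Type u) [Group G] [Finite G] (n m p : ℕ) (M : Subgroup G),
  Four G n m → p.Prime → p ∣ n → M.Normal → (∀ x : G, x ∈ M ↔ (cs x = 1 ∨ cs x = m)) →
  ∀ (P : Sylow p M) (u y : M), u ∈ P → u * y = y * u

/-- AP. For `p ∣ n`: `A` = (image in `G` of) the Sylow `p`-subgroup of `M` (central in `M` by APC,
so unique, characteristic in `M`, normal in `G`); it consists of all `p`-elements of class size
`1` or `m`. -/
def APStmt : Prop := ∀ (G : Type u) [Group G] [Finite G] (n m p : ℕ),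
  Four G n m → m < n → p.Prime → p ∣ n → ∃ A : Subgroup G, A.Normal ∧ IsPGroup p A ∧
    (∀ u ∈ A, ∀ v ∈ A, u * v = v * u) ∧ (∀ x ∈ A, cs x = 1 ∨ cs x = m) ∧
    (∀ x : G, Prim p x → (cs x = 1 ∨ cs x = m) → x ∈ A)

/-! ## the two-prime analysis -/

/-- S33B. `D = (P R) × A`, `A` central, `|P R| = |P| |R|`, `w` a noncentral `p`-element,
`p ≠ q`. If `p ≠ r` then `w ^ |P R| ∈ A` and `w` is a power of it, so `w` is central; hence
`p = r`, and `cs w` divides `|D : A| = |P R| = q^x p^y` (as `A ≤ C(w)`). -/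
def S33BStmt : Prop := ∀ (D : Type u) [Group D] [Finite D] (q p r : ℕ) (P : Sylow q D)
  (R : Sylow r D) (A : Subgroup D), q.Prime → p.Prime → r.Prime → p ≠ q → r ≠ q →
  A ≤ Subgroup.center D →
  Nat.card ↥((P : Subgroup D) ⊔ (R : Subgroup D)) = Nat.card P * Nat.card R →
  ((P : Subgroup D) ⊔ (R : Subgroup D)).Normal →
  ((P : Subgroup D) ⊔ (R : Subgroup D)) ⊓ A = ⊥ → ((P : Subgroup D) ⊔ (R : Subgroup D)) ⊔ A = ⊤ →
  ∀ w : D, Prim p w → w ∉ Subgroup.center D → ∃ x y : ℕ, cs w ∣ q ^ x * p ^ y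

/-- S33APP. The `q`-regular class sizes of `D` are exactly `{1, n}`; apply
`Cfsg.Agent.S4033.result` (prime `q`): either `D` has an abelian `q`-complement, and then
`Cfsg.Agent.S4034.result` gives that `cs w = n` is a power of `q`; or `D = (P R) × A` and S33B
applies. (`Cfsg.Agent.S4034.ncard_carrier_eq_index` converts class cardinalities to indices.) -/
def S33AppStmt : Prop := ∀ (D : Type u) [Group D] [Finite D] (q p n : ℕ),
  q.Prime → p.Prime → p ≠ q → 1 < n →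
  (∀ y : D, (orderOf y).Coprime q → cs y = 1 ∨ cs y = n) →
  ∀ w : D, Prim p w → cs w = n → ∃ x y : ℕ, n ∣ q ^ x * p ^ y

/-- HALF. Apply S33APP to `D = ↥(Cen b)`: by QREG, for `y ∈ D` of order prime to `q`,
`cs y * m = cs (b y) ∈ {m, n m}`, so `cs y ∈ {1, n}`; and `cs w = n` in `D`. -/
def HalfStmt : Prop := ∀ (G : Type u) [Group G] [Finite G] (n m q p : ℕ) (b w : G),
  Four G n m → q.Prime → p.Prime → p ≠ q → Prim q b → cs b = m → Prim p w → w ∈ Cen b →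
  cs (b * w) = n * m → ∃ x y : ℕ, n ∣ q ^ x * p ^ y

/-- CLAIMX. `cs (a b) = n m` (L3 + divisibility). HALF for `(b, a)` gives `n ∣ q^x p^y`; HALF
for `(a, b)` in `Four G m n` (`four_symm`) gives `m ∣ p^x q^y`; `n, m > 1` coprime. -/
def ClaimXStmt : Prop := ∀ (G : Type u) [Group G] [Finite G] (n m p q : ℕ) (a b : G),
  Four G n m → p.Prime → q.Prime → p ≠ q → Prim p a → cs a = n → Prim q b → cs b = m →
  a * b = b * a →
  ((∃ j : ℕ, n = p ^ j) ∧ (∃ i : ℕ, m = q ^ i)) ∨ ((∃ j : ℕ, n = q ^ j) ∧ (∃ i : ℕ, m = p ^ i))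

/-- BCB1. `g ∈ C(x)` an `r`-element, `r ≠ s`: `C(x g) = C(x) ∩ C(g)` (L3) has index `n` or
`n m`, so `|C(x) : C(x) ∩ C(g)| ∈ {1, m}` is prime to `p`; `A ≤ C(x)` is a normal `p`-subgroup, so
`|A : A ∩ C(g)|` divides that index (A normal) and is a `p`-power: it is `1`. -/
def BCb1Stmt : Prop := ∀ (G : Type u) [Group G] [Finite G] (n m p s r : ℕ) (A : Subgroup G)
  (x g : G), Four G n m → p.Prime → p ∣ n → s.Prime → r.Prime → r ≠ s → A.Normal → IsPGroup p A →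
  Prim s x → cs x = n → (∀ v ∈ A, x * v = v * x) → Prim r g → g ∈ Cen x → ∀ v ∈ A, g * v = v * g

/-- BCB. By BCB1 every `r`-element (`r ≠ s`) of `C(x)` centralizes `y`, so `C(x) ∩ C(y)` contains
a Sylow `r`-subgroup of `C(x)` for each prime `r ≠ s`; `|C(x) : C(x) ∩ C(y)| = m` by L1. -/
def BCbStmt : Prop := ∀ (G : Type u) [Group G] [Finite G] (n m p s : ℕ) (A : Subgroup G) (x y : G),
  Four G n m → p.Prime → p ∣ n → s.Prime → A.Normal → IsPGroup p A → y ∈ A → cs y = m →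
  Prim s x → cs x = n → (∀ v ∈ A, x * v = v * x) → ∃ e : ℕ, m = s ^ e

/-- BCC. `G = C(x) C(y)` (L1), so `C(x)` is transitive on the class of `y`; `x` is central in
`C(x)`, so if `x` fixes one conjugate of `y` it fixes all. Otherwise the `s`-group `⟨x⟩` acts on
the class (of size `m`) without fixed points and `s ∣ m`. -/
def BCcStmt : Prop := ∀ (G : Type u) [Group G] [Finite G] (n m s : ℕ) (x y : G),
  Four G n m → s.Prime → cs y = m → Prim s x → cs x = n → x * y ≠ y * x → s ∣ m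

/-- STEP1. Suppose `s ∣ n`. PRIM in `Four G m n` gives a `t`-element `b`, `cs b = m`. If `t ∤ n`:
E3 gives `a b = b a`, CLAIMX gives `n = s^j` (against the hypothesis) or `n = t^j`. If `t ∣ n`:
`b ∈ A` of AP (`p := t`); by BCC `a` centralizes `A` (else `s ∣ m`); by BCB `m = s^e`, so
`s ∣ m`. -/
def Step1Stmt : Prop := ∀ (G : Type u) [Group G] [Finite G] (n m : ℕ),
  Four G n m → m < n →
  (∀ p : ℕ, p.Prime → (∃ j : ℕ, n = p ^ j) → ∀ a : G, Prim p a → cs a ≠ n) →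
  ∀ (s : ℕ) (a : G), s.Prime → Prim s a → cs a = n → ¬ s ∣ n

/-! ## Lemma F -/

/-- CONJH. `G = A ⋊ H`, `A` abelian, `g` of order `k` prime to `|A|`: write `g = u x`
(`u ∈ A`, `x ∈ H`); then `x^k = 1` and `∏_{i<k} x^i u x^{-i} = 1`. With
`c = ∏_{i<k} u_i`, `u_i = ∏_{j<i} x^j u x^{-j}`, one gets `x c x⁻¹ = u^{-k} c`; take
`a = c^{-k'}` (`k k' ≡ 1` mod `|A|`): `a⁻¹ (x a x⁻¹) = u`, i.e. `a g a⁻¹ = x`-type element of
`H`. (Or: two complements of `A` in `A ⟨g⟩`.) -/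
def ConjHStmt : Prop := ∀ (G : Type u) [Group G] [Finite G] (A H : Subgroup G) (g : G),
  A.Normal → (∀ u ∈ A, ∀ v ∈ A, u * v = v * u) → A ⊓ H = ⊥ → A ⊔ H = ⊤ →
  (orderOf g).Coprime (Nat.card A) → ∃ a ∈ A, a * g * a⁻¹ ∈ H

/-- LFDEC. `g = g₁ g₂` with `g₁ = g^(b |G:A|) ∈ A`, `g₂ = g^(a |A|)` of order prime to `|A|`
(`a |A| + b |G:A| ≡ 1` mod `orderOf g`); CONJH conjugates `g₂` into `H` by an element of `A`. -/
def LFDecStmt : Prop := ∀ (G : Type u) [Group G] [Finite G] (A H : Subgroup G) (g : G),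
  A.Normal → (∀ u ∈ A, ∀ v ∈ A, u * v = v * u) → (Nat.card A).Coprime A.index →
  A ⊓ H = ⊥ → A ⊔ H = ⊤ →
  ∃ y x : G, y ∈ A ∧ x ∈ H ∧ y * x = x * y ∧ (orderOf y).Coprime (orderOf x) ∧ cs (y * x) = cs g

/-- LF1. For `x ∈ H`: `cs x = α β` (SPLIT), `α = |A : C_A(x)|` divides `|A : A ∩ Z(G)| = n`,
`β = |H : C_H(x)|` divides `|H| = |G : A|`, prime to `n` (`n ∣ |A|`); `α β ∈ {1, n, m, n m}`. -/
def LF1Stmt : Prop := ∀ (G : Type u) [Group G] [Finite G] (n m : ℕ) (A H : Subgroup G) (x : G),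
  LCtx G n m A H → x ∈ H →
  ((Cen x).relIndex A = 1 ∨ (Cen x).relIndex A = n) ∧
    ((Cen x).relIndex H = 1 ∨ (Cen x).relIndex H = m) ∧
    cs x = (Cen x).relIndex A * (Cen x).relIndex H

/-- LF2. By LF1 either `A ≤ C(x)` or `|A : C_A(x)| = n = |A : A ∩ Z(G)|`, and then
`C_A(x) = A ∩ Z(G)` does not contain `y`. -/
def LF2Stmt : Prop := ∀ (G : Type u) [Group G] [Finite G] (n m : ℕ) (A H : Subgroup G) (x y : G),
  LCtx G n m A H → x ∈ H → y ∈ A → cs y = m → x * y = y * x → x ∈ CHA A H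

/-- LFK1. Take `y ∈ A` noncentral (`cs y = m`); `C(y) ⊇ A`, `G = A H`, so
`m = |G : C(y)| = |H : C_H(y)|`, and `C_H(y) = CHA A H` by LF2. -/
def LFK1Stmt : Prop := ∀ (G : Type u) [Group G] [Finite G] (n m : ℕ) (A H : Subgroup G),
  LCtx G n m A H → (CHA A H).relIndex H = m

/-- LFK2. `K = CHA A H`. `C(y k) = C(y) ∩ C(k)` (L3; orders coprime), `C(y) = A K` (LF2),
`C(y) ∩ C(k) = A C_K(k)`, of index `|H : C_K(k)| = |H : K| |K : C_K(k)|`; `|H : K| = m`. -/
def LFK2Stmt : Prop := ∀ (G : Type u) [Group G] [Finite G] (n m : ℕ) (A H : Subgroup G) (y k : G),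
  LCtx G n m A H → y ∈ A → cs y = m → k ∈ CHA A H →
  cs (y * k) = m * (Cen k).relIndex (CHA A H)

/-- LFK3. `K = CHA A H` is abelian: by LFK2 `m ρ ∈ {m, n m}` with `ρ = |K : C_K(k₁)|` dividing
`|H|`, prime to `n`; so `ρ = 1`. -/
def LFK3Stmt : Prop := ∀ (G : Type u) [Group G] [Finite G] (n m : ℕ) (A H : Subgroup G)
  (k1 k2 : G), LCtx G n m A H → k1 ∈ CHA A H → k2 ∈ CHA A H → k1 * k2 = k2 * k1

/-- LFZ. Take `g` with `cs g = n`, and `y, x` from LFDEC: `C(y x) = C(y) ∩ C(x)` (L3), so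
`cs y ∣ n`, `cs y = 1`, `cs x = n`; by LF1 `|H : C_H(x)| = 1` and `|A : C_A(x)| = n ≠ 1`. -/
def LFZStmt : Prop := ∀ (G : Type u) [Group G] [Finite G] (n m : ℕ) (A H : Subgroup G),
  LCtx G n m A H → ∃ z ∈ H, (∀ h ∈ H, z * h = h * z) ∧ z ∉ CHA A H

/-- LFX. Take `g` with `cs g = n m`, and `y, x` from LFDEC. If `cs y = 1` then `cs x = n m` and
LF1 gives the claim. If `cs y = m` then `x ∈ K = CHA A H` (LF2) and `cs (y x) = m` by LFK2 + LFK3,
a contradiction. -/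
def LFXStmt : Prop := ∀ (G : Type u) [Group G] [Finite G] (n m : ℕ) (A H : Subgroup G),
  LCtx G n m A H → ∃ x ∈ H, (Cen x).relIndex H = m ∧ x ∉ CHA A H

/-- LFKZ. Let `k ∈ K = CHA A H` be noncentral in `H`: `cs k = m` (LF1), and for `y ∈ A` with
`cs y = m`: `cs (y k) = m` (LFK2, LFK3), `C(y k) = C(y) ∩ C(k) ≤ C(k)` of the same index, so
`C(k) ≤ C(y)`, `z ∈ C(k)`, so `z` commutes with `y` and `z ∈ K` by LF2. -/
def LFKZStmt : Prop := ∀ (G : Type u) [Group G] [Finite G] (n m : ℕ) (A H : Subgroup G) (z : G),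
  LCtx G n m A H → z ∈ H → (∀ h ∈ H, z * h = h * z) → z ∉ CHA A H →
  ∀ k ∈ CHA A H, ∀ h ∈ H, k * h = h * k

/-- LFEND. `K = CHA A H ≤ C_H(x)` and `x ∈ C_H(x) ∖ K`, so `|H : C_H(x)| < |H : K| = m`
(LFK1). -/
def LFEndStmt : Prop := ∀ (G : Type u) [Group G] [Finite G] (n m : ℕ) (A H : Subgroup G) (x : G),
  LCtx G n m A H → (∀ k ∈ CHA A H, ∀ h ∈ H, k * h = h * k) → x ∈ H →
  (Cen x).relIndex H = m → x ∉ CHA A H → False

/-- LEMF. Take a complement `H` of `A` (`Subgroup.exists_right_complement'_of_coprime`), so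
`LCtx G n m A H`; LFZ, LFKZ, LFX, LFEND. -/
def LemFStmt : Prop := ∀ (G : Type u) [Group G] [Finite G] (n m : ℕ) (A : Subgroup G), Four G n m →
  A.Normal → (∀ u ∈ A, ∀ v ∈ A, u * v = v * u) → (Nat.card A).Coprime A.index →
  (∀ y ∈ A, cs y = 1 ∨ cs y = m) → (Subgroup.center G).relIndex A = n → False

/-! ## Step 2 -/

/-- HALLA. `A = ⨆_{p ∣ n} A_p` with `A_p` of AP (under the hypothesis `A_p` contains every
`p`-element, so it is the normal Sylow `p`-subgroup of `G`); distinct `A_p` commute elementwise;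
`A ≤ M` (MSUB). -/
def HallAStmt : Prop := ∀ (G : Type u) [Group G] [Finite G] (n m : ℕ), Four G n m → m < n →
  (∀ (p : ℕ) (x : G), p.Prime → p ∣ n → Prim p x → cs x = 1 ∨ cs x = m) →
  ∃ A : Subgroup G, A.Normal ∧ (∀ u ∈ A, ∀ v ∈ A, u * v = v * u) ∧
    (∀ y ∈ A, cs y = 1 ∨ cs y = m) ∧ (Nat.card A).Coprime A.index ∧
    (∀ p : ℕ, p.Prime → p ∣ Nat.card A → p ∣ n) ∧
    (∀ (p : ℕ) (x : G), p.Prime → p ∣ n → Prim p x → x ∈ A)

/-- AIDX. `A ∩ C(g) = A ∩ Z(G)` (an element of `A ∩ C(g)` is a product of its primary parts,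
which are `p`-elements of `C(g)` with `p ∣ n`). `ρ = |A : A ∩ C(g)|` divides `cs g` (A normal) and
`|A|`, and `cs g / ρ = |G : A C(g)|` divides `|G : A|`; every prime of `n` divides `|A|`, so `ρ`
is the part of `cs g ∈ {n, n m}` made of primes dividing `n`, that is `n`. -/
def AIdxStmt : Prop := ∀ (G : Type u) [Group G] [Finite G] (n m : ℕ) (A : Subgroup G) (g : G),
  Four G n m → A.Normal → (Nat.card A).Coprime A.index →
  (∀ p : ℕ, p.Prime → p ∣ Nat.card A → p ∣ n) →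
  (∀ (p : ℕ) (x : G), p.Prime → p ∣ n → Prim p x → x ∈ A) →
  (cs g = n ∨ cs g = n * m) →
  (∀ (p : ℕ) (u : G), p.Prime → p ∣ n → Prim p u → u ∈ Cen g → u ∈ Subgroup.center G) →
  (Subgroup.center G).relIndex A = n

/-- S2I. Otherwise all `p`-elements (`p ∣ n`) of `C(g)` are central; by ZSYL (`a := x`, `x := x`)
every noncentral `p`-element `x` has `(cs x)_p < (cs g)_p = n_p`, so `cs x = m`. HALLA gives `A`,
AIDX gives `|A : A ∩ Z(G)| = n`, LEMF gives the contradiction. -/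
def S2iStmt : Prop := ∀ (G : Type u) [Group G] [Finite G] (n m : ℕ) (g : G), Four G n m → m < n →
  (cs g = n ∨ cs g = n * m) →
  ∃ (p : ℕ) (u : G), p.Prime ∧ p ∣ n ∧ Prim p u ∧ u ∈ Cen g ∧ u ∉ Subgroup.center G

/-- S2M. `p ≠ s`; `cs u ∈ {m, n m}`; `C(a u) = C(a) ∩ C(u)` (L3) so `n m ∣ cs (a u)`. HALF in
`Four G m n` (`four_symm`; `b := a`, `q := s`, `w := u`) gives `m ∣ s^x p^y`, and `p ∤ m`. -/
def S2mStmt : Prop := ∀ (G : Type u) [Group G] [Finite G] (n m s p : ℕ) (a u : G), Four G n m →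
  s.Prime → p.Prime → p ∣ n → ¬ s ∣ n → Prim s a → cs a = n → Prim p u → u ∈ Cen a →
  u ∉ Subgroup.center G → cs u ≠ n → (∃ i : ℕ, m = s ^ i) ∧ cs (a * u) = n * m

/-- STEP3. `t ≠ s`. If some noncentral `s`-element `w` lies in `C(b)`: `cs w ∈ {n, n m}`,
`cs (b w) = n m` (L3), HALF (`q := t`, `p := s`) gives `n ∣ t^x s^y`, and `s ∤ n`. Otherwise all
`s`-elements of `C(b)` are central and ZSYL (`p := s`, `g := b`, `x := a u`, `a := a`) gives
`(n m)_s < m_s`, absurd. -/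
def Step3Stmt : Prop := ∀ (G : Type u) [Group G] [Finite G] (n m s t : ℕ) (a u b : G),
  Four G n m → s.Prime → t.Prime → ¬ s ∣ n → (∃ i : ℕ, m = s ^ i) →
  (∀ b' : G, Prim s b' → cs b' ≠ m) → Prim s a → cs a = n → cs (a * u) = n * m →
  a * u = u * a → Prim t b → cs b = m → ∃ j : ℕ, n = t ^ j

/-! ## Step 4 -/

/-- SYLIDX. If `|G : C| = s^i` and `S` is a Sylow `s`-subgroup then `|S : S ∩ C| = s^i`
(`|S : S ∩ C| ≤ |G : C|` and `|S ∩ C| ≤ |C|_s = |S| / s^i`). -/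
def SylIdxStmt : Prop := ∀ (G : Type u) [Group G] [Finite G] (s i : ℕ) (C : Subgroup G)
  (S : Sylow s G), s.Prime → C.index = s ^ i → C.relIndex (S : Subgroup G) = s ^ i

/-- V1A. `S` a Sylow `s`-subgroup; `G = C(x) S` for `x ∈ A` so `C_A(S) = A ∩ Z(G)` and
`[A, G] = [A, S]`; coprime action (`Cfsg.Agent.S0055.result`): `A = C_A(S) × [A, S]`. Take
`V1 = ⁅A, S⁆` (normal as it equals `⁅A, ⊤⁆`); its nonidentity elements are noncentral. -/
def V1aStmt : Prop := ∀ (G : Type u) [Group G] [Finite G] (t s m i : ℕ) (A : Subgroup G),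
  t.Prime → s.Prime → s ≠ t → 1 < m → m = s ^ i → A.Normal → IsPGroup t A →
  (∀ u ∈ A, ∀ v ∈ A, u * v = v * u) → (∀ x ∈ A, cs x = 1 ∨ cs x = m) → (∃ x ∈ A, cs x = m) →
  ∃ V1 : Subgroup G, V1.Normal ∧ V1 ≤ A ∧ V1 ≠ ⊥ ∧ (∀ v ∈ V1, v ≠ 1 → cs v = m) ∧
    (∀ x ∈ A, ∃ z ∈ Subgroup.center G, ∃ v ∈ V1, x = z * v)

/-- V1B2. `S₀ = S ∩ C(V1)` is a proper normal subgroup of the `s`-group `S`; take `z ∈ S` whose
image is a nontrivial central element of `S / S₀`. -/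
def V1b2Stmt : Prop := ∀ (G : Type u) [Group G] [Finite G] (s : ℕ) (S : Sylow s G)
  (V1 : Subgroup G), s.Prime → V1.Normal →
  ¬ ((S : Subgroup G) ≤ Subgroup.centralizer (V1 : Set G)) →
  ∃ z ∈ S, z ∉ Subgroup.centralizer (V1 : Set G) ∧
    ∀ y ∈ S, z⁻¹ * y⁻¹ * z * y ∈ Subgroup.centralizer (V1 : Set G)

/-- V1B3. `V1 = C_{V1}(z) × [V1, z]` (`Cfsg.Agent.S0055.result` with `A := zpowers z`), both
factors `S`-invariant (as `z` is central in `S` modulo `C(V1)`), `[V1, z] ≠ 1`. If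
`1 ≠ w ∈ C_{V1}(z)`, take `1 ≠ w' ∈ [V1, z]`: `C_S(w w') = C_S(w) ∩ C_S(w')` and all three have
index `d` in `S`, so `C_S(w) = C_S(w')`; but `z ∈ C_S(w)`, `z ∉ C_S(w')`. -/
def V1b3Stmt : Prop := ∀ (G : Type u) [Group G] [Finite G] (t s d : ℕ) (S : Sylow s G)
  (V1 : Subgroup G) (z : G), t.Prime → s.Prime → s ≠ t → V1.Normal → IsPGroup t V1 →
  (∀ u ∈ V1, ∀ v ∈ V1, u * v = v * u) →
  (∀ v ∈ V1, v ≠ 1 → (Cen v).relIndex (S : Subgroup G) = d) → z ∈ S →
  z ∉ Subgroup.centralizer (V1 : Set G) →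
  (∀ y ∈ S, z⁻¹ * y⁻¹ * z * y ∈ Subgroup.centralizer (V1 : Set G)) →
  ∀ v ∈ V1, z * v = v * z → v = 1

/-- V1B. `S` a Sylow `s`-subgroup; SYLIDX: `|S : C_S(v)| = s^i > 1` for `1 ≠ v ∈ V1`, so `S` does
not centralize `V1`; V1B2 gives `z`, V1B3 (`d := s^i`) gives the claim with `h := z`. -/
def V1bStmt : Prop := ∀ (G : Type u) [Group G] [Finite G] (t s i : ℕ) (V1 : Subgroup G),
  t.Prime → s.Prime → s ≠ t → 0 < i → V1.Normal → IsPGroup t V1 → V1 ≠ ⊥ →
  (∀ u ∈ V1, ∀ v ∈ V1, u * v = v * u) → (∀ v ∈ V1, v ≠ 1 → cs v = s ^ i) →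
  ∃ h : G, Prim s h ∧ ∀ v ∈ V1, h * v = v * h → v = 1

/-- FIXPT. The `t`-group `⟨u⟩` acts by conjugation on the `t`-group `V1 ≠ 1`; the number of fixed
points is `≡ |V1|` mod `t` (`IsPGroup.card_modEq_card_fixedPoints`), and `1` is fixed. -/
def FixPtStmt : Prop := ∀ (G : Type u) [Group G] [Finite G] (t : ℕ) (V1 : Subgroup G) (u : G),
  t.Prime → V1.Normal → IsPGroup t V1 → V1 ≠ ⊥ → Prim t u → ∃ v ∈ V1, v ≠ 1 ∧ u * v = v * u

/-- STEP4. AP (`p := t`) gives `A ∋ b`; V1A gives `V1`; V1B gives an `s`-element `h` with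
`C_{V1}(h) = 1`; `h` is noncentral, `cs h ≠ m`, so S2I (`g := h`) gives a noncentral `t`-element
`u ∈ C(h)`. `cs u ≠ n`; if `cs u = m` then `u ∈ A`, `u = z v`, `v ∈ C_{V1}(h) = 1`, `u` central.
So `cs u = n m`; FIXPT gives `1 ≠ v ∈ C_{V1}(u)`; MAXCEN gives `C(u) ≤ C(h)`, so `v ∈ C(h)`. -/
def Step4Stmt : Prop := ∀ (G : Type u) [Group G] [Finite G] (n m s t : ℕ) (b : G), Four G n m →
  m < n → s.Prime → t.Prime → s ≠ t → (∃ i : ℕ, m = s ^ i) → (∃ j : ℕ, n = t ^ j) →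
  (∀ b' : G, Prim s b' → cs b' ≠ m) → (∀ a : G, Prim t a → cs a ≠ n) →
  Prim t b → cs b = m → False

/-- CASEB. STEP1 gives `H1 : s-elements of class size n have s ∤ n`. PRIM gives an `s`-element
`a`, `cs a = n`, and (in `Four G m n`) a `t`-element `b`, `cs b = m`. S2I (`g := a`) gives `p, u`;
`cs u ≠ n` by `H1`; S2M gives `m = s^i`, `cs (a u) = n m`; STEP3 gives `n = t^j`; `s ≠ t`;
STEP4. -/
def CaseBStmt : Prop := ∀ (G : Type u) [Group G] [Finite G] (n m : ℕ), Four G n m → m < n →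
  (∀ q : ℕ, q.Prime → (∃ i : ℕ, m = q ^ i) → ∀ b : G, Prim q b → cs b ≠ m) →
  (∀ p : ℕ, p.Prime → (∃ j : ℕ, n = p ^ j) → ∀ a : G, Prim p a → cs a ≠ n) → False

/-! ## Theorem A -/

/-- NPC. `Cfsg.Agent.S4127.result` (`p := q`, `a := i`; no class size is divisible by
`q^(i+1)` as `n` is prime to `q`), then unfold `Cfsg.HasNormalPComplement`. -/
def NPCStmt : Prop := ∀ (G : Type u) [Group G] [Finite G] (n m q i : ℕ) (b : G), Four G n m →
  q.Prime → m = q ^ i → Prim q b → cs b = m →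
  ∃ K : Subgroup G, K.Normal ∧ (Nat.card K).Coprime q ∧ ∃ e : ℕ, K.index = q ^ e

/-- KQ. `K` a normal `q`-complement, `Q` a Sylow `q`-subgroup: `K ∩ Q = 1`, `K Q = G`
(cardinalities), and every element of order prime to `q` lies in `K` (its image in `G / K`). -/
def KQStmt : Prop := ∀ (G : Type u) [Group G] [Finite G] (q : ℕ) (K : Subgroup G) (Q : Sylow q G),
  q.Prime → K.Normal → (Nat.card K).Coprime q → (∃ e : ℕ, K.index = q ^ e) →
  K ⊓ (Q : Subgroup G) = ⊥ ∧ K ⊔ (Q : Subgroup G) = ⊤ ∧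
    (∀ x : G, (orderOf x).Coprime q → x ∈ K)

/-- W1. `|K : K ∩ C(b)|` divides `cs b` (K normal: `Subgroup.relIndex_dvd_index_of_normal`) and
`|K|`. -/
def W1Stmt : Prop := ∀ (G : Type u) [Group G] [Finite G] (K : Subgroup G) (b : G), K.Normal →
  (Nat.card K).Coprime (cs b) → K ≤ Cen b

/-- W2. QREG: `cs u * m = cs (b u) ∈ {m, n m}` (`u` has order prime to `q`), so `cs u ∈ {1, n}`
in `↥(Cen b)`, prime to `q`. -/
def W2Stmt : Prop := ∀ (G : Type u) [Group G] [Finite G] (n m q : ℕ) (K : Subgroup G) (b : G)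
  (u : ↥(Cen b)), Four G n m → q.Prime → (∃ i : ℕ, m = q ^ i) → K.Normal →
  (Nat.card K).Coprime q → cs b = m → Prim q b → (u : G) ∈ K → ¬ q ∣ cs u

/-- W3. A Sylow `q`-subgroup of `C(u)` is Sylow in `C` (index prime to `q`), so `c T c⁻¹ ≤ C(u)`
for some `c = k y` (`k ∈ K`, `y ∈ T`); then `k T k⁻¹ ≤ C(u)`. -/
def W3Stmt : Prop := ∀ (C : Type u) [Group C] [Finite C] (q : ℕ) (K : Subgroup C) (T : Sylow q C)
  (u : C), q.Prime → K.Normal → K ⊔ (T : Subgroup C) = ⊤ → ¬ q ∣ cs u →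
  ∃ k ∈ K, ∀ x ∈ T, x * (k⁻¹ * u * k) = (k⁻¹ * u * k) * x

/-- W4. Covering: `Cfsg.Agent.S4035.eq_top_of_forall_conj_mem` in the group `↥K` for the
subgroup `K ∩ C(T)`. -/
def W4Stmt : Prop := ∀ (C : Type u) [Group C] [Finite C] (K T : Subgroup C), K.Normal →
  (∀ u ∈ K, ∃ k ∈ K, ∀ x ∈ T, x * (k⁻¹ * u * k) = (k⁻¹ * u * k) * x) →
  ∀ x ∈ T, ∀ u ∈ K, x * u = u * x

/-- W. Work in `C = ↥(Cen b)`: `K ≤ C(b)` (W1), `K' = K.subgroupOf (Cen b)`, `T` a Sylow
`q`-subgroup of `C` containing `Q ∩ C(b)`; `K' ⊔ T = ⊤` (each `c ∈ C(b)` is `k y`, `k ∈ K`,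
`y ∈ Q ∩ C(b)`, by KQ); W2, W3, W4 give that `T` centralizes `K'`. -/
def WStmt : Prop := ∀ (G : Type u) [Group G] [Finite G] (n m q : ℕ) (K : Subgroup G) (Q : Sylow q G)
  (b x : G), Four G n m → q.Prime → (∃ i : ℕ, m = q ^ i) → K.Normal → (Nat.card K).Coprime q →
  (∃ e : ℕ, K.index = q ^ e) → b ∈ Q → cs b = m → x ∈ Q → x ∈ Cen b → ∀ u ∈ K, x * u = u * x

/-- ITONIL. `Cfsg.Agent.S4134.result` (Itô): `n = p^a`, the Sylow `p`-subgroup `P` is normal with
an abelian normal complement commuting with it; so `K` is nilpotent (e.g. NILPROD-style, or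
`isNilpotent_of_product_of_sylow_group`). -/
def ItoNilStmt : Prop := ∀ (K : Type u) [Group K] [Finite K] (n : ℕ), 1 < n →
  (∀ x : K, cs x = 1 ∨ cs x = n) → (∃ x : K, cs x = n) → Group.IsNilpotent K ∧ IsPrimePow n

/-- NILPROD. `K × Q → G`, `(u, x) ↦ u x` is a surjective homomorphism. -/
def NilProdStmt : Prop := ∀ (G : Type u) [Group G] [Finite G] (K Q : Subgroup G), K ⊔ Q = ⊤ →
  (∀ x ∈ Q, ∀ u ∈ K, x * u = u * x) → Group.IsNilpotent K → Group.IsNilpotent Q →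
  Group.IsNilpotent G

/-- A1A. `G = K × Q` (KQ). For `u ∈ K`: `C(u) ⊇ Q`, so `cs u` (in `G`) equals the class size in
`↥K`, divides `|K|`, is prime to `q`: it is `1` or `n`. For `g = u x` (`u ∈ K`, `x ∈ Q`) with
`cs g = n`: if `u` is central in `K` then `cs g = cs x` is a power of `q` (SPLIT). -/
def A1aStmt : Prop := ∀ (G : Type u) [Group G] [Finite G] (n m q : ℕ) (K : Subgroup G)
  (Q : Sylow q G), Four G n m → q.Prime → (∃ i : ℕ, m = q ^ i) → K.Normal →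
  (Nat.card K).Coprime q → (∃ e : ℕ, K.index = q ^ e) → (∀ x ∈ Q, ∀ u ∈ K, x * u = u * x) →
  (∀ u : K, cs u = 1 ∨ cs u = n) ∧ (∃ u : K, cs u = n)

/-- A1. A1A + ITONIL: `K` nilpotent, `n` a prime power; `Q` is a `q`-group, so nilpotent;
NILPROD (with KQ); `m = q^i`, `i ≠ 0`. -/
def A1Stmt : Prop := ∀ (G : Type u) [Group G] [Finite G] (n m q : ℕ) (K : Subgroup G)
  (Q : Sylow q G), Four G n m → q.Prime → (∃ i : ℕ, m = q ^ i) → K.Normal →
  (Nat.card K).Coprime q → (∃ e : ℕ, K.index = q ^ e) → (∀ x ∈ Q, ∀ u ∈ K, x * u = u * x) →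
  Goal G n m

/-- A2H. SPLIT (with KQ): `cs h = α β`, `α = |K : C_K(h)| ≠ 1` prime to `q`, `β = |Q : C_Q(h)|` a
power of `q`; so `α = n`. If `β = 1` then `h` is central in `Q`, `h ∈ C_Q(b)` centralizes `K`
(context), absurd; so `β = m`. -/
def A2HStmt : Prop := ∀ (G : Type u) [Group G] [Finite G] (n m q : ℕ) (K : Subgroup G)
  (Q : Sylow q G) (h : G), A2Ctx G n m q K Q → h ∈ Q → (∃ u ∈ K, h * u ≠ u * h) →
  cs h = n * m ∧ (Cen h).relIndex K = n

/-- A2K1. `b ∈ Q` with `cs b = m`; `K ≤ C(b)` (W1); `C(b u) = C(b) ∩ C(u)` (L3), so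
`ρ := |K : C_K(u)| = |K : K ∩ C(b u)|`; `cs (b u) = ρ * |G : K C(b u)|` and the second factor
divides `|G : K| = q^e`, while `ρ` divides `|K|`: `ρ` is the `q'`-part of
`cs (b u) ∈ {1, n, m, n m}`. -/
def A2K1Stmt : Prop := ∀ (G : Type u) [Group G] [Finite G] (n m q : ℕ) (K : Subgroup G)
  (Q : Sylow q G) (u : G), A2Ctx G n m q K Q → u ∈ K →
  (Cen u).relIndex K = 1 ∨ (Cen u).relIndex K = n

/-- A2K2. Suppose `K` abelian. PRIM gives a `p`-element `a` with `cs a = n`. If `p = q`: a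
conjugate `a'` of `a` lies in `Q`; SPLIT: `|Q : C_Q(a')|` is a `q`-power dividing `n`, so `a'` is
central in `Q`, lies in `C_Q(b)`, centralizes `K` (context), and `cs a' = 1`. If `p ≠ q`: `a ∈ K`
(KQ), `K ≤ C(a)`, `n = cs a` divides `|G : K| = q^e`. -/
def A2K2Stmt : Prop := ∀ (G : Type u) [Group G] [Finite G] (n m q : ℕ) (K : Subgroup G)
  (Q : Sylow q G), A2Ctx G n m q K Q → ∃ u ∈ K, ∃ v ∈ K, u * v ≠ v * u

/-- A2K3. ITONIL for the group `↥K`: class sizes `1` or `n` by A2K1, and `n` occurs by A2K2. -/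
def A2K3Stmt : Prop := ∀ (G : Type u) [Group G] [Finite G] (n m q : ℕ) (K : Subgroup G)
  (Q : Sylow q G), A2Ctx G n m q K Q → Group.IsNilpotent K

/-- Z2D. `φ^k x = x * d^k` by induction, so `d ^ orderOf φ = 1`, and `orderOf φ` is prime to
`|K|`. -/
def Z2DStmt : Prop := ∀ (K : Type u) [Group K] [Finite K] (φ : MulAut K) (x d : K),
  (orderOf φ).Coprime (Nat.card K) → φ x = x * d → φ d = d → d = 1

/-- Z2A. `F = FixSub φ` is abelian and contains `u`, so `F ≤ C(u)`; `u` is noncentral, so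
`|K : C(u)| = |K : F|`; hence `C(u) = F`. -/
def Z2AStmt : Prop := ∀ (K : Type u) [Group K] [Finite K] (φ : MulAut K) (u x : K), Z2Ctx K φ →
  φ u = u → u ∉ Subgroup.center K → x * u = u * x → φ x = x

/-- Z2B. If `F = FixSub φ ≤ Z(K)`: take `u` noncentral; `C(u)` contains `Z(K) ≥ F` and `u`, so
`|K : C(u)| < |K : F|`, against the context. -/
def Z2BStmt : Prop := ∀ (K : Type u) [Group K] [Finite K] (φ : MulAut K), Z2Ctx K φ →
  ∃ u : K, φ u = u ∧ u ∉ Subgroup.center K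

/-- Z2E. `u ∈ Z₂(K) ∖ Z(K)` fixed by `φ`. For every `x`: `u x u⁻¹ x⁻¹` is central, so fixed by
`φ` (Z2A); hence `d := x⁻¹ * φ x` commutes with `u`, so `φ d = d` (Z2A) and `d = 1` (Z2D). So
`φ` fixes everything and `K` is abelian by the context. -/
def Z2EStmt : Prop := ∀ (K : Type u) [Group K] [Finite K] (φ : MulAut K) (u : K), Z2Ctx K φ →
  φ u = u → u ∉ Subgroup.center K → u ∈ Subgroup.upperCentralSeries K 2 → False

/-- Z2F. `K` nilpotent nonabelian: take `x ∈ Z₂(K) ∖ Z(K)`. Take `u₀` from Z2B; fixed points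
commute with `u₀`... For `y` fixed by `φ`: `x y x⁻¹ y⁻¹` is central, so fixed (Z2A via `u₀`), so
`d := x⁻¹ * φ x` commutes with every fixed point `y`, in particular with `u₀`, so `φ d = d`; and
`d ∈ Z₂(K)` (characteristic); so `d` is central by hypothesis; Z2D gives `d = 1`, `φ x = x`, and
then `x` is central by hypothesis. -/
def Z2FStmt : Prop := ∀ (K : Type u) [Group K] [Finite K] (φ : MulAut K), Z2Ctx K φ →
  Group.IsNilpotent K →
  (∀ u : K, φ u = u → u ∈ Subgroup.upperCentralSeries K 2 → u ∈ Subgroup.center K) → False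

/-- Z2ABSA. Cases on the existence of a fixed point in `Z₂(K) ∖ Z(K)`: Z2E / Z2F. -/
def Z2AbsAStmt : Prop := ∀ (K : Type u) [Group K] [Finite K] (φ : MulAut K), Z2Ctx K φ →
  Group.IsNilpotent K → False

/-- Z2ABS. Apply Z2ABSA to `↥K` and `φ := MulAut.conjNormal h` (order divides `orderOf h`;
`FixSub φ = (Cen h).subgroupOf K`; class sizes in `↥K` are `(Cen u).relIndex K`). -/
def Z2AbsStmt : Prop := ∀ (G : Type u) [Group G] [Finite G] (K : Subgroup G) (h : G), K.Normal →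
  Group.IsNilpotent K → (orderOf h).Coprime (Nat.card K) → (∃ u ∈ K, ∃ v ∈ K, u * v ≠ v * u) →
  (∀ u ∈ K, ∀ v ∈ K, u ∈ Cen h → v ∈ Cen h → u * v = v * u) →
  (∀ u ∈ K, (∃ v ∈ K, u * v ≠ v * u) → (Cen u).relIndex K = (Cen h).relIndex K) → False

/-- A2. A2H: `cs h = n m`, `|K : C_K(h)| = n`. A2K1/A2K2/A2K3: `K` nonabelian nilpotent with
`|K : C_K(u)| = n` for `u ∈ K` noncentral in `K`. MAXCEN (`x := h`): `C(h) ≤ C(u)` for
`u ∈ C_K(h)` (orders coprime), so `C_K(h)` is abelian. Z2ABS. -/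
def A2Stmt : Prop := ∀ (G : Type u) [Group G] [Finite G] (n m q : ℕ) (K : Subgroup G)
  (Q : Sylow q G) (h : G), A2Ctx G n m q K Q → h ∈ Q → (∃ u ∈ K, h * u ≠ u * h) → False

/-- THMA. NPC gives `K`; take a Sylow `q`-subgroup `Q ∋ b`; W gives the context property. If `Q`
centralizes `K`: A1. Otherwise A2. -/
def ThmAStmt : Prop := ∀ (G : Type u) [Group G] [Finite G] (n m q : ℕ) (b : G), Four G n m →
  q.Prime → (∃ i : ℕ, m = q ^ i) → Prim q b → cs b = m → Goal G n m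

/-- FINAL. WLOG `m < n` (`four_symm`, `goal_symm`); if the conclusion fails, THMA (for `(n, m)`
and for `(m, n)`) gives the two hypotheses of CASEB. -/
def FinalStmt : Prop := ∀ (G : Type u) [Group G] [Finite G] (n m : ℕ), Four G n m → Goal G n m

end Cfsg.Agent.Lib.Helper4.FC
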