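import Mathlib
import Cfsg.Agent.Lib.Helper18.LSDefs

/-!
# Project LS (helper18, S2333), piece INDEP

Simultaneous eigenvectors of a family of operators with pairwise distinct characters are linearly
independent, so their number is at most the dimension.
-/

set_option autoImplicit false

namespace Cfsg.Agent.Lib.Helper18.LS

open Matrix

universe u

variable {F : Type u} [Field F] {n : ℕ}

-- piece INDEP
theorem card_le_finrank_of_eigen {V : Type*} [AddCommGroup V] [Module ℂ V]
    [FiniteDimensional ℂ V] {ι A : Type*} [Finite ι] (T : A → V →ₗ[ℂ] V) (χ : ι → A → ℂ)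
    (hχ : Function.Injective χ) (v : ι → V) (hv : ∀ i, v i ≠ 0)
    (h : ∀ i a, T a (v i) = χ i a • v i) : Nat.card ι ≤ Module.finrank ℂ V := by
  classical
  have hli : LinearIndependent ℂ v := by
    rw [linearIndependent_iff']
    intro s
    induction s using Finset.induction_on with
    | empty =>
      intro g _ i hi
      exact absurd hi (Finset.notMem_empty i)
    | insert j s hj ih =>
      intro g hg
      rw [Finset.sum_insert hj] at hg
      have key : ∀ i ∈ s, g i = 0 := by
        intro i hi
        have hij : i ≠ j := fun h' => hj (h' ▸ hi)
        obtain ⟨a, ha⟩ : ∃ a, χ i a ≠ χ j a := by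
          by_contra hcon
          push Not at hcon
          exact hij (hχ (funext hcon))
        have h1 : ∑ k ∈ s, (g k * (χ k a - χ j a)) • v k = 0 := by
          have h2 := congrArg (T a) hg
          rw [map_add, map_smul, map_sum, map_zero, h j a] at h2
          have h3 : ∑ k ∈ s, (T a) (g k • v k) = ∑ k ∈ s, (g k * χ k a) • v k := by
            refine Finset.sum_congr rfl fun k _ => ?_
            rw [map_smul, h k a, smul_smul]
          rw [h3] at h2
          have h4 : χ j a • (g j • v j + ∑ k ∈ s, g k • v k) = 0 := by rw [hg, smul_zero]
          rw [smul_add, Finset.smul_sum] at h4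
          have h5 : ∑ k ∈ s, (g k * (χ k a - χ j a)) • v k =
              (g j • χ j a • v j + ∑ k ∈ s, (g k * χ k a) • v k) -
                (χ j a • g j • v j + ∑ k ∈ s, χ j a • g k • v k) := by
            rw [add_sub_add_comm, smul_comm (g j) (χ j a) (v j), sub_self, zero_add,
              ← Finset.sum_sub_distrib]
            refine Finset.sum_congr rfl fun k _ => ?_
            rw [smul_smul, ← sub_smul]
            congr 1
            ring
          rw [h5, h2, h4, sub_zero]
        have h6 := ih (fun k => g k * (χ k a - χ j a)) h1 i hi
        rcases mul_eq_zero.mp h6 with h7 | h7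
        · exact h7
        · exact absurd (sub_eq_zero.mp h7) ha
      intro i hi
      rcases Finset.mem_insert.mp hi with h8 | hi'
      · have h1 : ∑ k ∈ s, g k • v k = 0 :=
          Finset.sum_eq_zero fun k hk => by rw [key k hk, zero_smul]
        rw [h1, add_zero] at hg
        rw [h8]
        exact (smul_eq_zero.mp hg).resolve_right (hv j)
      · exact key i hi'
  have := Fintype.ofFinite ι
  rw [Nat.card_eq_fintype_card]
  exact hli.fintype_card_le_finrank

end Cfsg.Agent.Lib.Helper18.LS
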