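import Mathlib
import Cfsg.Agent.Lib.Helper25.InvIdealDefs
import Cfsg.Agent.Lib.Helper39.InvCK
import Cfsg.Agent.Lib.Helper39.InvCM
import Cfsg.Agent.Lib.Helper92.InvLA
import Cfsg.Agent.Lib.Helper2.InvFL

/-!
# Involution classes (S2174, architect helper25): piece FB

A rank certificate inside a stable coordinate subspace: two products of root elements are not
conjugate by a block-triangular matrix.  (Adapted from helper39's `inv_chev_not_conj`.)
-/

set_option autoImplicit false

namespace Cfsg.Agent.Lib.Helper25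

open Cfsg Cfsg.Lie Matrix Cfsg.Agent.Lib.Helper24

variable {F : Type*} [Field F]

theorem fb_codeOf_inj (D : ChevalleyDatum) (r r' : D.Idx) (h : codeOf D r = codeOf D r') :
    r = r' := by
  rcases r with v | u <;> rcases r' with v' | u'
  · have h' : v.val = v'.val := h
    exact congrArg Sum.inl (Fin.ext h')
  · have h' : v.val = D.rank + u'.val := h
    have := v.isLt
    omega
  · have h' : D.rank + u.val = v'.val := h
    have := v'.isLt
    omega
  · have h' : D.rank + u.val = D.rank + u'.val := h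
    exact congrArg Sum.inr (Fin.ext (by omega))

/-- criterion A: the vectors of the span vanish off `S` -/
theorem fb_critA (D : ChevalleyDatum) (S : List ℕ) (x : D.Idx → F)
    (hx : x ∈ Submodule.span F (Set.range fun j : Fin S.length => bv F D S[j.val])) :
    ∀ row : D.Idx, codeOf D row ∉ S → x row = 0 := by
  induction hx using Submodule.span_induction with
  | mem y hy =>
    obtain ⟨j, rfl⟩ := hy
    intro row hrow
    show bv F D S[j.val] row = 0
    rw [bv_apply, if_neg]
    intro h
    exact hrow (h ▸ List.getElem_mem j.isLt)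
  | zero => intro row _; rfl
  | add y z _ _ hy hz =>
    intro row hrow
    rw [Pi.add_apply, hy row hrow, hz row hrow, add_zero]
  | smul c y _ hy =>
    intro row hrow
    rw [Pi.smul_apply, hy row hrow, smul_zero]

/-- criterion B: a vector vanishing off `S` lies in the span -/
theorem fb_critB (D : ChevalleyDatum) (S : List ℕ) (x : D.Idx → F)
    (hx : ∀ row : D.Idx, codeOf D row ∉ S → x row = 0) :
    x ∈ Submodule.span F (Set.range fun j : Fin S.length => bv F D S[j.val]) := by
  classical
  have hsum : x = ∑ row : D.Idx, x row • bv F D (codeOf D row) := by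
    funext r
    rw [Finset.sum_apply]
    rw [Finset.sum_eq_single r]
    · rw [Pi.smul_apply, bv_apply, if_pos rfl, smul_eq_mul, mul_one]
    · intro row _ hne
      rw [Pi.smul_apply, bv_apply, if_neg, smul_zero]
      intro h
      exact hne (fb_codeOf_inj D r row h).symm
    · intro h
      exact absurd (Finset.mem_univ r) h
  rw [hsum]
  refine Submodule.sum_mem _ fun row _ => ?_
  by_cases hrow : codeOf D row ∈ S
  · obtain ⟨i, hi, hSi⟩ := List.getElem_of_mem hrow
    refine Submodule.smul_mem _ _ (Submodule.subset_span ⟨⟨i, hi⟩, ?_⟩)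
    show bv F D S[i] = bv F D (codeOf D row)
    rw [hSi]
  · rw [hx row hrow, zero_smul]
    exact Submodule.zero_mem _

theorem fb_supChk (D : ChevalleyDatum) (S : List ℕ) (K : List (ℕ × ℕ))
    (h : supChk D S K = true) :
    ∀ e ∈ K, ∀ c, c < D.rank + D.nroots → e.2.testBit c = true → c ∈ S := by
  intro e he c hc hbit
  unfold supChk at h
  have h0 := List.all_eq_true.mp h e he
  have h1 := List.all_eq_true.mp h0 c (List.mem_range.mpr hc)
  rw [hbit] at h1
  simpa using h1

theorem fb_allMem (S : List ℕ) (R : List (ℕ × ℕ))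
    (h : R.all (fun e => decide (e.1 ∈ S)) = true) : ∀ e ∈ R, e.1 ∈ S := by
  intro e he
  exact of_decide_eq_true (List.all_eq_true.mp h e he)

theorem inv_chev_not_conj_ideal [CharP F 2] (D : ChevalleyDatum) (S : List ℕ)
    (Y₁ Y₂ : List ℕ) (h₁ : ∀ r ∈ Y₁, r < D.nroots) (h₂ : ∀ r ∈ Y₂, r < D.nroots)
    (K R : List (ℕ × ℕ))
    (hK : fixChk2 D Y₁ K = true) (hKS : supChk D S K = true)
    (hR : ranChk2 D Y₂ R = true) (hRS : R.all (fun e => decide (e.1 ∈ S)) = true)
    (hlen : S.length < K.length + R.length)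
    (P : GL D.Idx F) (hP : Matrix.BlockTriangular (P : Matrix D.Idx D.Idx F) (codeLvl D S)) :
    (P : Matrix D.Idx D.Idx F) * xProd F D Y₁ ≠ xProd F D Y₂ * (P : Matrix D.Idx D.Idx F) := by
  classical
  intro hconj
  unfold fixChk2 at hK
  unfold ranChk2 at hR
  rw [Bool.and_eq_true] at hK hR
  obtain ⟨hK1, hK2⟩ := hK
  obtain ⟨hR1, hR2⟩ := hR
  rw [List.all_eq_true] at hK1 hR1
  obtain ⟨hKd, hKz⟩ := ck_triOK K hK2
  obtain ⟨hRd, hRz⟩ := ck_triOK _ hR2
  have hKmem : ∀ j : Fin K.length, apps2 D Y₁ (K[j.val]).2 = (K[j.val]).2 ∧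
      (K[j.val]).2 < 2 ^ (D.rank + D.nroots) := by
    intro j
    have h := hK1 _ (List.getElem_mem j.isLt)
    rw [Bool.and_eq_true, beq_iff_eq, decide_eq_true_eq] at h
    exact h
  have hRmem : ∀ j : Fin R.length, (R[j.val]).1 < D.rank + D.nroots ∧
      (R[j.val]).2 < D.rank + D.nroots := by
    intro j
    have h := hR1 _ (List.getElem_mem j.isLt)
    rw [Bool.and_eq_true, decide_eq_true_eq, decide_eq_true_eq] at h
    exact h
  have hKp : ∀ j : Fin K.length, ∃ row : D.Idx, codeOf D row = (K[j.val]).1 := fun j =>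
    ck_exists_row D _ (ck_testBit_lt _ _ _ (hKmem j).2 (hKd j.val j.isLt))
  have hRp : ∀ j : Fin R.length, ∃ row : D.Idx, codeOf D row = (R[j.val]).2 := fun j =>
    ck_exists_row D _ (hRmem j).2
  choose pK hpK using hKp
  choose pR hpR using hRp
  have hv : LinearIndependent F (fun j : Fin K.length => vec2 F D (K[j.val]).2) := by
    apply inv_linIndep_tri K.length _ pK
    · intro a
      show (if (K[a.val]).2.testBit (codeOf D (pK a)) then (1 : F) else 0) ≠ 0
      rw [hpK a, hKd a.val a.isLt]
      simp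
    · intro a b hab
      show (if (K[b.val]).2.testBit (codeOf D (pK a)) then (1 : F) else 0) = 0
      rw [hpK a, hKz a.val b.val a.isLt b.isLt hab]
      simp
  have hfix : ∀ j : Fin K.length,
      (xProd F D Y₁) *ᵥ (vec2 F D (K[j.val]).2) = vec2 F D (K[j.val]).2 := by
    intro j
    rw [apps2_sound D Y₁ h₁, (hKmem j).1]
  have hlenR : (R.map fun e => (e.2, apps2 D Y₂ (1 <<< e.1) ^^^ (1 <<< e.1))).length = R.length :=
    List.length_map _
  have hwEq : ∀ j : Fin R.length,
      (xProd F D Y₂) *ᵥ (vec2 F D (1 <<< (R[j.val]).1)) - vec2 F D (1 <<< (R[j.val]).1) =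
        vec2 F D (apps2 D Y₂ (1 <<< (R[j.val]).1) ^^^ (1 <<< (R[j.val]).1)) := by
    intro j
    rw [apps2_sound D Y₂ h₂, cm_vec2_xor]
    funext row
    rw [Pi.sub_apply, Pi.add_apply]
    exact CharTwo.sub_eq_add _ _
  have hw : LinearIndependent F (fun j : Fin R.length =>
      (xProd F D Y₂) *ᵥ (vec2 F D (1 <<< (R[j.val]).1)) - vec2 F D (1 <<< (R[j.val]).1)) := by
    apply inv_linIndep_tri R.length _ pR
    · intro a
      rw [hwEq a]
      show (if (apps2 D Y₂ (1 <<< (R[a.val]).1) ^^^ (1 <<< (R[a.val]).1)).testBit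
        (codeOf D (pR a)) then (1 : F) else 0) ≠ 0
      have h := hRd a.val (by rw [hlenR]; exact a.isLt)
      rw [List.getElem_map] at h
      rw [hpR a, h]
      simp
    · intro a b hab
      rw [hwEq b]
      show (if (apps2 D Y₂ (1 <<< (R[b.val]).1) ^^^ (1 <<< (R[b.val]).1)).testBit
        (codeOf D (pR a)) then (1 : F) else 0) = 0
      have h := hRz a.val b.val (by rw [hlenR]; exact a.isLt) (by rw [hlenR]; exact b.isLt) hab
      rw [List.getElem_map, List.getElem_map] at h
      rw [hpR a, h]
      simp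
  -- the stable coordinate subspace
  obtain ⟨W, hWdef⟩ : ∃ W : Submodule F (D.Idx → F),
      W = Submodule.span F (Set.range fun j : Fin S.length => bv F D S[j.val]) := ⟨_, rfl⟩
  have hA : ∀ x ∈ W, ∀ row : D.Idx, codeOf D row ∉ S → x row = 0 := by
    intro x hx
    rw [hWdef] at hx
    exact fb_critA D S x hx
  have hB : ∀ x : D.Idx → F, (∀ row : D.Idx, codeOf D row ∉ S → x row = 0) → x ∈ W := by
    intro x hx
    rw [hWdef]
    exact fb_critB D S x hx
  have hfin : Module.finrank F W ≤ S.length := by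
    rw [hWdef]
    have h := finrank_range_le_card (R := F) (fun j : Fin S.length => bv F D S[j.val])
    rw [Fintype.card_fin] at h
    exact h
  have hPW : ∀ x ∈ W, (P : Matrix D.Idx D.Idx F).mulVec x ∈ W := by
    intro x hx
    apply hB
    intro row hrow
    show ∑ col, (P : Matrix D.Idx D.Idx F) row col * x col = 0
    refine Finset.sum_eq_zero fun col _ => ?_
    by_cases hcol : codeOf D col ∈ S
    · have h0 : (P : Matrix D.Idx D.Idx F) row col = 0 := by
        apply hP
        show codeLvl D S col < codeLvl D S row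
        unfold codeLvl
        rw [if_pos hcol, if_neg hrow]
        exact Nat.zero_lt_one
      rw [h0, zero_mul]
    · rw [hA x hx col hcol, mul_zero]
  have hvW : ∀ j : Fin K.length, vec2 F D (K[j.val]).2 ∈ W := by
    intro j
    apply hB
    intro row hrow
    show (if (K[j.val]).2.testBit (codeOf D row) then (1 : F) else 0) = 0
    have h0 := fb_supChk D S K hKS _ (List.getElem_mem j.isLt) (codeOf D row)
      (cm_codeOf_lt D row)
    have h1 : (K[j.val]).2.testBit (codeOf D row) = false := by
      cases hb : (K[j.val]).2.testBit (codeOf D row)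
      · rfl
      · exact absurd (h0 hb) hrow
    rw [h1]
    simp
  have hwW : ∀ j : Fin R.length, vec2 F D (1 <<< (R[j.val]).1) ∈ W := by
    intro j
    rw [cm_vec2_shift]
    have h0 := fb_allMem S R hRS _ (List.getElem_mem j.isLt)
    obtain ⟨i, hi, hSi⟩ := List.getElem_of_mem h0
    rw [hWdef]
    refine Submodule.subset_span ⟨⟨i, hi⟩, ?_⟩
    show bv F D S[i] = bv F D (R[j.val]).1
    rw [hSi]
  exact inv_not_conj_of_cert_sub (xProd F D Y₁) (xProd F D Y₂) (P : Matrix D.Idx D.Idx F)
    ((Matrix.isUnit_iff_isUnit_det _).1 P.isUnit) hconj W hPW K.length R.length _ hv hvW hfix _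
    hwW hw (lt_of_le_of_lt hfin hlen)

end Cfsg.Agent.Lib.Helper25
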