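import Mathlib
import Cfsg.Agent.Lib.Helper80.Major
import Cfsg.Agent.Lib.Helper81.BrPairs
import Cfsg.Agent.Lib.Helper33.KleinL1
import Cfsg.Agent.Lib.Helper33.KleinTop
import Cfsg.Agent.S4511
import Cfsg.Agent.S4733

/-!
# Cross orthogonality of subsections (helper4, piece X of the Brauer–Feit project)

For `p`-elements `u, u'` centralized by a subgroup `H ⊇ C_G(u)`, a block `e` of `H` inducing `B`
and a block `e'` of `H`: if `u'` is not conjugate to `u`, or `u' = u` and `e ≠ e'`, then
`∑_{χ ∈ B} conj(χ_e^u(a)) · χ_{e'}^{u'}(b) = 0` for `p`-regular `a, b ∈ H`.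
-/

set_option autoImplicit false

namespace Cfsg.Agent.Lib.BF

open Cfsg Cfsg.Agent.Lib.Helper80.GenDec Cfsg.Agent.Lib.Helper80.Contrib
open scoped ComplexConjugate

section Main

variable {G : Type*} [Group G] [Fintype G] {p : ℕ} [Fact p.Prime] {M : Ideal AlgInt}

open scoped Classical in
/-- Kernel identity in the non-conjugate case: mixed column sums vanish. -/
theorem cross_kernel_zero (H : Subgroup G) (u u' : G)
    (hu : ∃ k : ℕ, orderOf u = p ^ k) (hcent : ∀ h ∈ H, h * u = u * h)
    (hu' : ∃ k : ℕ, orderOf u' = p ^ k) (hcent' : ∀ h ∈ H, h * u' = u' * h)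
    [Fintype (IrrCharacter G)]
    (hne : ∀ t : G, t * u' * t⁻¹ ≠ u)
    (c c' : H) (hc : ¬ p ∣ orderOf c) (hc' : ¬ p ∣ orderOf c') :
    ∑ χ : IrrCharacter G, χ.1 (u * (c : G)) * conj (χ.1 (u' * (c' : G))) = 0 := by
  have hp : p.Prime := Fact.out
  rw [Helper83.column_orthogonality]
  rw [if_neg]
  intro h
  obtain ⟨t, ht⟩ := isConj_iff.mp h
  have hpart : IsPPart p (u * (c : G)) u :=
    ⟨(c : G), rfl, (hcent c c.2).symm, hu, by rw [Subgroup.orderOf_coe]; exact hc⟩
  have hpart' : IsPPart p (u' * (c' : G)) u' :=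
    ⟨(c' : G), rfl, (hcent' c' c'.2).symm, hu', by rw [Subgroup.orderOf_coe]; exact hc'⟩
  have h1 := Helper22.isPPart_conj hpart' t
  rw [ht] at h1
  exact hne t (Helper22.isPPart_unique hp h1 hpart)

open scoped Classical in
/-- General form: given the kernel identity with constant `κ`, the mixed block-part sum is
`κ` times the sum over `e` of `conj ψ(a) · (e'-part of ψ)(b)`. -/
theorem cross_orth_aux (hM : IsPModular p M) (H : Subgroup G) (u u' : G)
    (hu : ∃ k : ℕ, orderOf u = p ^ k) (huH : u ∈ H) (hcent : ∀ h ∈ H, h * u = u * h)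
    (hCH : Subgroup.centralizer ({u} : Set G) ≤ H)
    (e e' : Set (IrrCharacter H)) (he' : IsPBlock M e')
    (B : Set (IrrCharacter G)) (hind : IsInducedBlock M H e B)
    [Fintype (IrrCharacter G)] [Fintype (IrrCharacter H)] (κ : ℂ)
    (hK : ∀ c c' : H, ¬ p ∣ orderOf c → ¬ p ∣ orderOf c' →
      ∑ χ : IrrCharacter G, χ.1 (u * (c : G)) * conj (χ.1 (u' * (c' : G))) =
        κ * ∑ ψ : IrrCharacter H, ψ.1 c * conj (ψ.1 c'))
    (a b : H) (ha : ¬ p ∣ orderOf a) (hb : ¬ p ∣ orderOf b) :
    ∑ χ : IrrCharacter G, (if χ ∈ B then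
        conj (blockPart e (fun c : H => χ.1 (u * (c : G))) a) *
          blockPart e' (fun c : H => χ.1 (u' * (c : G))) b else 0) =
      conj κ * ∑ ψ : IrrCharacter H, (if ψ ∈ e then conj (ψ.1 a) * blockPart e' ψ.1 b else 0) := by
  have he : IsPBlock M e := hind.1
  have stepA : ∀ t t' : H, ¬ p ∣ orderOf t → ¬ p ∣ orderOf t' →
      ∑ χ : IrrCharacter G, (if χ ∈ B then
        blockPart e (fun c : H => χ.1 (u * (c : G))) t * conj (χ.1 (u' * (t' : G))) else 0) =
      κ * ∑ ψ : IrrCharacter H, (if ψ ∈ e then ψ.1 t * conj (ψ.1 t') else 0) := by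
    intro t t' ht ht'
    have hAK : ∀ c : H, ¬ p ∣ orderOf c →
        ((∑ χ : IrrCharacter G, conj (χ.1 (u' * (t' : G))) • (fun c : H => χ.1 (u * (c : G)))) -
          ∑ ψ : IrrCharacter H, (κ * conj (ψ.1 t')) • ψ.1) c = 0 := by
      intro c hc
      simp only [Pi.sub_apply, Finset.sum_apply, Pi.smul_apply, smul_eq_mul]
      rw [sub_eq_zero]
      have h1 := hK c t' hc ht'
      calc ∑ χ : IrrCharacter G, conj (χ.1 (u' * (t' : G))) * χ.1 (u * (c : G))
          = ∑ χ : IrrCharacter G, χ.1 (u * (c : G)) * conj (χ.1 (u' * (t' : G))) :=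
            Finset.sum_congr rfl fun χ _ => mul_comm _ _
        _ = κ * ∑ ψ : IrrCharacter H, ψ.1 c * conj (ψ.1 t') := h1
        _ = ∑ ψ : IrrCharacter H, κ * conj (ψ.1 t') * ψ.1 c := by
            rw [Finset.mul_sum]
            exact Finset.sum_congr rfl fun ψ _ => by ring
    have h0 := blockPart_eq_zero_of_reg hM he hAK ht
    rw [← bpL_apply, map_sub, map_sum, map_sum] at h0
    simp only [map_smul, Pi.sub_apply, Finset.sum_apply, Pi.smul_apply,
      smul_eq_mul] at h0
    rw [sub_eq_zero] at h0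
    calc ∑ χ : IrrCharacter G, (if χ ∈ B then
          blockPart e (fun c : H => χ.1 (u * (c : G))) t * conj (χ.1 (u' * (t' : G))) else 0)
        = ∑ χ : IrrCharacter G, conj (χ.1 (u' * (t' : G))) *
            blockPart e (fun c : H => χ.1 (u * (c : G))) t := by
          refine Finset.sum_congr rfl fun χ _ => ?_
          by_cases hχ : χ ∈ B
          · rw [if_pos hχ, mul_comm]
          · rw [if_neg hχ, smt_part hM H u hu huH hcent hCH e B hind χ hχ t ht, mul_zero]
      _ = ∑ ψ : IrrCharacter H, κ * conj (ψ.1 t') * blockPart e ψ.1 t := h0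
      _ = κ * ∑ ψ : IrrCharacter H, (if ψ ∈ e then ψ.1 t * conj (ψ.1 t') else 0) := by
          rw [Finset.mul_sum]
          refine Finset.sum_congr rfl fun ψ _ => ?_
          rw [blockPart_irr]
          by_cases hψ : ψ ∈ e
          · rw [if_pos hψ, if_pos hψ]; ring
          · rw [if_neg hψ, if_neg hψ, Pi.zero_apply, mul_zero, mul_zero]
  have hAK' : ∀ c : H, ¬ p ∣ orderOf c →
      ((∑ χ : IrrCharacter G,
          (if χ ∈ B then conj (blockPart e (fun c : H => χ.1 (u * (c : G))) a) else 0) •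
            (fun c : H => χ.1 (u' * (c : G)))) -
        ∑ ψ : IrrCharacter H, (if ψ ∈ e then conj κ * conj (ψ.1 a) else 0) • ψ.1) c = 0 := by
    intro c hc
    rw [Pi.sub_apply, Finset.sum_apply, Finset.sum_apply, sub_eq_zero]
    show ∑ χ : IrrCharacter G,
          (if χ ∈ B then conj (blockPart e (fun c : H => χ.1 (u * (c : G))) a) else 0) *
            χ.1 (u' * (c : G)) =
        ∑ ψ : IrrCharacter H, (if ψ ∈ e then conj κ * conj (ψ.1 a) else 0) * ψ.1 c
    have h1 := congrArg conj (stepA a c ha hc)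
    rw [map_sum, map_mul, map_sum, Finset.mul_sum] at h1
    calc ∑ χ : IrrCharacter G,
          (if χ ∈ B then conj (blockPart e (fun c : H => χ.1 (u * (c : G))) a) else 0) *
            χ.1 (u' * (c : G))
        = ∑ χ : IrrCharacter G, conj (if χ ∈ B then
            blockPart e (fun c : H => χ.1 (u * (c : G))) a * conj (χ.1 (u' * (c : G)))
              else 0) := by
          refine Finset.sum_congr rfl fun χ _ => ?_
          by_cases hχ : χ ∈ B
          · rw [if_pos hχ, if_pos hχ, map_mul, Complex.conj_conj]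
          · rw [if_neg hχ, if_neg hχ, zero_mul, map_zero]
      _ = ∑ ψ : IrrCharacter H,
            conj κ * conj (if ψ ∈ e then ψ.1 a * conj (ψ.1 c) else 0) := h1
      _ = ∑ ψ : IrrCharacter H, (if ψ ∈ e then conj κ * conj (ψ.1 a) else 0) * ψ.1 c := by
          refine Finset.sum_congr rfl fun ψ _ => ?_
          by_cases hψ : ψ ∈ e
          · rw [if_pos hψ, if_pos hψ, map_mul, Complex.conj_conj, mul_assoc]
          · rw [if_neg hψ, if_neg hψ, zero_mul, map_zero, mul_zero]
  have h0 := blockPart_eq_zero_of_reg hM he' hAK' hb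
  rw [← bpL_apply, map_sub, map_sum, map_sum, Pi.sub_apply, Finset.sum_apply, Finset.sum_apply,
    sub_eq_zero] at h0
  have e1 : ∀ (r : ℂ) (f : H → ℂ), bpL e' (r • f) b = r * blockPart e' f b := by
    intro r f
    rw [map_smul, Pi.smul_apply, smul_eq_mul, bpL_apply]
  calc ∑ χ : IrrCharacter G, (if χ ∈ B then
        conj (blockPart e (fun c : H => χ.1 (u * (c : G))) a) *
          blockPart e' (fun c : H => χ.1 (u' * (c : G))) b else 0)
      = ∑ χ : IrrCharacter G, bpL e'
          ((if χ ∈ B then conj (blockPart e (fun c : H => χ.1 (u * (c : G))) a) else 0) •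
            (fun c : H => χ.1 (u' * (c : G)))) b := by
        refine Finset.sum_congr rfl fun χ _ => ?_
        rw [e1]
        by_cases hχ : χ ∈ B
        · rw [if_pos hχ, if_pos hχ]
        · rw [if_neg hχ, if_neg hχ, zero_mul]
    _ = ∑ ψ : IrrCharacter H,
          bpL e' ((if ψ ∈ e then conj κ * conj (ψ.1 a) else 0) • ψ.1) b := h0
    _ = conj κ *
          ∑ ψ : IrrCharacter H, (if ψ ∈ e then conj (ψ.1 a) * blockPart e' ψ.1 b else 0) := by
        rw [Finset.mul_sum]
        refine Finset.sum_congr rfl fun ψ _ => ?_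
        rw [e1]
        by_cases hψ : ψ ∈ e
        · rw [if_pos hψ, if_pos hψ, mul_assoc]
        · rw [if_neg hψ, if_neg hψ, zero_mul, mul_zero]

end Main

open scoped Classical in
/-- **Cross orthogonality of subsections.** -/
theorem cross_orth {G : Type*} [Group G] [Fintype G] {p : ℕ} [Fact p.Prime] {M : Ideal AlgInt}
    (hM : IsPModular p M) (H : Subgroup G) (u u' : G)
    (hu : ∃ k : ℕ, orderOf u = p ^ k) (huH : u ∈ H) (hcent : ∀ h ∈ H, h * u = u * h)
    (hCH : Subgroup.centralizer ({u} : Set G) ≤ H)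
    (hu' : ∃ k : ℕ, orderOf u' = p ^ k) (hcent' : ∀ h ∈ H, h * u' = u' * h)
    (e e' : Set (IrrCharacter H)) (he' : IsPBlock M e')
    (B : Set (IrrCharacter G)) (hind : IsInducedBlock M H e B)
    [Fintype (IrrCharacter G)] [Fintype (IrrCharacter H)]
    (hcase : (∀ t : G, t * u' * t⁻¹ ≠ u) ∨ (u' = u ∧ e ≠ e'))
    (a b : H) (ha : ¬ p ∣ orderOf a) (hb : ¬ p ∣ orderOf b) :
    ∑ χ : IrrCharacter G, (if χ ∈ B then
        conj (blockPart e (fun c : H => χ.1 (u * (c : G))) a) *
          blockPart e' (fun c : H => χ.1 (u' * (c : G))) b else 0) = 0 := by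
  rcases hcase with hne | ⟨rfl, hee⟩
  · rw [cross_orth_aux hM H u u' hu huH hcent hCH e e' he' B hind 0 (fun c c' hc hc' => by
      rw [zero_mul]
      exact cross_kernel_zero H u u' hu hcent hu' hcent' hne c c' hc hc') a b ha hb,
      map_zero, zero_mul]
  · rw [cross_orth_aux hM H u' u' hu huH hcent hCH e e' he' B hind 1 (fun c c' hc hc' => by
      rw [one_mul]
      exact col_compare H u' hu hcent hCH c c' hc hc') a b ha hb]
    rw [map_one, one_mul]
    refine Finset.sum_eq_zero fun ψ _ => ?_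
    by_cases hψ : ψ ∈ e
    · rw [if_pos hψ, blockPart_irr]
      by_cases hψ' : ψ ∈ e'
      · exact absurd (Cfsg.Agent.Lib.Helper82.block_eq_of_mem hM hind.1 he' ψ hψ hψ') hee
      · rw [if_neg hψ', Pi.zero_apply, mul_zero]
    · rw [if_neg hψ]

end Cfsg.Agent.Lib.BF
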