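import Mathlib
import Cfsg.Agent.Lib.Helper80.Major
import Cfsg.Agent.Lib.Helper81.BrPairs
import Cfsg.Agent.Lib.Helper33.KleinL1
import Cfsg.Agent.Lib.Helper33.KleinTop
import Cfsg.Agent.S4511
import Cfsg.Agent.S4733

/-!
# Existence of a nontrivial subsection (helper4, piece S of the Brauer–Feit project)

A block of positive defect has a subsection `(x, b)` with `x ≠ 1`.
-/

set_option autoImplicit false

namespace Cfsg.Agent.Lib.BF

open Cfsg

/-- A block of positive defect has a nontrivial subsection: a `p`-element `x ≠ 1` and a block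
`b` of `C_G(x)` inducing `B`. -/
theorem exists_nontrivial_subsection {G : Type*} [Group G] [Finite G] (p : ℕ) [Fact p.Prime]
    (M : Ideal AlgInt) (hM : IsPModular p M) (B : Set (IrrCharacter G)) (hB : IsPBlock M B)
    (hd : blockDefect p B ≠ 0) :
    ∃ x : G, x ≠ 1 ∧ (∃ k : ℕ, orderOf x = p ^ k) ∧
      ∃ b : Set (IrrCharacter (Subgroup.centralizer ({x} : Set G))),
        IsInducedBlock M (Subgroup.centralizer ({x} : Set G)) b B := by
  classical
  have hne : Nat.card B ≠ blockRank p B := fun h =>
    hd ((Cfsg.Agent.S4733.result p M hM B hB).2.2.mpr h)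
  obtain ⟨X, hYX, hX, hXrep⟩ := Cfsg.Agent.Lib.Helper33.Klein.exists_reps (G := G) p {1}
    (fun y hy => by
      rw [Finset.mem_singleton] at hy
      exact ⟨0, by rw [hy, orderOf_one, pow_zero]⟩)
    (fun y hy y' hy' _ => by
      rw [Finset.mem_singleton] at hy hy'
      rw [hy, hy'])
  have h1X : (1 : G) ∈ X := hYX (Finset.mem_singleton_self 1)
  have hcount := Cfsg.Agent.S4511.result p M hM B hB X hX hXrep
  rw [← Finset.add_sum_erase X _ h1X] at hcount
  have htop : ∑ᶠ b ∈ {b : Set (IrrCharacter (Subgroup.centralizer ({(1 : G)} : Set G))) |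
      IsInducedBlock M (Subgroup.centralizer ({(1 : G)} : Set G)) b B}, blockRank p b =
      blockRank p B :=
    Cfsg.Agent.Lib.Helper33.Klein.finsum_induced_top hM (Subgroup.centralizer ({(1 : G)} : Set G))
      (fun g => by
        rw [Subgroup.mem_centralizer_iff]
        intro h hh
        rw [Set.mem_singleton_iff] at hh
        rw [hh, one_mul, mul_one]) B hB
  rw [htop] at hcount
  have hsum : ∑ x ∈ X.erase 1,
      ∑ᶠ b ∈ {b : Set (IrrCharacter (Subgroup.centralizer ({x} : Set G))) |
        IsInducedBlock M (Subgroup.centralizer ({x} : Set G)) b B}, blockRank p b ≠ 0 := by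
    intro h0
    rw [h0, add_zero] at hcount
    exact hne hcount
  obtain ⟨x, hx, hxne⟩ := Finset.exists_ne_zero_of_sum_ne_zero hsum
  rw [Finset.mem_erase] at hx
  refine ⟨x, hx.1, hX x hx.2, ?_⟩
  by_contra hno
  apply hxne
  have hempty : {b : Set (IrrCharacter (Subgroup.centralizer ({x} : Set G))) |
      IsInducedBlock M (Subgroup.centralizer ({x} : Set G)) b B} = ∅ := by
    ext b
    simp only [Set.mem_setOf_eq, Set.mem_empty_iff_false, iff_false]
    exact fun hb => hno ⟨b, hb⟩
  rw [hempty, finsum_mem_empty]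

end Cfsg.Agent.Lib.BF
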