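import Cfsg.Agent.Lib.Helper41.BG11Kit
import Cfsg.Agent.Lib.Helper34.Rank2b

set_option autoImplicit false

open Cfsg Cfsg.Agent.Lib.Helper32 Cfsg.Agent.Lib.Helper32.BG10 Cfsg.Agent.Lib.Helper3.BG12
open Cfsg.Agent.Lib.Helper41.BG11
open scoped commutatorElement

namespace Cfsg.Agent.Lib.Helper4.BG11

universe u

variable {G : Type u} [Group G] [Finite G]

omit [Finite G] in
/-- a subgroup of prime order lies in any subgroup containing one of its nontrivial elements -/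
theorem le_of_prime_card_of_mem {q : ℕ} [Fact q.Prime] {X Y : Subgroup G} (hX : Nat.card X = q)
    {x : G} (hxX : x ∈ X) (hxY : x ∈ Y) (hx1 : x ≠ 1) : X ≤ Y := by
  have htop : Subgroup.zpowers (⟨x, hxX⟩ : ↥X) = ⊤ :=
    zpowers_eq_top_of_prime_card hX (fun h => hx1 (congrArg Subtype.val h))
  intro z hz
  have hmem : (⟨z, hz⟩ : ↥X) ∈ Subgroup.zpowers (⟨x, hxX⟩ : ↥X) := by
    rw [htop]; exact Subgroup.mem_top _
  obtain ⟨k, hk⟩ := Subgroup.mem_zpowers_iff.mp hmem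
  have hk' : x ^ k = z := by
    have := congrArg Subtype.val hk
    simpa using this
  rw [← hk']
  exact Y.zpow_mem hxY k

theorem eq_of_prime_card_of_mem {q : ℕ} [Fact q.Prime] {X Y : Subgroup G} (hX : Nat.card X = q)
    (hY : Nat.card Y = q) {x : G} (hxX : x ∈ X) (hxY : x ∈ Y) (hx1 : x ≠ 1) : X = Y :=
  Subgroup.eq_of_le_of_card_ge (le_of_prime_card_of_mem hX hxX hxY hx1) (by rw [hX, hY])

omit [Finite G] in
theorem le_normalizer_of_conj_mem {N L : Subgroup G}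
    (h : ∀ n ∈ N, ∀ l ∈ L, n * l * n⁻¹ ∈ L) : N ≤ Subgroup.normalizer (L : Set G) := by
  intro n hn
  rw [Subgroup.mem_normalizer_iff]
  intro l
  constructor
  · exact h n hn l
  · intro hl
    have := h n⁻¹ (N.inv_mem hn) _ hl
    have e : n⁻¹ * (n * l * n⁻¹) * n⁻¹⁻¹ = l := by group
    rwa [e] at this

/-- the `a`-invariant subgroups of order `q` of `B = B₀ × B₁` -/
theorem inv_sub_cases {q : ℕ} [Fact q.Prime] {B B₀ B₁ L : Subgroup G} {a : G}
    (hdec : ∀ b ∈ B, ∃ x ∈ B₀, ∃ y ∈ B₁, b = x * y) (hB₀ : Nat.card B₀ = q)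
    (hB₁ : Nat.card B₁ = q) (hL : Nat.card L = q) (hLB : L ≤ B)
    (haB₀ : ∀ x ∈ B₀, a * x * a⁻¹ ∈ B₀) (haB₁ : ∀ y ∈ B₁, a * y * a⁻¹ = y)
    (hnc : ∃ x ∈ B₀, a * x * a⁻¹ ≠ x) (haL : ∀ l ∈ L, a * l * a⁻¹ ∈ L) :
    L = B₀ ∨ L = B₁ := by
  have hq : q.Prime := Fact.out
  have hLnt : ∃ l ∈ L, l ≠ 1 := by
    by_contra hcon
    push Not at hcon
    have : L = ⊥ := (Subgroup.eq_bot_iff_forall L).mpr hcon
    rw [this, Subgroup.card_bot] at hL
    exact hq.one_lt.ne hL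
  obtain ⟨l, hl, hl1⟩ := hLnt
  obtain ⟨x, hx, y, hy, hlxy⟩ := hdec l (hLB hl)
  have hc : a * l * a⁻¹ * l⁻¹ = a * x * a⁻¹ * x⁻¹ := by
    rw [hlxy]
    calc a * (x * y) * a⁻¹ * (x * y)⁻¹ = (a * x * a⁻¹) * (a * y * a⁻¹) * y⁻¹ * x⁻¹ := by group
      _ = (a * x * a⁻¹) * y * y⁻¹ * x⁻¹ := by rw [haB₁ y hy]
      _ = a * x * a⁻¹ * x⁻¹ := by group
  have hcL : a * x * a⁻¹ * x⁻¹ ∈ L := by
    rw [← hc]; exact L.mul_mem (haL l hl) (L.inv_mem hl)
  have hcB₀ : a * x * a⁻¹ * x⁻¹ ∈ B₀ := B₀.mul_mem (haB₀ x hx) (B₀.inv_mem hx)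
  by_cases hc1 : a * x * a⁻¹ * x⁻¹ = 1
  · right
    have hax : a * x * a⁻¹ = x := mul_inv_eq_one.mp hc1
    have hx1 : x = 1 := by
      by_contra hx1
      obtain ⟨x', hx', hne⟩ := hnc
      have hle : B₀ ≤ Subgroup.centralizer ({a} : Set G) := by
        apply le_of_prime_card_of_mem hB₀ hx _ hx1
        rw [Subgroup.mem_centralizer_iff]
        intro w hw
        rw [Set.mem_singleton_iff] at hw
        rw [hw]
        calc a * x = (a * x * a⁻¹) * a := by group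
          _ = x * a := by rw [hax]
      have := Subgroup.mem_centralizer_iff.mp (hle hx') a rfl
      apply hne
      rw [this, mul_inv_cancel_right]
    have hly : l = y := by rw [hlxy, hx1, one_mul]
    exact eq_of_prime_card_of_mem hL hB₁ hl (hly ▸ hy) hl1
  · left
    exact eq_of_prime_card_of_mem hL hB₀ hcL hcB₀ hc1

theorem gl2 : PGL2 G := by
  intro B B₀ B₁ q a hq hBe hBc hB₀B hB₁B hB₀c hB₁c hdisj hsol hodd haB haB₀ haB₁ hanB₀
  haveI : Fact q.Prime := ⟨hq⟩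
  -- decomposition B = B₀ B₁
  have hdec : ∀ b ∈ B, ∃ x ∈ B₀, ∃ y ∈ B₁, b = x * y := by
    have hinj : Function.Injective (fun z : ↥B₀ × ↥B₁ =>
        (⟨(z.1 : G) * (z.2 : G), B.mul_mem (hB₀B z.1.2) (hB₁B z.2.2)⟩ : ↥B)) := by
      rintro ⟨x, y⟩ ⟨x', y'⟩ h
      have h' : (x : G) * (y : G) = (x' : G) * (y' : G) := congrArg Subtype.val h
      have hmem : (x' : G)⁻¹ * (x : G) ∈ B₀ ⊓ B₁ := by
        refine Subgroup.mem_inf.mpr ⟨B₀.mul_mem (B₀.inv_mem x'.2) x.2, ?_⟩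
        have e : (x' : G)⁻¹ * (x : G) = (y' : G) * (y : G)⁻¹ := by
          calc (x' : G)⁻¹ * (x : G) = (x' : G)⁻¹ * ((x : G) * (y : G)) * (y : G)⁻¹ := by group
            _ = (x' : G)⁻¹ * ((x' : G) * (y' : G)) * (y : G)⁻¹ := by rw [h']
            _ = (y' : G) * (y : G)⁻¹ := by group
        rw [e]
        exact B₁.mul_mem y'.2 (B₁.inv_mem y.2)
      rw [hdisj, Subgroup.mem_bot] at hmem
      have hx : (x : G) = x' := by
        calc (x : G) = (x' : G) * ((x' : G)⁻¹ * (x : G)) := by group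
          _ = x' := by rw [hmem, mul_one]
      have hy : (y : G) = y' := by
        rw [hx] at h'
        exact mul_left_cancel h'
      exact Prod.ext (Subtype.ext hx) (Subtype.ext hy)
    have hcard : Nat.card ↥B ≤ Nat.card (↥B₀ × ↥B₁) := by
      rw [Nat.card_prod, hB₀c, hB₁c, hBc, pow_two]
    have hbij := hinj.bijective_of_nat_card_le hcard
    intro b hb
    obtain ⟨⟨x, y⟩, hxy⟩ := hbij.2 ⟨b, hb⟩
    exact ⟨x, x.2, y, y.2, (congrArg Subtype.val hxy).symm⟩
  have haB₀' : ∀ x ∈ B₀, a * x * a⁻¹ ∈ B₀ := fun x hx =>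
    (Subgroup.mem_normalizer_iff.mp haB₀ x).mp hx
  have haB₁' : ∀ y ∈ B₁, a * y * a⁻¹ = y := fun y hy => by
    have := Subgroup.mem_centralizer_iff.mp haB₁ y hy
    rw [← this, mul_inv_cancel_right]
  have hnc : ∃ x ∈ B₀, a * x * a⁻¹ ≠ x := by
    by_contra hcon
    push Not at hcon
    apply hanB₀
    rw [Subgroup.mem_centralizer_iff]
    intro x hx
    have := hcon x hx
    calc x * a = (a * x * a⁻¹) * a := by rw [this]
      _ = a * x := by group
  -- the normalizer and its action on B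
  obtain ⟨N, hNdef⟩ : ∃ N : Subgroup G, N = Subgroup.normalizer (B : Set G) := ⟨_, rfl⟩
  rw [← hNdef] at hsol hodd haB ⊢
  have hNB : N ≤ Subgroup.normalizer (B : Set G) := le_of_eq hNdef
  have hconjB : ∀ n ∈ N, ∀ b ∈ B, n * b * n⁻¹ ∈ B := fun n hn b hb =>
    (Subgroup.mem_normalizer_iff.mp (hNB hn) b).mp hb
  obtain ⟨φ, hφdef⟩ : ∃ φ : ↥N →* MulAut ↥B,
      φ = Cfsg.Agent.Lib.Helper34.conjAut B N hNB := ⟨_, rfl⟩
  have hφapp : ∀ (g : ↥N) (b : ↥B), ((φ g b : ↥B) : G) = (g : G) * b * (g : G)⁻¹ := by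
    intro g b; rw [hφdef]; rfl
  have hφq : ∀ g ∈ commutator ↥N, (φ g) ^ q = 1 := by
    letI : CommGroup ↥B :=
      { (inferInstance : Group ↥B) with mul_comm := fun x y => hBe.1.is_comm.comm x y }
    have hVp : ∀ x : ↥B, x ^ q = 1 := fun x => Subtype.ext (by simpa using hBe.2 x x.2)
    exact Cfsg.Agent.Lib.Helper34.mulAut_commutator_pow q hVp (le_of_eq hBc) hsol hodd φ
  -- the fixed points of N' on B
  obtain ⟨L, hLdef⟩ : ∃ L : Subgroup G, L = B ⊓ Subgroup.centralizer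
      (((commutator ↥N).map N.subtype : Subgroup G) : Set G) := ⟨_, rfl⟩
  have hLB : L ≤ B := by rw [hLdef]; exact inf_le_left
  have hmemL : ∀ b : G, b ∈ L ↔
      b ∈ B ∧ ∀ g ∈ commutator ↥N, (g : G) * b * (g : G)⁻¹ = b := by
    intro b
    rw [hLdef, Subgroup.mem_inf, Subgroup.mem_centralizer_iff]
    constructor
    · rintro ⟨hb, hc⟩
      refine ⟨hb, fun g hg => ?_⟩
      have := hc (g : G) (Subgroup.mem_map.mpr ⟨g, hg, rfl⟩)
      rw [this, mul_inv_cancel_right]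
    · rintro ⟨hb, hc⟩
      refine ⟨hb, ?_⟩
      rintro k hk
      obtain ⟨g, hg, rfl⟩ := Subgroup.mem_map.mp hk
      have := hc g hg
      show (g : G) * b = b * (g : G)
      calc (g : G) * b = ((g : G) * b * (g : G)⁻¹) * (g : G) := by group
        _ = b * (g : G) := by rw [this]
  have hNL : N ≤ Subgroup.normalizer (L : Set G) := by
    apply le_normalizer_of_conj_mem
    intro n hn l hl
    rw [hmemL] at hl ⊢
    refine ⟨hconjB n hn l hl.1, fun g hg => ?_⟩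
    have hg' : (⟨n, hn⟩ : ↥N)⁻¹ * g * (⟨n, hn⟩ : ↥N) ∈ commutator ↥N := by
      have hnorm : (commutator ↥N).Normal := inferInstance
      have := hnorm.conj_mem g hg (⟨n, hn⟩ : ↥N)⁻¹
      simpa using this
    have h2 := hl.2 _ hg'
    have h3 : (n⁻¹ * (g : G) * n) * l * (n⁻¹ * (g : G) * n)⁻¹ = l := h2
    calc (g : G) * (n * l * n⁻¹) * (g : G)⁻¹
        = n * ((n⁻¹ * (g : G) * n) * l * (n⁻¹ * (g : G) * n)⁻¹) * n⁻¹ := by group
      _ = n * l * n⁻¹ := by rw [h3]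
  -- L is nontrivial
  have hL3 : ∃ b ∈ L, b ≠ 1 := by
    obtain ⟨Φ, hΦ⟩ : ∃ Φ : Subgroup (MulAut ↥B), Φ = (commutator ↥N).map φ := ⟨_, rfl⟩
    have hΦq : IsPGroup q Φ := by
      rintro ⟨ψ, hψ⟩
      rw [hΦ] at hψ
      obtain ⟨g, hg, rfl⟩ := hψ
      refine ⟨1, Subtype.ext ?_⟩
      have := hφq g hg
      simpa using this
    have hdvd : q ∣ Nat.card ↥B := by rw [hBc]; exact dvd_pow_self q (by norm_num)
    have h1 : (1 : ↥B) ∈ MulAction.fixedPoints ↥Φ ↥B := by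
      intro ψ
      show (ψ : MulAut ↥B) (1 : ↥B) = 1
      exact map_one _
    obtain ⟨b, hb, hb1⟩ := hΦq.exists_fixed_point_of_prime_dvd_card_of_fixed_point ↥B hdvd h1
    refine ⟨(b : G), (hmemL _).mpr ⟨b.2, fun g hg => ?_⟩, ?_⟩
    · have hfix : (φ g) b = b := hb ⟨φ g, by rw [hΦ]; exact ⟨g, hg, rfl⟩⟩
      have := congrArg Subtype.val hfix
      rw [hφapp] at this
      exact this
    · intro h; exact hb1 (Subtype.ext h).symm
  obtain ⟨b₁, hb₁L, hb₁1⟩ := hL3
  -- the commutator elements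
  have hcomm_mem : ∀ n ∈ N, ∀ m ∈ N, ∃ g ∈ commutator ↥N, (g : G) = n * m * n⁻¹ * m⁻¹ := by
    intro n hn m hm
    refine ⟨⁅(⟨n, hn⟩ : ↥N), (⟨m, hm⟩ : ↥N)⁆, ?_, rfl⟩
    rw [commutator_def]
    exact Subgroup.commutator_mem_commutator (Subgroup.mem_top _) (Subgroup.mem_top _)
  by_cases hLeq : L = B
  · -- N' centralizes B
    left
    have hcent : ∀ g ∈ commutator ↥N, ∀ b ∈ B, (g : G) * b * (g : G)⁻¹ = b := by
      intro g hg b hb
      rw [← hLeq] at hb
      exact ((hmemL b).mp hb).2 g hg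
    intro n hn
    have hninv : n⁻¹ ∈ N := N.inv_mem hn
    have hkey : ∀ x ∈ B₀, n⁻¹ * (a * (n * x * n⁻¹) * a⁻¹) * n = a * x * a⁻¹ := by
      intro x hx
      obtain ⟨c, hc, hcval⟩ := hcomm_mem n⁻¹ hninv a haB
      have h1 := hcent c hc (a * x * a⁻¹) (hB₀B (haB₀' x hx))
      rw [hcval] at h1
      calc n⁻¹ * (a * (n * x * n⁻¹) * a⁻¹) * n
          = (n⁻¹ * a * n⁻¹⁻¹ * a⁻¹) * (a * x * a⁻¹) * (n⁻¹ * a * n⁻¹⁻¹ * a⁻¹)⁻¹ := by group
        _ = a * x * a⁻¹ := h1
    have hcjB : cj n B₀ ≤ B := by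
      intro l hl
      rw [mem_cj] at hl
      have := hconjB n hn _ (hB₀B hl)
      have e : n * (n⁻¹ * l * n) * n⁻¹ = l := by group
      rwa [e] at this
    have hinvL : ∀ l ∈ cj n B₀, a * l * a⁻¹ ∈ cj n B₀ := by
      intro l hl
      rw [mem_cj] at hl ⊢
      have h1 := hkey _ hl
      have e : n * (n⁻¹ * l * n) * n⁻¹ = l := by group
      rw [e] at h1
      rw [h1]
      exact haB₀' _ hl
    rcases inv_sub_cases hdec hB₀c hB₁c ((card_cj n B₀).trans hB₀c) hcjB haB₀' haB₁' hnc hinvL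
      with h | h
    · exact cj_eq_self_iff.mp h
    · exfalso
      obtain ⟨x, hx, hne⟩ := hnc
      apply hne
      have hl : n * x * n⁻¹ ∈ B₁ := by
        rw [← h, mem_cj]
        have e : n⁻¹ * (n * x * n⁻¹) * n = x := by group
        rw [e]; exact hx
      have h1 := hkey x hx
      rw [haB₁' _ hl] at h1
      rw [← h1]; group
  · -- L has order q
    have hLcard : Nat.card L = q := by
      have hdvd : Nat.card L ∣ q ^ 2 := by rw [← hBc]; exact Subgroup.card_dvd_of_le hLB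
      obtain ⟨i, hi, hiL⟩ := (Nat.dvd_prime_pow hq).mp hdvd
      interval_cases i
      · exfalso
        rw [pow_zero] at hiL
        have hbot := Subgroup.eq_bot_of_card_eq L hiL
        rw [hbot, Subgroup.mem_bot] at hb₁L
        exact hb₁1 hb₁L
      · rw [hiL, pow_one]
      · exfalso
        exact hLeq (Subgroup.eq_of_le_of_card_ge hLB (by rw [hiL, hBc]))
    have hinvL : ∀ l ∈ L, a * l * a⁻¹ ∈ L := fun l hl =>
      (Subgroup.mem_normalizer_iff.mp (hNL haB) l).mp hl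
    rcases inv_sub_cases hdec hB₀c hB₁c hLcard hLB haB₀' haB₁' hnc hinvL with h | h
    · left
      rw [← h]; exact hNL
    · right
      refine ⟨by rw [← h]; exact hNL, ?_⟩
      -- an element of N' acting nontrivially
      have hex : ∃ g ∈ commutator ↥N, ∃ b ∈ B, (g : G) * b * (g : G)⁻¹ ≠ b := by
        by_contra hcon
        push Not at hcon
        apply hLeq
        apply le_antisymm hLB
        intro b hb
        exact (hmemL b).mpr ⟨hb, fun g hg => hcon g hg b hb⟩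
      obtain ⟨g, hg, b, hb, hgb⟩ := hex
      obtain ⟨j, m, hm, hjm⟩ :=
        Nat.exists_eq_pow_mul_and_not_dvd (orderOf_pos (g : G)).ne' q hq.ne_one
      have hmc : Nat.Coprime m q := ((Nat.Prime.coprime_iff_not_dvd hq).mpr hm).symm
      refine ⟨(g : G) ^ m, N.pow_mem g.2 m, ?_, ?_⟩
      · -- q-group
        have hpow : ((g : G) ^ m) ^ q ^ j = 1 := by
          rw [← pow_mul, mul_comm, ← hjm, pow_orderOf_eq_one]
        have hdvd : orderOf ((g : G) ^ m) ∣ q ^ j := orderOf_dvd_of_pow_eq_one hpow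
        obtain ⟨i, -, hi⟩ := (Nat.dvd_prime_pow hq).mp hdvd
        apply IsPGroup.of_card (n := i)
        rw [Nat.card_zpowers, hi]
      · -- does not centralize B
        intro hu
        apply hgb
        have hgq : (g : G) ^ q ∈ Subgroup.centralizer (B : Set G) := by
          rw [Subgroup.mem_centralizer_iff]
          intro b' hb'
          have h1 : (φ g ^ q) ⟨b', hb'⟩ = ⟨b', hb'⟩ := by rw [hφq g hg]; rfl
          rw [← map_pow] at h1
          have h2 := congrArg Subtype.val h1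
          rw [hφapp] at h2
          have h3 : (g : G) ^ q * b' * ((g : G) ^ q)⁻¹ = b' := by simpa using h2
          calc b' * (g : G) ^ q = ((g : G) ^ q * b' * ((g : G) ^ q)⁻¹) * (g : G) ^ q := by rw [h3]
            _ = (g : G) ^ q * b' := by group
        have hgC : (g : G) ∈ Subgroup.centralizer (B : Set G) := by
          have hbez : ((Nat.gcd m q : ℕ) : ℤ) = (m : ℤ) * Nat.gcdA m q + (q : ℤ) * Nat.gcdB m q :=
            Nat.gcd_eq_gcd_ab m q
          rw [hmc.gcd_eq_one] at hbez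
          have e : (g : G) = ((g : G) ^ m) ^ (Nat.gcdA m q) * ((g : G) ^ q) ^ (Nat.gcdB m q) := by
            rw [← zpow_natCast (g : G) m, ← zpow_natCast (g : G) q, ← zpow_mul, ← zpow_mul,
              ← zpow_add, ← hbez]
            simp
          rw [e]
          exact Subgroup.mul_mem _ (Subgroup.zpow_mem _ hu _) (Subgroup.zpow_mem _ hgq _)
        have := Subgroup.mem_centralizer_iff.mp hgC b hb
        rw [← this, mul_inv_cancel_right]

end Cfsg.Agent.Lib.Helper4.BG11
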