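import Cfsg.Agent.Lib.Helper41.BG11Kit
import Cfsg.Agent.Lib.Helper68.BG12P13N
import Cfsg.Agent.Lib.Helper72.HHFit
import Cfsg.Agent.Lib.Helper30.FStar

set_option autoImplicit false

open Cfsg Cfsg.Agent.Lib.Helper32 Cfsg.Agent.Lib.Helper32.BG10 Cfsg.Agent.Lib.Helper3.BG12
open Cfsg.Agent.Lib.Helper41.BG11
open scoped commutatorElement

namespace Cfsg.Agent.Lib.Helper4.BG11

universe u

variable {G : Type u} [Group G] [Finite G]

omit [Finite G] in
theorem le_normalizer_of_commutator_le {M N : Subgroup G} (hNM : N ≤ M) (hD : ⁅M, M⁆ ≤ N) :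
    M ≤ Subgroup.normalizer (N : Set G) := by
  have key : ∀ m ∈ M, ∀ n ∈ N, m * n * m⁻¹ ∈ N := by
    intro m hm n hn
    have h1 : ⁅m, n⁆ ∈ ⁅M, M⁆ := Subgroup.commutator_mem_commutator hm (hNM hn)
    have h2 : m * n * m⁻¹ = ⁅m, n⁆ * n := by rw [commutatorElement_def]; group
    rw [h2]
    exact N.mul_mem (hD h1) hn
  intro m hm
  rw [Subgroup.mem_normalizer_iff]
  intro n
  constructor
  · exact key m hm n
  · intro h
    have := key m⁻¹ (M.inv_mem hm) _ h
    have e : m⁻¹ * (m * n * m⁻¹) * m⁻¹⁻¹ = n := by group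
    rwa [e] at this

theorem s5i : PS5I G := by
  intro M A p hp hnil hAM hA hcent
  haveI : Fact p.Prime := ⟨hp⟩
  obtain ⟨D, hDdef⟩ : ∃ D : Subgroup G, D = ⁅M, M⁆ := ⟨_, rfl⟩
  rw [← hDdef] at hnil
  have hDM : D ≤ M := by
    rw [hDdef]
    exact Subgroup.commutator_le.mpr (fun g₁ h₁ g₂ h₂ => by
      rw [commutatorElement_def]
      exact M.mul_mem (M.mul_mem (M.mul_mem h₁ h₂) (M.inv_mem h₁)) (M.inv_mem h₂))
  have hMD : M ≤ Subgroup.normalizer (D : Set G) :=
    le_normalizer_of_commutator_le hDM (le_of_eq hDdef.symm)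
  -- Sylow subgroups of D are normal in M
  have hSn : ∀ (q : ℕ) [Fact q.Prime] (R : Subgroup G), R ∈ sylSet q D →
      M ≤ Subgroup.normalizer (R : Set G) := fun q _ R hR =>
    hMD.trans (Cfsg.Agent.Lib.Helper68.BG12.normalizer_le_of_nilpotent hnil hR)
  obtain ⟨Sp, hSp⟩ := sylSet_nonempty p D
  have hSpM : Sp ≤ M := hSp.1.trans hDM
  have hSpP : IsPGroup p Sp := isPGroup_of_mem_sylSet hSp
  have hSpn := hSn p Sp hSp
  -- T₁ = A ⊔ Sp
  have hT₁P : IsPGroup p (A ⊔ Sp : Subgroup G) :=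
    IsPGroup.to_sup_of_normal_right' hA hSpP (hAM.trans hSpn)
  have hT₁nil : Group.IsNilpotent ↥(A ⊔ Sp : Subgroup G) := hT₁P.isNilpotent
  -- E = join of the Sylow q-subgroups of D, q ≠ p
  obtain ⟨E, hEdef⟩ : ∃ E : Subgroup G, E = sSup {R : Subgroup G | ∃ q : ℕ,
      ∃ _ : Fact q.Prime, q ≠ p ∧ R ∈ sylSet q D} := ⟨_, rfl⟩
  have hED : E ≤ D := by
    rw [hEdef]
    apply sSup_le
    rintro R ⟨q, hq, hqp, hR⟩
    exact hR.1
  have hEnil : Group.IsNilpotent ↥E := Cfsg.Agent.Lib.Helper30.isNilpotent_of_le hED hnil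
  have hEcent : E ≤ Subgroup.centralizer ((A ⊔ Sp : Subgroup G) : Set G) := by
    rw [hEdef]
    apply sSup_le
    rintro R ⟨q, hq, hqp, hR⟩
    have hRq : IsPGroup q R := isPGroup_of_mem_sylSet hR
    have hRM : R ≤ M := hR.1.trans hDM
    have hRn := hSn q R hR
    have h1 : R ≤ Subgroup.centralizer (A : Set G) := hcent q hq.out hqp R hRM hRn hRq
    have h2 : R ≤ Subgroup.centralizer (Sp : Set G) := by
      intro x hx
      rw [Subgroup.mem_centralizer_iff]
      intro y hy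
      have hdisj : Disjoint R Sp := IsPGroup.disjoint_of_ne q p hqp R Sp hRq hSpP
      have hc1 : x * y * x⁻¹ * y⁻¹ ∈ R := by
        have hy' : y ∈ Subgroup.normalizer (R : Set G) := hRn (hSpM hy)
        have := (Subgroup.mem_normalizer_iff.mp hy' x⁻¹).mp (R.inv_mem hx)
        have e : x * y * x⁻¹ * y⁻¹ = x * (y * x⁻¹ * y⁻¹) := by group
        rw [e]; exact R.mul_mem hx this
      have hc2 : x * y * x⁻¹ * y⁻¹ ∈ Sp := by
        have hx' : x ∈ Subgroup.normalizer (Sp : Set G) := hSpn (hRM hx)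
        have := (Subgroup.mem_normalizer_iff.mp hx' y).mp hy
        exact Sp.mul_mem this (Sp.inv_mem hy)
      have h1 : x * y * x⁻¹ * y⁻¹ = 1 := Subgroup.disjoint_def.mp hdisj hc1 hc2
      have : x * y = y * x := by
        calc x * y = (x * y * x⁻¹ * y⁻¹) * (y * x) := by group
          _ = y * x := by rw [h1, one_mul]
      exact this.symm
    rw [Subgroup.le_centralizer_iff]
    exact sup_le (Subgroup.le_centralizer_iff.mp h1) (Subgroup.le_centralizer_iff.mp h2)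
  have hN'nil : Group.IsNilpotent ↥((A ⊔ Sp) ⊔ E : Subgroup G) :=
    Cfsg.Agent.Lib.Helper72.HH.isNilpotent_sup_of_normalize hT₁nil hEnil
      ((Subgroup.le_centralizer_iff.mp hEcent).trans (Subgroup.centralizer_le_normalizer _))
      (hEcent.trans (Subgroup.centralizer_le_normalizer _))
  -- D ≤ N'
  have hDle : D ≤ (A ⊔ Sp) ⊔ E := by
    have hK : Sp ⊔ E ≤ D := sup_le hSp.1 hED
    have hcard : Nat.card D ∣ Nat.card ↥(Sp ⊔ E : Subgroup G) := by
      rw [← Nat.factorization_prime_le_iff_dvd Nat.card_pos.ne' Nat.card_pos.ne']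
      intro q hq
      haveI : Fact q.Prime := ⟨hq⟩
      rw [← hq.pow_dvd_iff_le_factorization Nat.card_pos.ne']
      by_cases hqp : q = p
      · rw [hqp, ← hSp.2]
        exact Subgroup.card_dvd_of_le le_sup_left
      · obtain ⟨R, hR⟩ := sylSet_nonempty q D
        rw [← hR.2]
        apply Subgroup.card_dvd_of_le
        refine le_trans ?_ le_sup_right
        rw [hEdef]
        exact le_sSup ⟨q, ⟨hq⟩, hqp, hR⟩
    have heq : Sp ⊔ E = D :=
      Subgroup.eq_of_le_of_card_ge hK (Nat.le_of_dvd Nat.card_pos hcard)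
    rw [← heq]
    exact sup_le (le_sup_right.trans le_sup_left) le_sup_right
  have hN'M : (A ⊔ Sp) ⊔ E ≤ M := sup_le (sup_le hAM hSpM) (hED.trans hDM)
  have hMN' : M ≤ Subgroup.normalizer (((A ⊔ Sp) ⊔ E : Subgroup G) : Set G) :=
    le_normalizer_of_commutator_le hN'M (by rw [← hDdef]; exact hDle)
  obtain ⟨T, hT, hAT⟩ := exists_sylSet_ge hA (le_sup_left.trans le_sup_left : A ≤ (A ⊔ Sp) ⊔ E)
  refine ⟨T, hT.1.trans hN'M, ?_, isPGroup_of_mem_sylSet hT, hAT⟩
  exact hMN'.trans (Cfsg.Agent.Lib.Helper68.BG12.normalizer_le_of_nilpotent hN'nil hT)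

end Cfsg.Agent.Lib.Helper4.BG11
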