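import Cfsg.Agent.Lib.Helper15.BG12Defs3
import Cfsg.Agent.Lib.Helper8.BG10P5

/-!
# Piece T0a of B&G Section 12 (helper15, S1419): the transitive `p`-element
-/

set_option autoImplicit false

open Cfsg Cfsg.Agent.Lib.Helper32 Cfsg.Agent.Lib.Helper32.BG10 Cfsg.Agent.Lib.Helper3.BG12
  Cfsg.Agent.Lib.Helper15.BG12

namespace Cfsg.Agent.Lib.Helper4.BG12x

universe u

variable {G : Type u} [Group G] [Finite G]

/-- a subgroup of prime order is generated by each of its nontrivial elements -/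
theorem t0a_eq_zpowers {p : ℕ} [Fact p.Prime] {U : Subgroup G} (hU : Nat.card U = p) {u : G}
    (hu : u ∈ U) (hu1 : u ≠ 1) : U = Subgroup.zpowers u := by
  symm
  apply Subgroup.eq_of_le_of_card_ge
  · rwa [Subgroup.zpowers_le]
  · rw [Nat.card_zpowers, hU]
    have h1 : orderOf (⟨u, hu⟩ : U) ∣ Nat.card U := orderOf_dvd_natCard _
    rw [hU, Subgroup.orderOf_mk] at h1
    rcases (Nat.dvd_prime (Fact.out : p.Prime)).mp h1 with h | h
    · exact absurd (orderOf_eq_one_iff.mp h) hu1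
    · exact h.ge

omit [Finite G] in
/-- conjugating a cyclic subgroup -/
theorem t0a_cj_zpowers (g y : G) : cj g (Subgroup.zpowers y) = Subgroup.zpowers (g * y * g⁻¹) := by
  unfold cj
  rw [MonoidHom.map_zpowers]
  rfl

/-- coordinates in an elementary abelian group of order `p²` -/
theorem t0a_decomp {p : ℕ} [Fact p.Prime] {A Z : Subgroup G} (hexp : ∀ a ∈ A, a ^ p = 1)
    (hA2 : Nat.card A = p ^ 2) (hZA : Z ≤ A) (hZ : Nat.card Z = p) {a₀ : G} (ha₀ : a₀ ∈ A)
    (ha₀Z : a₀ ∉ Z) :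
    (∀ u ∈ Subgroup.zpowers a₀, u ∈ Z → u = 1) ∧
      ∀ b ∈ A, ∃ k : ℕ, ∃ z ∈ Z, b = a₀ ^ k * z := by
  have hp : p.Prime := Fact.out
  have ha₀1 : a₀ ≠ 1 := fun h => ha₀Z (h ▸ Z.one_mem)
  have ho : orderOf a₀ = p := orderOf_eq_prime (hexp a₀ ha₀) ha₀1
  have h1 : ∀ n : ℕ, a₀ ^ n ∈ Z → a₀ ^ n = 1 := by
    intro n hn
    by_contra hne
    have hnd : ¬ p ∣ n := by
      intro hd
      apply hne
      rw [← ho] at hd
      exact orderOf_dvd_iff_pow_eq_one.mp hd
    have hcop : Nat.Coprime n p := ((Nat.Prime.coprime_iff_not_dvd hp).mpr hnd).symm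
    obtain ⟨m, -, hm⟩ := Nat.exists_mul_mod_eq_one_of_coprime hcop hp.one_lt
    have e1 : a₀ ^ (n * m) = a₀ := by
      rw [← pow_mod_orderOf, ho, hm, pow_one]
    apply ha₀Z
    rw [← e1, pow_mul]
    exact Z.pow_mem hn m
  have h1' : ∀ u ∈ Subgroup.zpowers a₀, u ∈ Z → u = 1 := by
    intro u hu huZ
    obtain ⟨n, rfl⟩ := (mem_powers_iff_mem_zpowers.mpr hu)
    exact h1 n huZ
  refine ⟨h1', ?_⟩
  -- the map `(j, z) ↦ a₀ ^ j * z` is a bijection `Fin p × Z → A`
  have hinj0 : ∀ (j j' : ℕ), j ≤ j' → j' < p → ∀ z ∈ Z, ∀ z' ∈ Z,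
      a₀ ^ j * z = a₀ ^ j' * z' → j = j' ∧ z = z' := by
    intro j j' hjj hj' z hz z' hz' he
    obtain ⟨d, rfl⟩ := Nat.exists_eq_add_of_le hjj
    rw [pow_add, mul_assoc] at he
    have he' : z = a₀ ^ d * z' := mul_left_cancel he
    have hd : a₀ ^ d = 1 := by
      apply h1
      have : a₀ ^ d = z * z'⁻¹ := by rw [he', mul_inv_cancel_right]
      rw [this]
      exact Z.mul_mem hz (Z.inv_mem hz')
    have hd0 : d = 0 := by
      have h2 : p ∣ d := by
        rw [← ho]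
        exact orderOf_dvd_of_pow_eq_one hd
      rcases Nat.eq_zero_or_pos d with h0 | hpos
      · exact h0
      · have := Nat.le_of_dvd hpos h2
        omega
    subst hd0
    refine ⟨rfl, ?_⟩
    rw [he', pow_zero, one_mul]
  have hf : Function.Injective (fun t : Fin p × Z =>
      (⟨a₀ ^ (t.1 : ℕ) * (t.2 : G), A.mul_mem (A.pow_mem ha₀ _) (hZA t.2.2)⟩ : A)) := by
    rintro ⟨j, z⟩ ⟨j', z'⟩ he
    have he' : a₀ ^ (j : ℕ) * (z : G) = a₀ ^ (j' : ℕ) * (z' : G) := congrArg Subtype.val he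
    rcases le_total (j : ℕ) (j' : ℕ) with hle | hle
    · obtain ⟨e1, e2⟩ := hinj0 _ _ hle j'.2 _ z.2 _ z'.2 he'
      exact Prod.ext (Fin.ext e1) (Subtype.ext e2)
    · obtain ⟨e1, e2⟩ := hinj0 _ _ hle j.2 _ z'.2 _ z.2 he'.symm
      exact Prod.ext (Fin.ext e1.symm) (Subtype.ext e2.symm)
  have hcard : Nat.card A ≤ Nat.card (Fin p × Z) := by
    rw [Nat.card_prod, Nat.card_fin, hZ, hA2, pow_two]
  have hbij := hf.bijective_of_nat_card_le hcard
  intro b hb
  obtain ⟨⟨j, z⟩, hjz⟩ := hbij.2 ⟨b, hb⟩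
  exact ⟨j, z, z.2, (congrArg Subtype.val hjz).symm⟩

/-- the abstract core: a `p`-element normalising an elementary abelian group `A` of order `p²`
with `C_A(x) = Z` of order `p` permutes the other points transitively -/
theorem t0a_core {p : ℕ} [Fact p.Prime] {A Z : Subgroup G} {x : G}
    (hab : ∀ a ∈ A, ∀ b ∈ A, a * b = b * a) (hexp : ∀ a ∈ A, a ^ p = 1)
    (hA2 : Nat.card A = p ^ 2) (hZA : Z ≤ A) (hZ : Nat.card Z = p)
    (hxA : ∀ a ∈ A, x * a * x⁻¹ ∈ A)
    (hxZ : ∀ z ∈ Z, x * z = z * x) (hCZ : ∀ a ∈ A, x * a = a * x → a ∈ Z)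
    (k : ℕ) (hxk : x ^ (p ^ k) = 1) :
    ∀ X Y : Subgroup G, X ≤ A → Nat.card X = p → X ≠ Z → Y ≤ A → Nat.card Y = p → Y ≠ Z →
      ∃ i : ℕ, Y = cj (x ^ i) X := by
  have hp : p.Prime := Fact.out
  obtain ⟨a₀, ha₀, ha₀Z⟩ : ∃ a₀ ∈ A, a₀ ∉ Z := by
    by_contra hno
    push Not at hno
    have hle : A ≤ Z := hno
    have h1 := Subgroup.card_le_of_le hle
    rw [hA2, hZ] at h1
    have h2 : p < p ^ 2 := by
      have := hp.one_lt
      nlinarith
    omega
  obtain ⟨hpow, hdec⟩ := t0a_decomp hexp hA2 hZA hZ ha₀ ha₀Z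
  have ha₀1 : a₀ ≠ 1 := fun h => ha₀Z (h ▸ Z.one_mem)
  have ho : orderOf a₀ = p := orderOf_eq_prime (hexp a₀ ha₀) ha₀1
  obtain ⟨m, z₁, hz₁, hm⟩ := hdec _ (hxA a₀ ha₀)
  have hcz : ∀ z ∈ Z, x * z * x⁻¹ = z := fun z hz => by rw [hxZ z hz, mul_inv_cancel_right]
  have hind : ∀ r : ℕ, ∃ z ∈ Z, x ^ r * a₀ * (x ^ r)⁻¹ = a₀ ^ (m ^ r) * z := by
    intro r
    induction r with
    | zero => exact ⟨1, Z.one_mem, by simp⟩
    | succ r ih =>
      obtain ⟨z, hz, h⟩ := ih
      refine ⟨z₁ ^ (m ^ r) * z, Z.mul_mem (Z.pow_mem hz₁ _) hz, ?_⟩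
      have e1 : x ^ (r + 1) * a₀ * (x ^ (r + 1))⁻¹ = x * (x ^ r * a₀ * (x ^ r)⁻¹) * x⁻¹ := by
        rw [pow_succ']
        group
      have e2 : x * (a₀ ^ (m ^ r) * z) * x⁻¹ = (x * a₀ * x⁻¹) ^ (m ^ r) * (x * z * x⁻¹) := by
        rw [conj_pow]
        group
      have hc : Commute (a₀ ^ m) z₁ := hab _ (A.pow_mem ha₀ m) _ (hZA hz₁)
      rw [e1, h, e2, hm, hcz z hz, hc.mul_pow, ← pow_mul, ← pow_succ', mul_assoc]
  -- `m ≡ 1` modulo `p`
  have hm1 : a₀ ^ m = a₀ := by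
    obtain ⟨z, hz, h⟩ := hind (p ^ k)
    rw [hxk, one_mul, inv_one, mul_one] at h
    have hz1 : z = 1 := by
      apply hpow z _ hz
      have : z = (a₀ ^ (m ^ p ^ k))⁻¹ * a₀ := by
        rw [eq_inv_mul_iff_mul_eq]
        exact h.symm
      rw [this]
      exact Subgroup.mul_mem _ (Subgroup.inv_mem _ (Subgroup.pow_mem _ (Subgroup.mem_zpowers a₀) _))
        (Subgroup.mem_zpowers a₀)
    rw [hz1, mul_one] at h
    have h2 : a₀ ^ (m ^ p ^ k) = a₀ ^ 1 := by rw [pow_one]; exact h.symm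
    have h3 : m ^ p ^ k ≡ 1 [MOD p] := by
      have := pow_eq_pow_iff_modEq.mp h2
      rwa [ho] at this
    have h4 : ((m : ℕ) : ZMod p) = 1 := by
      have h5 : ((m ^ p ^ k : ℕ) : ZMod p) = ((1 : ℕ) : ZMod p) :=
        (ZMod.natCast_eq_natCast_iff _ _ _).mpr h3
      rw [Nat.cast_pow, ZMod.pow_card_pow, Nat.cast_one] at h5
      exact h5
    have h6 : m ≡ 1 [MOD p] := by
      apply (ZMod.natCast_eq_natCast_iff _ _ _).mp
      rw [h4, Nat.cast_one]
    have h7 : a₀ ^ m = a₀ ^ 1 := pow_eq_pow_iff_modEq.mpr (by rw [ho]; exact h6)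
    rw [h7, pow_one]
  rw [hm1] at hm
  have hz₁1 : z₁ ≠ 1 := by
    intro h
    apply ha₀Z
    apply hCZ a₀ ha₀
    rw [h, mul_one] at hm
    calc x * a₀ = (x * a₀ * x⁻¹) * x := by group
      _ = a₀ * x := by rw [hm]
  have hZz : Z = Subgroup.zpowers z₁ := t0a_eq_zpowers hZ hz₁ hz₁1
  have hci : ∀ i : ℕ, x ^ i * a₀ * (x ^ i)⁻¹ = a₀ * z₁ ^ i := by
    intro i
    induction i with
    | zero => simp
    | succ i ih =>
      have e1 : x ^ (i + 1) * a₀ * (x ^ (i + 1))⁻¹ = x * (x ^ i * a₀ * (x ^ i)⁻¹) * x⁻¹ := by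
        rw [pow_succ']
        group
      have e2 : x * (a₀ * z₁ ^ i) * x⁻¹ = (x * a₀ * x⁻¹) * (x * z₁ ^ i * x⁻¹) := by group
      rw [e1, ih, e2, hm, hcz _ (Z.pow_mem hz₁ i), mul_assoc, ← pow_succ']
  have hczi : ∀ (i : ℕ), ∀ z ∈ Z, x ^ i * z * (x ^ i)⁻¹ = z := by
    intro i z hz
    have hc : Commute (x ^ i) z := Commute.pow_left (hxZ z hz) i
    rw [hc.eq, mul_inv_cancel_right]
  -- every point other than `Z` is generated by some `a₀ * z`
  have hpt : ∀ X : Subgroup G, X ≤ A → Nat.card X = p → X ≠ Z →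
      ∃ z ∈ Z, X = Subgroup.zpowers (a₀ * z) := by
    intro X hXA hX hXZ
    obtain ⟨a, ha, ha1⟩ : ∃ a ∈ X, a ≠ 1 := by
      by_contra hno
      push Not at hno
      have : X = ⊥ := (Subgroup.eq_bot_iff_forall _).mpr hno
      rw [this, Subgroup.card_bot] at hX
      exact hp.one_lt.ne hX
    have haZ : a ∉ Z := by
      intro haZ
      apply hXZ
      rw [t0a_eq_zpowers hX ha ha1, t0a_eq_zpowers hZ haZ ha1]
    obtain ⟨j, z₂, hz₂, hj⟩ := hdec a (hXA ha)
    have hnd : ¬ p ∣ j := by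
      intro hd
      apply haZ
      rw [← ho] at hd
      rw [hj, orderOf_dvd_iff_pow_eq_one.mp hd, one_mul]
      exact hz₂
    have hcop : Nat.Coprime j p := ((Nat.Prime.coprime_iff_not_dvd hp).mpr hnd).symm
    obtain ⟨j', -, hj'⟩ := Nat.exists_mul_mod_eq_one_of_coprime hcop hp.one_lt
    have e1 : a₀ ^ (j * j') = a₀ := by
      rw [← pow_mod_orderOf, ho, hj', pow_one]
    have hc : Commute (a₀ ^ j) z₂ := hab _ (A.pow_mem ha₀ j) _ (hZA hz₂)
    have e2 : a ^ j' = a₀ * z₂ ^ j' := by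
      rw [hj, hc.mul_pow, ← pow_mul, e1]
    refine ⟨z₂ ^ j', Z.pow_mem hz₂ j', ?_⟩
    rw [← e2]
    apply t0a_eq_zpowers hX (X.pow_mem ha j')
    rw [e2]
    intro h1
    apply ha₀Z
    have : a₀ = (z₂ ^ j')⁻¹ := eq_inv_of_mul_eq_one_left h1
    rw [this]
    exact Z.inv_mem (Z.pow_mem hz₂ j')
  intro X Y hXA hX hXZ hYA hY hYZ
  obtain ⟨z, hz, rfl⟩ := hpt X hXA hX hXZ
  obtain ⟨w, hw, rfl⟩ := hpt Y hYA hY hYZ
  have hwz : w * z⁻¹ ∈ Subgroup.zpowers z₁ := by
    rw [← hZz]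
    exact Z.mul_mem hw (Z.inv_mem hz)
  obtain ⟨i, hi⟩ := mem_powers_iff_mem_zpowers.mpr hwz
  refine ⟨i, ?_⟩
  rw [t0a_cj_zpowers]
  have e3 : x ^ i * (a₀ * z) * (x ^ i)⁻¹ = (x ^ i * a₀ * (x ^ i)⁻¹) * (x ^ i * z * (x ^ i)⁻¹) := by
    group
  have hi' : z₁ ^ i = w * z⁻¹ := hi
  rw [e3, hci, hczi i z hz, hi', mul_assoc, inv_mul_cancel_right]

omit [Finite G] in
/-- the subgroup generated by pairwise commuting elements of order dividing `p` is elementary
abelian -/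
theorem t0a_closure_ea {p : ℕ} (s : Set G) (hc : ∀ a ∈ s, ∀ b ∈ s, a * b = b * a)
    (he : ∀ a ∈ s, a ^ p = 1) : IsElementaryAbelian p (Subgroup.closure s) := by
  have h1 : Subgroup.closure s ≤ Subgroup.centralizer s := by
    rw [Subgroup.closure_le]
    intro a ha
    rw [SetLike.mem_coe, Subgroup.mem_centralizer_iff]
    intro b hb
    exact hc b hb a ha
  have h2 : ∀ k ∈ Subgroup.closure s, ∀ l ∈ Subgroup.closure s, k * l = l * k := by
    intro k hk l hl
    have h3 : Subgroup.closure s ≤ Subgroup.centralizer ({k} : Set G) := by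
      rw [Subgroup.closure_le]
      intro a ha
      rw [SetLike.mem_coe, Subgroup.mem_centralizer_iff]
      rintro _ rfl
      exact (Subgroup.mem_centralizer_iff.mp (h1 hk) a ha).symm
    exact Subgroup.mem_centralizer_iff.mp (h3 hl) k rfl
  refine ⟨⟨⟨fun a b => Subtype.ext (h2 a a.2 b b.2)⟩⟩, ?_⟩
  intro a ha
  induction ha using Subgroup.closure_induction with
  | mem a ha => exact he a ha
  | one => exact one_pow p
  | mul a b ha hb iha ihb =>
    have hcm : Commute a b := h2 a ha b hb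
    rw [hcm.mul_pow, iha, ihb, one_mul]
  | inv a _ iha => rw [inv_pow, iha, inv_one]

/-- T0a -/
theorem exists_transv (hG : IsMinSimpleOddOrder G) (h16 : H16 G) (h17 : H17 G)
    {M E : Subgroup G} {p : ℕ} [Fact p.Prime] {A : Subgroup G} (h : Ctx7 M E p A)
    (hS : ∀ S : Sylow p G, ¬ IsMulCommutative (S : Subgroup G)) :
    ∃ (P S : Subgroup G) (x : G), P ∈ sylSet p M ∧ A ≤ P ∧ P ≤ S ∧
      S ∈ sylSet p (⊤ : Subgroup G) ∧ x ∈ S ∧ x ∉ M ∧ x ∈ Subgroup.normalizer (A : Set G) ∧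
        omegaZ p S ≤ A ∧ Nat.card (omegaZ p S) = p ∧
        (∀ X Y : Subgroup G, X ≤ A → Nat.card X = p → X ≠ omegaZ p S → Y ≤ A → Nat.card Y = p →
          Y ≠ omegaZ p S → ∃ i : ℕ, Y = cj (x ^ i) X) := by
  have hp : p.Prime := Fact.out
  have hM := h.hM
  have hAM : A ≤ M := h.hAE.trans h.hE.1
  have hAp : IsPGroup p A := IsPGroup.of_card h.hA2
  have hab : ∀ a ∈ A, ∀ b ∈ A, a * b = b * a := Cfsg.Agent.Lib.Helper8.BG10.p5_comm h.hA
  have hexp : ∀ a ∈ A, a ^ p = 1 := h.hA.2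
  obtain ⟨P, hP, hAP⟩ := exists_sylSet_ge hAp hAM
  have hPp : IsPGroup p P := isPGroup_of_mem_sylSet hP
  obtain ⟨S, hSs, hPS⟩ := exists_sylSet_ge hPp (le_top : P ≤ ⊤)
  have hSp : IsPGroup p S := isPGroup_of_mem_sylSet hSs
  have hAS : A ≤ S := hAP.trans hPS
  -- the data of `h17`, `h16`, `H5`
  have h17' := h17 M hM p h.hp A ⟨hAM, h.hA, h.hA2⟩
  obtain ⟨P', hP'⟩ := exists_sylow_of_mem_sylSet hP
  have hb := h17'.2.1 P'
  have hPab : ∀ a ∈ P, ∀ b ∈ P, a * b = b * a := by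
    intro a ha b hb'
    rw [← hP'] at ha hb'
    obtain ⟨a', ha', rfl⟩ := ha
    obtain ⟨b', hb'', rfl⟩ := hb'
    have := hb.1.is_comm.comm ⟨a', ha'⟩ ⟨b', hb''⟩
    have h2 := congrArg (fun t : (P' : Subgroup M) => ((t : M) : G)) this
    exact h2
  have hPA : ∀ y ∈ P, y ^ p = 1 ↔ y ∈ A := by
    have := (hb.2 (by rw [hP']; exact hAP)).1
    rw [hP'] at this
    exact this
  have hCA : Subgroup.centralizer (A : Set G) ≤ M := (h16 M hM p A ⟨hAM, h.hA, h.hA2⟩).1
  have hmax := (Cfsg.Agent.Lib.Helper8.BG10.bg10_5 hG (ut_of hG) M hM p h.hp.2.1 h.hp.2.2.1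
    h.hp.2.2.2).2 A hAM h.hA h.hA2
  -- `S` is not abelian
  have hSna : ¬ ∀ a ∈ S, ∀ b ∈ S, a * b = b * a := by
    intro hc
    have hcard : Nat.card S = p ^ (Nat.card G).factorization p := by
      rw [hSs.2, Subgroup.card_top]
    apply hS (Sylow.ofCard S hcard)
    exact ⟨⟨fun a b => Subtype.ext (hc a a.2 b b.2)⟩⟩
  have hPneS : P ≠ S := by
    intro he
    apply hSna
    rw [← he]
    exact hPab
  -- an element of `N_S(P)` outside `P`
  have hnil : Group.IsNilpotent ↥S := hSp.isNilpotent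
  have hlt : P.subgroupOf S < ⊤ := by
    rw [lt_top_iff_ne_top]
    intro he
    apply hPneS
    apply le_antisymm hPS
    intro s hs
    have : (⟨s, hs⟩ : S) ∈ P.subgroupOf S := by rw [he]; exact Subgroup.mem_top _
    exact Subgroup.mem_subgroupOf.mp this
  obtain ⟨y, hyN, hyP⟩ := SetLike.exists_of_lt (Group.normalizerCondition_of_isNilpotent _ hlt)
  obtain ⟨x, hxS, hxdef⟩ : ∃ x : G, x ∈ S ∧ x = (y : G) := ⟨y, y.2, rfl⟩
  have hxP : x ∉ P := by
    rw [hxdef]
    exact fun hh => hyP (Subgroup.mem_subgroupOf.mpr hh)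
  have hxNP : ∀ g : G, g ∈ P ↔ x * g * x⁻¹ ∈ P := by
    intro g
    have hy := Subgroup.mem_normalizer_iff.mp hyN
    constructor
    · intro hg
      have hgS : g ∈ S := hPS hg
      have h1 := (hy ⟨g, hgS⟩).mp (Subgroup.mem_subgroupOf.mpr hg)
      have h2 := Subgroup.mem_subgroupOf.mp h1
      rw [hxdef]
      exact h2
    · intro hg
      have hgS : g ∈ S := by
        have h1 : x * g * x⁻¹ ∈ S := hPS hg
        have h2 : g = x⁻¹ * (x * g * x⁻¹) * x := by group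
        rw [h2]
        exact S.mul_mem (S.mul_mem (S.inv_mem hxS) h1) hxS
      have h1 : y * ⟨g, hgS⟩ * y⁻¹ ∈ P.subgroupOf S := by
        rw [Subgroup.mem_subgroupOf]
        have : ((y * ⟨g, hgS⟩ * y⁻¹ : S) : G) = x * g * x⁻¹ := by rw [hxdef]; rfl
        rw [this]
        exact hg
      exact Subgroup.mem_subgroupOf.mp ((hy ⟨g, hgS⟩).mpr h1)
  -- `x ∉ M`
  have hSM : S ⊓ M = P :=
    sylSet_eq_of_le hP (hSp.to_le inf_le_left) inf_le_right (le_inf hPS hP.1)
  have hxM : x ∉ M := by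
    intro hxM
    apply hxP
    rw [← hSM]
    exact ⟨hxS, hxM⟩
  -- `x` normalises `A`
  have hxA : ∀ a, a ∈ A ↔ x * a * x⁻¹ ∈ A := by
    intro a
    constructor
    · intro ha
      have h1 : x * a * x⁻¹ ∈ P := (hxNP a).mp (hAP ha)
      apply (hPA _ h1).mp
      rw [conj_pow, hexp a ha, mul_one, mul_inv_cancel]
    · intro ha
      have h1 : a ∈ P := (hxNP a).mpr (hAP ha)
      apply (hPA _ h1).mp
      have h2 := hexp _ ha
      rw [conj_pow] at h2
      have h3 : a ^ p = x⁻¹ * (x * a ^ p * x⁻¹) * x := by group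
      rw [h3, h2]
      group
  have hxNA : x ∈ Subgroup.normalizer (A : Set G) := Subgroup.mem_normalizer_iff.mpr hxA
  -- `Z ≤ A`
  have hZA : omegaZ p S ≤ A := by
    intro z hz
    obtain ⟨hzS, hzc, hzp⟩ := mem_omegaZ.mp hz
    have hea : IsElementaryAbelian p (Subgroup.closure ((A : Set G) ∪ {z})) := by
      apply t0a_closure_ea
      · rintro a (ha | ha) b (hb' | hb')
        · exact hab a ha b hb'
        · rw [Set.mem_singleton_iff] at hb'
          rw [hb']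
          exact hzc a (hAS ha)
        · rw [Set.mem_singleton_iff] at ha
          rw [ha]
          exact (hzc b (hAS hb')).symm
        · rw [Set.mem_singleton_iff] at ha hb'
          rw [ha, hb']
      · rintro a (ha | ha)
        · exact hexp a ha
        · rw [Set.mem_singleton_iff] at ha
          rw [ha]
          exact hzp
    have hle : A ≤ Subgroup.closure ((A : Set G) ∪ {z}) := fun a ha =>
      Subgroup.subset_closure (Or.inl ha)
    have heq := hmax _ hea hle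
    rw [← heq]
    exact Subgroup.subset_closure (Or.inr rfl)
  -- `Z ≠ ⊥`
  have hZbot : omegaZ p S ≠ ⊥ := by
    have hSnt : Nontrivial ↥S := by
      obtain ⟨a, ha, ha1⟩ : ∃ a ∈ A, a ≠ 1 := by
        by_contra hno
        push Not at hno
        have h1 : A = ⊥ := (Subgroup.eq_bot_iff_forall _).mpr hno
        have h2 := h.hA2
        rw [h1, Subgroup.card_bot] at h2
        have : 1 < p ^ 2 := Nat.one_lt_pow (by norm_num) hp.one_lt
        omega
      exact ⟨⟨⟨a, hAS ha⟩, 1, fun he => ha1 (congrArg Subtype.val he)⟩⟩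
    have hcnt : Nontrivial (Subgroup.center ↥S) := hSp.center_nontrivial
    have hcp : IsPGroup p (Subgroup.center ↥S) := hSp.to_subgroup _
    have hdvd : p ∣ Nat.card (Subgroup.center ↥S) := by
      rcases hcp.card_eq_or_dvd with h1 | h1
      · exact absurd h1 (Finite.one_lt_card_iff_nontrivial.mpr hcnt).ne'
      · exact h1
    obtain ⟨c, hc⟩ := exists_prime_orderOf_dvd_card' p hdvd
    intro hbot
    have hcz : ((c : ↥S) : G) ∈ omegaZ p S := by
      refine mem_omegaZ.mpr ⟨(c : ↥S).2, fun s hs => ?_, ?_⟩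
      · have h1 := Subgroup.mem_center_iff.mp c.2 ⟨s, hs⟩
        exact congrArg Subtype.val h1
      · have h1 : c ^ p = 1 := by rw [← hc]; exact pow_orderOf_eq_one c
        have h2 := congrArg (fun t : Subgroup.center ↥S => (((t : ↥S)) : G)) h1
        simpa using h2
    rw [hbot, Subgroup.mem_bot] at hcz
    have hc1 : c = 1 := by
      apply Subtype.ext
      apply Subtype.ext
      exact hcz
    rw [hc1, orderOf_one] at hc
    exact hp.one_lt.ne hc
  -- `Z ≠ A`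
  have hZneA : omegaZ p S ≠ A := by
    intro he
    apply hxM
    apply hCA
    rw [Subgroup.mem_centralizer_iff]
    intro a ha
    rw [← he] at ha
    exact ((mem_omegaZ.mp ha).2.1 x hxS).symm
  have hZcard : Nat.card (omegaZ p S) = p := by
    have hdvd : Nat.card (omegaZ p S) ∣ p ^ 2 := by
      rw [← h.hA2]
      exact Subgroup.card_dvd_of_le hZA
    obtain ⟨e, he, hce⟩ := (Nat.dvd_prime_pow hp).mp hdvd
    interval_cases e
    · exfalso
      apply hZbot
      rw [pow_zero] at hce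
      exact Subgroup.eq_bot_of_card_eq _ hce
    · rw [hce, pow_one]
    · exfalso
      apply hZneA
      exact Subgroup.eq_of_le_of_card_ge hZA (by rw [hce, h.hA2])
  -- `C_A(x) = Z`
  have hCZ : ∀ a ∈ A, x * a = a * x → a ∈ omegaZ p S := by
    have hle : omegaZ p S ≤ A ⊓ Subgroup.centralizer ({x} : Set G) := by
      intro z hz
      have hzc : z ∈ Subgroup.centralizer ({x} : Set G) := by
        rw [Subgroup.mem_centralizer_iff]
        rintro _ rfl
        exact (mem_omegaZ.mp hz).2.1 _ hxS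
      exact Subgroup.mem_inf.mpr ⟨hZA hz, hzc⟩
    have hne : A ⊓ Subgroup.centralizer ({x} : Set G) ≠ A := by
      intro he
      apply hxM
      apply hCA
      rw [Subgroup.mem_centralizer_iff]
      intro a ha
      rw [← he] at ha
      exact (Subgroup.mem_centralizer_iff.mp ha.2 x rfl).symm
    have hdvd : Nat.card ↥(A ⊓ Subgroup.centralizer ({x} : Set G)) ∣ p ^ 2 := by
      rw [← h.hA2]
      exact Subgroup.card_dvd_of_le inf_le_left
    have hdvd2 : p ∣ Nat.card ↥(A ⊓ Subgroup.centralizer ({x} : Set G)) := by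
      rw [← hZcard]
      exact Subgroup.card_dvd_of_le hle
    have hcard : Nat.card ↥(A ⊓ Subgroup.centralizer ({x} : Set G)) = p := by
      obtain ⟨e, he, hce⟩ := (Nat.dvd_prime_pow hp).mp hdvd
      interval_cases e
      · exfalso
        rw [hce, pow_zero] at hdvd2
        exact hp.one_lt.ne' (Nat.dvd_one.mp hdvd2)
      · rw [hce, pow_one]
      · exfalso
        apply hne
        exact Subgroup.eq_of_le_of_card_ge inf_le_left (by rw [hce, h.hA2])
    have heq : omegaZ p S = A ⊓ Subgroup.centralizer ({x} : Set G) :=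
      Subgroup.eq_of_le_of_card_ge hle (by rw [hcard, hZcard])
    intro a ha hxa
    rw [heq]
    have hac : a ∈ Subgroup.centralizer ({x} : Set G) := by
      rw [Subgroup.mem_centralizer_iff]
      rintro _ rfl
      exact hxa
    exact Subgroup.mem_inf.mpr ⟨ha, hac⟩
  obtain ⟨k, hk⟩ := hSp ⟨x, hxS⟩
  have hxk : x ^ (p ^ k) = 1 := by
    have := congrArg Subtype.val hk
    simpa using this
  refine ⟨P, S, x, hP, hAP, hPS, hSs, hxS, hxM, hxNA, hZA, hZcard, ?_⟩
  exact t0a_core hab hexp h.hA2 hZA hZcard (fun a ha => (hxA a).mp ha)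
    (fun z hz => (mem_omegaZ.mp hz).2.1 x hxS) hCZ k hxk

end Cfsg.Agent.Lib.Helper4.BG12x
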