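import Cfsg.Agent.Lib.Helper3.BG12Pieces

set_option autoImplicit false

open Cfsg Cfsg.Agent.Lib.Helper32 Cfsg.Agent.Lib.Helper32.BG10 Cfsg.Agent.Lib.Helper3.BG12 Cfsg.Agent.Lib.Helper3.BG12S

namespace Cfsg.Agent.Lib.Helper4.BG13

universe u

variable {G : Type u} [Group G] [Finite G]

theorem prankLE_cj {p k : ℕ} {M : Subgroup G} (g : G) (h : PRankLE p k ↥M) :
    PRankLE p k ↥(cj g M) := by
  by_contra hcon
  obtain ⟨F, hFle, hFc, hFp, hFcard⟩ := exists_of_not_prankLE hcon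
  have hF'le : cj g⁻¹ F ≤ M := by
    have := cj_mono g⁻¹ hFle
    rwa [cj_inv_cj] at this
  refine not_prankLE_of_le hF'le ?_ ?_ ?_ h
  · intro a ha b hb
    rw [mem_cj, inv_inv] at ha hb
    have := hFc _ ha _ hb
    have e1 : a * b = g⁻¹ * ((g * a * g⁻¹) * (g * b * g⁻¹)) * g := by group
    have e2 : b * a = g⁻¹ * ((g * b * g⁻¹) * (g * a * g⁻¹)) * g := by group
    rw [e1, e2, this]
  · intro a ha
    rw [mem_cj, inv_inv] at ha
    have := hFp _ ha
    rw [conj_pow] at this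
    have e : a ^ p = g⁻¹ * (g * a ^ p * g⁻¹) * g := by group
    rw [e, this]; group
  · rw [card_cj]; exact hFcard

theorem exists_card_prime_le_zpowers {p : ℕ} [Fact p.Prime] {S : Subgroup G} (hS : IsPGroup p S)
    {x : G} (hx : x ∈ S) (hx1 : x ≠ 1) :
    ∃ X : Subgroup G, X ≤ Subgroup.zpowers x ∧ Nat.card X = p := by
  have hp : p.Prime := Fact.out
  obtain ⟨n, hn⟩ := hS ⟨x, hx⟩
  have hn' : x ^ p ^ n = 1 := by simpa using congrArg Subtype.val hn
  obtain ⟨j, _, hj⟩ := (Nat.dvd_prime_pow hp).mp (orderOf_dvd_of_pow_eq_one hn')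
  have hj0 : j ≠ 0 := by
    rintro rfl
    rw [pow_zero] at hj
    exact hx1 (orderOf_eq_one_iff.mp hj)
  refine ⟨Subgroup.zpowers (x ^ p ^ (j - 1)), ?_, ?_⟩
  · rw [Subgroup.zpowers_le]
    exact Subgroup.pow_mem _ (Subgroup.mem_zpowers x) _
  · rw [Nat.card_zpowers, orderOf_pow, hj]
    have h1 : Nat.gcd (p ^ j) (p ^ (j - 1)) = p ^ (j - 1) :=
      Nat.gcd_eq_right (pow_dvd_pow p (Nat.sub_le j 1))
    rw [h1]
    have h2 : p ^ j = p * p ^ (j - 1) := by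
      rw [← pow_succ']; congr 1; omega
    rw [h2, Nat.mul_div_cancel _ (pow_pos hp.pos _)]

end Cfsg.Agent.Lib.Helper4.BG13
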