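import Mathlib
import Cfsg.Agent.Lib.Helper10.BT0
import Cfsg.Agent.Lib.Helper83.Linear

set_option autoImplicit false

namespace Cfsg.Agent.Lib.Helper10.BT

open Cfsg
open Cfsg.Agent.Lib.Helper83 (trivIrr)

/-- BT-P2 -/
theorem deg_ge_two {G : Type*} [Group G] [Finite G] (hperf : commutator G = ⊤)
    (χ : IrrCharacter G) (hχ : χ ≠ trivIrr G) : 2 ≤ charDegree (χ : G → ℂ) := by
  by_contra hlt
  obtain ⟨hd0, hd1⟩ := Cfsg.Agent.Lib.Helper83.irr_degree χ.2
  have h1 : charDegree (χ : G → ℂ) = 1 := by omega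
  have h2 : (χ : G → ℂ) 1 = 1 :=
    (Cfsg.Agent.Lib.Helper83.irr_charDegree_eq_one_iff χ.2).mp h1
  apply hχ
  apply Subtype.ext
  funext g
  have hg : g ∈ commutator G := by rw [hperf]; exact Subgroup.mem_top g
  rw [Cfsg.Agent.Lib.Helper83.irr_linear_commutator χ.2 h2 hg]
  rfl

end Cfsg.Agent.Lib.Helper10.BT
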