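import Mathlib
import Cfsg.Agent.Lib.Helper10.BT0
import Cfsg.Prelude.Def_CaseTheorems

set_option autoImplicit false

namespace Cfsg.Agent.Lib.Helper10.BT

open Cfsg

/-- for any normal subgroup `H`: `n_p(G) = n_p(G/H) * n_p(N_G(PH))`, the last factor `≡ 1 mod p` -/
theorem sylow_count_quot_normal_h4 {G : Type*} [Group G] [Finite G] (p : ℕ) [Fact p.Prime]
    (H : Subgroup G) [H.Normal] :
    ∃ k : ℕ, Nat.card (Sylow p G) = Nat.card (Sylow p (G ⧸ H)) * (1 + k * p) := by
  obtain ⟨P⟩ : Nonempty (Sylow p G) := inferInstance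
  have hsurj : Function.Surjective (QuotientGroup.mk' H) := QuotientGroup.mk'_surjective H
  obtain ⟨L, hL⟩ : ∃ L : Subgroup G, L = (Subgroup.normalizer
      (((P.mapSurjective hsurj : Sylow p (G ⧸ H)) : Subgroup (G ⧸ H)) : Set (G ⧸ H))).comap
        (QuotientGroup.mk' H) := ⟨_, rfl⟩
  have h1 : Nat.card (Sylow p (G ⧸ H)) = L.index := by
    rw [hL, Subgroup.index_comap_of_surjective _ hsurj]
    exact (P.mapSurjective hsurj).card_eq_index_normalizer
  have hNL : Subgroup.normalizer ((P : Subgroup G) : Set G) ≤ L := by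
    rw [hL]
    intro g hg
    rw [Subgroup.mem_comap]
    exact Subgroup.le_normalizer_map (QuotientGroup.mk' H) (Subgroup.mem_map_of_mem _ hg)
  have hPL : (P : Subgroup G) ≤ L := Subgroup.le_normalizer.trans hNL
  have h2 : Nat.card (Sylow p G) =
      (Subgroup.normalizer ((P : Subgroup G) : Set G)).relIndex L * L.index := by
    rw [Subgroup.relIndex_mul_index hNL]
    exact P.card_eq_index_normalizer
  have h3 : (Subgroup.normalizer ((P : Subgroup G) : Set G)).relIndex L =
      Nat.card (Sylow p ↥L) := by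
    rw [Subgroup.relIndex, Subgroup.subgroupOf_normalizer_eq hPL]
    exact ((P.subtype hPL).card_eq_index_normalizer).symm
  have h4 : Nat.card (Sylow p ↥L) ≡ 1 [MOD p] := card_sylow_modEq_one p ↥L
  have hp1 : 1 < p := (Fact.out : p.Prime).one_lt
  refine ⟨Nat.card (Sylow p ↥L) / p, ?_⟩
  rw [h2, h3, h1, mul_comm]
  congr 1
  have h5 : Nat.card (Sylow p ↥L) % p = 1 := by
    have h6 := h4
    unfold Nat.ModEq at h6
    rw [h6, Nat.mod_eq_of_lt hp1]
  have h7 := Nat.div_add_mod (Nat.card (Sylow p ↥L)) p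
  rw [h5] at h7
  linarith [h7]

/-- BT-R3 -/
theorem sylow_count_quot {G : Type*} [Group G] [Finite G] (p : ℕ) [Fact p.Prime] :
    ∃ k : ℕ, Nat.card (Sylow p G) =
      Nat.card (Sylow p (G ⧸ pPrimeCore p G)) * (1 + k * p) :=
  sylow_count_quot_normal_h4 p (pPrimeCore p G)

end Cfsg.Agent.Lib.Helper10.BT
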