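import Mathlib
import Cfsg.Agent.Lib.Helper10.BT0
import Cfsg.Agent.Lib.Helper84.Gagola

set_option autoImplicit false

namespace Cfsg.Agent.Lib.Helper10.BT

open Cfsg

/-- BT-V2 -/
theorem cent_of_ker {G : Type*} [Group G] [Fintype G] (p : ℕ) [Fact p.Prime] (P : Sylow p G)
    (hP : Nat.card P = p)
    (hcore : ∀ M : Subgroup G, M.Normal → (Nat.card M).Coprime p → M = ⊥)
    (χ : IrrCharacter G)
    (hne : ∀ x ∈ (P : Subgroup G), x ≠ 1 → (χ : G → ℂ) x ≠ (χ : G → ℂ) 1)
    (hker : ∀ y ∈ Subgroup.centralizer ((P : Subgroup G) : Set G), ¬ p ∣ orderOf y →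
      (χ : G → ℂ) y = (χ : G → ℂ) 1) :
    Subgroup.centralizer ((P : Subgroup G) : Set G) = (P : Subgroup G) := by
  have hp : p.Prime := Fact.out
  obtain ⟨K, hK⟩ : ∃ K : Subgroup G, K = Cfsg.Agent.Lib.Helper84.irrKer χ := ⟨_, rfl⟩
  have hKn : K.Normal := by rw [hK]; infer_instance
  have hKmem : ∀ g, g ∈ K ↔ (χ : G → ℂ) g = (χ : G → ℂ) 1 := by
    intro g; rw [hK]; exact Cfsg.Agent.Lib.Helper84.mem_irrKer χ g
  -- K has order coprime to p
  have hKcop : (Nat.card K).Coprime p := by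
    rw [Nat.coprime_comm, Nat.Prime.coprime_iff_not_dvd hp]
    intro hdvd
    obtain ⟨x, hx⟩ := exists_prime_orderOf_dvd_card' p hdvd
    have hx1 : (x : G) ≠ 1 := by
      intro h
      have : x = 1 := Subtype.ext h
      rw [this, orderOf_one] at hx
      exact hp.one_lt.ne hx
    have hxo : orderOf (x : G) = p := by rw [Subgroup.orderOf_coe]; exact hx
    have hzp : IsPGroup p (Subgroup.zpowers (x : G)) := by
      apply IsPGroup.of_card (n := 1)
      rw [Nat.card_zpowers, hxo, pow_one]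
    obtain ⟨Q, hQ⟩ := hzp.exists_le_sylow
    obtain ⟨g, hg⟩ := MulAction.exists_smul_eq G P Q
    have hxQ : (x : G) ∈ (Q : Subgroup G) := hQ (Subgroup.mem_zpowers _)
    rw [← hg, Sylow.coe_subgroup_smul, Subgroup.mem_pointwise_smul_iff_inv_smul_mem,
      MulAut.smul_def, MulAut.conj_inv_apply] at hxQ
    have hxK : g⁻¹ * (x : G) * g ∈ K := by
      have := hKn.conj_mem x.1 x.2 g⁻¹
      simpa using this
    apply hne _ hxQ _ ((hKmem _).mp hxK)
    intro h
    apply hx1
    calc (x : G) = g * (g⁻¹ * (x : G) * g) * g⁻¹ := by group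
      _ = 1 := by rw [h]; group
  have hKbot : K = ⊥ := hcore K hKn hKcop
  have hreg : ∀ y ∈ Subgroup.centralizer ((P : Subgroup G) : Set G), ¬ p ∣ orderOf y →
      y = 1 := by
    intro y hy hyp
    have : y ∈ K := (hKmem y).mpr (hker y hy hyp)
    rw [hKbot, Subgroup.mem_bot] at this
    exact this
  apply le_antisymm
  · intro g hg
    obtain ⟨k, m, hm, hkm⟩ :=
      Nat.exists_eq_pow_mul_and_not_dvd (orderOf_pos g).ne' p hp.ne_one
    have hgpk : g ^ p ^ k = 1 := by
      apply hreg _ (Subgroup.pow_mem _ hg _)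
      intro hdvd
      apply hm
      apply hdvd.trans
      apply orderOf_dvd_of_pow_eq_one
      rw [← pow_mul, ← hkm, pow_orderOf_eq_one]
    have hzg : IsPGroup p (Subgroup.zpowers g) := by
      obtain ⟨j, -, hj⟩ := (Nat.dvd_prime_pow hp).mp (orderOf_dvd_of_pow_eq_one hgpk)
      apply IsPGroup.of_card (n := j)
      rw [Nat.card_zpowers, hj]
    have hle : Subgroup.zpowers g ≤ Subgroup.normalizer ((P : Subgroup G) : Set G) := by
      rw [Subgroup.zpowers_le]
      exact Subgroup.centralizer_le_normalizer _ hg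
    have hsup : IsPGroup p (Subgroup.zpowers g ⊔ (P : Subgroup G) : Subgroup G) :=
      IsPGroup.to_sup_of_normal_right' hzg P.isPGroup' hle
    have heq := P.is_maximal' hsup le_sup_right
    have : g ∈ Subgroup.zpowers g ⊔ (P : Subgroup G) :=
      (le_sup_left : Subgroup.zpowers g ≤ _) (Subgroup.mem_zpowers g)
    rw [heq] at this
    exact this
  · intro x hx
    haveI : IsCyclic ↥(P : Subgroup G) := isCyclic_of_prime_card hP
    rw [Subgroup.mem_centralizer_iff]
    intro y hy
    have h := (IsCyclic.commGroup (α := ↥(P : Subgroup G))).mul_comm ⟨y, hy⟩ ⟨x, hx⟩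
    exact congrArg Subtype.val h

end Cfsg.Agent.Lib.Helper10.BT
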