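import Mathlib
import Cfsg.Agent.Lib.Helper4.FCDefs

namespace Cfsg.Agent.Lib.Helper4.FC

universe u

theorem fc_a1 : A1aStmt.{u} → ItoNilStmt.{u} → NilProdStmt.{u} → KQStmt.{u} → A1Stmt.{u} := by
  intro hA1a hIto hNil hKQ G _ _ n m q K Q hF hq hqi hKn hKc hKi hcen
  obtain ⟨hall, hex⟩ := hA1a G n m q K Q hF hq hqi hKn hKc hKi hcen
  obtain ⟨hKnil, hnpp⟩ := hIto K n hF.1 hall hex
  obtain ⟨-, hsup, -⟩ := hKQ G q K Q hq hKn hKc hKi
  have hfact : Fact q.Prime := ⟨hq⟩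
  have hQnil : Group.IsNilpotent (Q : Subgroup G) := Q.isPGroup'.isNilpotent
  have hG := hNil G K (Q : Subgroup G) hsup (fun x hx => hcen x hx) hKnil hQnil
  refine ⟨hG, hnpp, ?_⟩
  obtain ⟨i, hmi⟩ := hqi
  have hi : i ≠ 0 := by
    rintro rfl
    rw [pow_zero] at hmi
    have := hF.2.1
    omega
  rw [hmi]
  exact hq.isPrimePow.pow hi

end Cfsg.Agent.Lib.Helper4.FC
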