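import Mathlib
import Cfsg.Agent.Lib.Helper4.FCDefs

namespace Cfsg.Agent.Lib.Helper4.FC

universe u

theorem fc_a2 : A2HStmt.{u} → A2K1Stmt.{u} → A2K2Stmt.{u} → A2K3Stmt.{u} → MaxCenStmt.{u} →
    Z2AbsStmt.{u} → A2Stmt.{u} := by
  intro hH hK1 hK2 hK3 hMax hZ2 G _ _ n m q K Q h hctx hhQ hnc
  obtain ⟨hcsh, hrel⟩ := hH G n m q K Q h hctx hhQ hnc
  have hnil := hK3 G n m q K Q hctx
  have hnab := hK2 G n m q K Q hctx
  obtain ⟨hF, hq, hqi, hKn, hKc, hKi, hWp, hbex⟩ := id hctx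
  have hfact : Fact q.Prime := ⟨hq⟩
  have hordh : ∃ k, orderOf h = q ^ k := by
    obtain ⟨k, hk⟩ := (IsPGroup.iff_orderOf.mp Q.isPGroup') ⟨h, hhQ⟩
    exact ⟨k, by rw [← hk]; exact (Subgroup.orderOf_mk h hhQ).symm⟩
  obtain ⟨k, hk⟩ := hordh
  have hcopK : (orderOf h).Coprime (Nat.card K) := by
    rw [hk]
    exact Nat.Coprime.pow_left k hKc.symm
  refine hZ2 G K h hKn hnil hcopK hnab ?_ ?_
  · intro u huK v hvK huC hvC
    have hcop : (orderOf h).Coprime (orderOf u) := by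
      have hdvd : orderOf u ∣ Nat.card K := by
        have := orderOf_dvd_natCard (⟨u, huK⟩ : K)
        rwa [Subgroup.orderOf_mk] at this
      exact Nat.Coprime.coprime_dvd_right hdvd hcopK
    have hle := hMax G n m h u hF hcsh huC hcop
    have hvu := hle hvC
    exact (Subgroup.mem_centralizer_iff.mp hvu) u (Set.mem_singleton u)
  · intro u huK hex
    rcases hK1 G n m q K Q u hctx huK with h1 | h1
    · exfalso
      obtain ⟨v, hvK, hne⟩ := hex
      have hle : K ≤ Cen u := Subgroup.relIndex_eq_one.mp h1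
      exact hne ((Subgroup.mem_centralizer_iff.mp (hle hvK)) u (Set.mem_singleton u))
    · rw [h1, hrel]

end Cfsg.Agent.Lib.Helper4.FC
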