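import Mathlib
import Cfsg.Agent.Lib.Helper4.FCDefs

namespace Cfsg.Agent.Lib.Helper4.FC

universe u

theorem fc_caseb : Step1Stmt.{u} → PrimStmt.{u} → S2iStmt.{u} → S2mStmt.{u} → Step3Stmt.{u} →
    Step4Stmt.{u} → CaseBStmt.{u} := by
  intro hS1 hPrim hS2i hS2m hS3 hS4 G _ _ n m hF hlt hB1 hB2
  have hH1 := hS1 G n m hF hlt hB2
  obtain ⟨hn1, hm1, hcop, hall, ⟨x0, hx0⟩, ⟨y0, hy0⟩, _⟩ := id hF
  obtain ⟨s, a, hs, hsa, hcsa, -⟩ := hPrim G n m x0 hF hx0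
  obtain ⟨t, b, ht, htb, hcsb, -⟩ := hPrim G m n y0 (four_symm hF) hy0
  have hsn : ¬ s ∣ n := hH1 s a hs hsa hcsa
  obtain ⟨p, u, hp, hpn, hpu, huC, huZ⟩ := hS2i G n m a hF hlt (Or.inl hcsa)
  have hcu : cs u ≠ n := fun h => hH1 p u hp hpu h hpn
  obtain ⟨⟨i, hmi⟩, hau⟩ := hS2m G n m s p a u hF hs hp hpn hsn hsa hcsa hpu huC huZ hcu
  have hB1s := hB1 s hs ⟨i, hmi⟩
  have hcomm : a * u = u * a := by
    have := (Subgroup.mem_centralizer_iff.mp huC) a (Set.mem_singleton a)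
    exact this
  obtain ⟨j, hnj⟩ := hS3 G n m s t a u b hF hs ht hsn ⟨i, hmi⟩ hB1s hsa hcsa hau hcomm htb hcsb
  have hst : s ≠ t := by
    intro h
    apply hsn
    rw [hnj, h]
    have hj : j ≠ 0 := by
      intro h0
      rw [h0, pow_zero] at hnj
      omega
    exact dvd_pow_self t hj
  have hB2t := hB2 t ht ⟨j, hnj⟩
  exact hS4 G n m s t b hF hlt hs ht hst ⟨i, hmi⟩ ⟨j, hnj⟩ hB1s hB2t htb hcsb

end Cfsg.Agent.Lib.Helper4.FC
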