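import Mathlib
import Cfsg.Agent.Lib.Helper4.FCDefs

/-!
# Project FC (S4146): assembly of the pieces
-/

namespace Cfsg.Agent.Lib.Helper4.FC

universe u

/-- the hypothesis of S4146 gives `Four G n m` -/
theorem fc_four_of_range {G : Type u} [Group G] [Finite G] (n m : ℕ) (hn : 1 < n) (hm : 1 < m)
    (hcop : n.Coprime m)
    (h : Set.range (fun x : G => (Subgroup.centralizer ({x} : Set G)).index) =
      ({1, n, m, n * m} : Set ℕ)) : Four G n m := by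
  have hmem : ∀ x : G, cs x ∈ ({1, n, m, n * m} : Set ℕ) := by
    intro x
    rw [← h]
    exact ⟨x, rfl⟩
  have hex : ∀ k : ℕ, k ∈ ({1, n, m, n * m} : Set ℕ) → ∃ x : G, cs x = k := by
    intro k hk
    rw [← h] at hk
    obtain ⟨x, hx⟩ := hk
    exact ⟨x, hx⟩
  refine ⟨hn, hm, hcop, ?_, ?_, ?_, ?_⟩
  · intro x
    have := hmem x
    simp only [Set.mem_insert_iff, Set.mem_singleton_iff] at this
    exact this
  · exact hex n (by simp)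
  · exact hex m (by simp)
  · exact hex (n * m) (by simp)

/-- all pieces together give the final statement -/
theorem fc_core
    (p_l1 : L1Stmt.{u})
    (p_l3 : L3Stmt.{u})
    (p_split : SplitStmt.{u})
    (p_qreg : L3Stmt.{u} → QRegStmt.{u})
    (p_prim : PrimStmt.{u})
    (p_maxcen : L3Stmt.{u} → MaxCenStmt.{u})
    (p_zsyl : ZSylStmt.{u})
    (p_msub : MSubStmt.{u})
    (p_e3 : MSubStmt.{u} → L1Stmt.{u} → E3Stmt.{u})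
    (p_apc : APCStmt.{u})
    (p_ap : MSubStmt.{u} → APCStmt.{u} → APStmt.{u})
    (p_s33b : S33BStmt.{u})
    (p_s33app : S33BStmt.{u} → S33AppStmt.{u})
    (p_half : QRegStmt.{u} → S33AppStmt.{u} → HalfStmt.{u})
    (p_claimx : L3Stmt.{u} → L1Stmt.{u} → HalfStmt.{u} → ClaimXStmt.{u})
    (p_bcb1 : L3Stmt.{u} → BCb1Stmt.{u})
    (p_bcb : L1Stmt.{u} → BCb1Stmt.{u} → BCbStmt.{u})
    (p_bcc : L1Stmt.{u} → BCcStmt.{u})
    (p_step1 : PrimStmt.{u} → E3Stmt.{u} → APStmt.{u} → ClaimXStmt.{u} → BCbStmt.{u} → BCcStmt.{u} → Step1Stmt.{u})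
    (p_conjh : ConjHStmt.{u})
    (p_lfdec : ConjHStmt.{u} → LFDecStmt.{u})
    (p_lf1 : SplitStmt.{u} → LF1Stmt.{u})
    (p_lf2 : LF1Stmt.{u} → LF2Stmt.{u})
    (p_lfk1 : LF2Stmt.{u} → LFK1Stmt.{u})
    (p_lfk2 : LF2Stmt.{u} → L3Stmt.{u} → LFK1Stmt.{u} → LFK2Stmt.{u})
    (p_lfk3 : LFK2Stmt.{u} → LFK3Stmt.{u})
    (p_lfz : LF1Stmt.{u} → LFDecStmt.{u} → L3Stmt.{u} → LFZStmt.{u})
    (p_lfx : LF1Stmt.{u} → LF2Stmt.{u} → LFK2Stmt.{u} → LFK3Stmt.{u} → LFDecStmt.{u} → L3Stmt.{u} → LFXStmt.{u})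
    (p_lfkz : LF1Stmt.{u} → LF2Stmt.{u} → LFK2Stmt.{u} → LFK3Stmt.{u} → L3Stmt.{u} → LFKZStmt.{u})
    (p_lfend : LF1Stmt.{u} → LFK1Stmt.{u} → LFEndStmt.{u})
    (p_lemf : LFZStmt.{u} → LFXStmt.{u} → LFKZStmt.{u} → LFEndStmt.{u} → LemFStmt.{u})
    (p_halla : MSubStmt.{u} → APStmt.{u} → HallAStmt.{u})
    (p_aidx : AIdxStmt.{u})
    (p_s2i : ZSylStmt.{u} → HallAStmt.{u} → AIdxStmt.{u} → LemFStmt.{u} → S2iStmt.{u})
    (p_s2m : L3Stmt.{u} → HalfStmt.{u} → S2mStmt.{u})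
    (p_step3 : L3Stmt.{u} → HalfStmt.{u} → ZSylStmt.{u} → Step3Stmt.{u})
    (p_sylidx : SylIdxStmt.{u})
    (p_v1a : V1aStmt.{u})
    (p_v1b2 : V1b2Stmt.{u})
    (p_v1b3 : V1b3Stmt.{u})
    (p_v1b : SylIdxStmt.{u} → V1b2Stmt.{u} → V1b3Stmt.{u} → V1bStmt.{u})
    (p_fixpt : FixPtStmt.{u})
    (p_step4 : APStmt.{u} → V1aStmt.{u} → V1bStmt.{u} → FixPtStmt.{u} → S2iStmt.{u} → MaxCenStmt.{u} → Step4Stmt.{u})
    (p_caseb : Step1Stmt.{u} → PrimStmt.{u} → S2iStmt.{u} → S2mStmt.{u} → Step3Stmt.{u} → Step4Stmt.{u} → CaseBStmt.{u})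
    (p_npc : NPCStmt.{u})
    (p_kq : KQStmt.{u})
    (p_w1 : W1Stmt.{u})
    (p_w2 : QRegStmt.{u} → W2Stmt.{u})
    (p_w3 : W3Stmt.{u})
    (p_w4 : W4Stmt.{u})
    (p_w : KQStmt.{u} → W1Stmt.{u} → W2Stmt.{u} → W3Stmt.{u} → W4Stmt.{u} → WStmt.{u})
    (p_itonil : ItoNilStmt.{u})
    (p_nilprod : NilProdStmt.{u})
    (p_a1a : KQStmt.{u} → SplitStmt.{u} → A1aStmt.{u})
    (p_a1 : A1aStmt.{u} → ItoNilStmt.{u} → NilProdStmt.{u} → KQStmt.{u} → A1Stmt.{u})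
    (p_a2h : SplitStmt.{u} → KQStmt.{u} → A2HStmt.{u})
    (p_a2k1 : L3Stmt.{u} → W1Stmt.{u} → A2K1Stmt.{u})
    (p_a2k2 : PrimStmt.{u} → KQStmt.{u} → SplitStmt.{u} → A2K2Stmt.{u})
    (p_a2k3 : A2K1Stmt.{u} → A2K2Stmt.{u} → ItoNilStmt.{u} → A2K3Stmt.{u})
    (p_z2d : Z2DStmt.{u})
    (p_z2a : Z2AStmt.{u})
    (p_z2b : Z2BStmt.{u})
    (p_z2e : Z2AStmt.{u} → Z2DStmt.{u} → Z2EStmt.{u})
    (p_z2f : Z2AStmt.{u} → Z2BStmt.{u} → Z2DStmt.{u} → Z2FStmt.{u})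
    (p_z2absa : Z2EStmt.{u} → Z2FStmt.{u} → Z2AbsAStmt.{u})
    (p_z2abs : Z2AbsAStmt.{u} → Z2AbsStmt.{u})
    (p_a2 : A2HStmt.{u} → A2K1Stmt.{u} → A2K2Stmt.{u} → A2K3Stmt.{u} → MaxCenStmt.{u} → Z2AbsStmt.{u} → A2Stmt.{u})
    (p_thma : NPCStmt.{u} → WStmt.{u} → A1Stmt.{u} → A2Stmt.{u} → ThmAStmt.{u})
    (p_final : ThmAStmt.{u} → CaseBStmt.{u} → FinalStmt.{u})
    : FinalStmt.{u} := by
  have d_l1 : L1Stmt.{u} := p_l1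
  have d_l3 : L3Stmt.{u} := p_l3
  have d_split : SplitStmt.{u} := p_split
  have d_qreg : QRegStmt.{u} := p_qreg d_l3
  have d_prim : PrimStmt.{u} := p_prim
  have d_maxcen : MaxCenStmt.{u} := p_maxcen d_l3
  have d_zsyl : ZSylStmt.{u} := p_zsyl
  have d_msub : MSubStmt.{u} := p_msub
  have d_e3 : E3Stmt.{u} := p_e3 d_msub d_l1
  have d_apc : APCStmt.{u} := p_apc
  have d_ap : APStmt.{u} := p_ap d_msub d_apc
  have d_s33b : S33BStmt.{u} := p_s33b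
  have d_s33app : S33AppStmt.{u} := p_s33app d_s33b
  have d_half : HalfStmt.{u} := p_half d_qreg d_s33app
  have d_claimx : ClaimXStmt.{u} := p_claimx d_l3 d_l1 d_half
  have d_bcb1 : BCb1Stmt.{u} := p_bcb1 d_l3
  have d_bcb : BCbStmt.{u} := p_bcb d_l1 d_bcb1
  have d_bcc : BCcStmt.{u} := p_bcc d_l1
  have d_step1 : Step1Stmt.{u} := p_step1 d_prim d_e3 d_ap d_claimx d_bcb d_bcc
  have d_conjh : ConjHStmt.{u} := p_conjh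
  have d_lfdec : LFDecStmt.{u} := p_lfdec d_conjh
  have d_lf1 : LF1Stmt.{u} := p_lf1 d_split
  have d_lf2 : LF2Stmt.{u} := p_lf2 d_lf1
  have d_lfk1 : LFK1Stmt.{u} := p_lfk1 d_lf2
  have d_lfk2 : LFK2Stmt.{u} := p_lfk2 d_lf2 d_l3 d_lfk1
  have d_lfk3 : LFK3Stmt.{u} := p_lfk3 d_lfk2
  have d_lfz : LFZStmt.{u} := p_lfz d_lf1 d_lfdec d_l3
  have d_lfx : LFXStmt.{u} := p_lfx d_lf1 d_lf2 d_lfk2 d_lfk3 d_lfdec d_l3
  have d_lfkz : LFKZStmt.{u} := p_lfkz d_lf1 d_lf2 d_lfk2 d_lfk3 d_l3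
  have d_lfend : LFEndStmt.{u} := p_lfend d_lf1 d_lfk1
  have d_lemf : LemFStmt.{u} := p_lemf d_lfz d_lfx d_lfkz d_lfend
  have d_halla : HallAStmt.{u} := p_halla d_msub d_ap
  have d_aidx : AIdxStmt.{u} := p_aidx
  have d_s2i : S2iStmt.{u} := p_s2i d_zsyl d_halla d_aidx d_lemf
  have d_s2m : S2mStmt.{u} := p_s2m d_l3 d_half
  have d_step3 : Step3Stmt.{u} := p_step3 d_l3 d_half d_zsyl
  have d_sylidx : SylIdxStmt.{u} := p_sylidx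
  have d_v1a : V1aStmt.{u} := p_v1a
  have d_v1b2 : V1b2Stmt.{u} := p_v1b2
  have d_v1b3 : V1b3Stmt.{u} := p_v1b3
  have d_v1b : V1bStmt.{u} := p_v1b d_sylidx d_v1b2 d_v1b3
  have d_fixpt : FixPtStmt.{u} := p_fixpt
  have d_step4 : Step4Stmt.{u} := p_step4 d_ap d_v1a d_v1b d_fixpt d_s2i d_maxcen
  have d_caseb : CaseBStmt.{u} := p_caseb d_step1 d_prim d_s2i d_s2m d_step3 d_step4
  have d_npc : NPCStmt.{u} := p_npc
  have d_kq : KQStmt.{u} := p_kq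
  have d_w1 : W1Stmt.{u} := p_w1
  have d_w2 : W2Stmt.{u} := p_w2 d_qreg
  have d_w3 : W3Stmt.{u} := p_w3
  have d_w4 : W4Stmt.{u} := p_w4
  have d_w : WStmt.{u} := p_w d_kq d_w1 d_w2 d_w3 d_w4
  have d_itonil : ItoNilStmt.{u} := p_itonil
  have d_nilprod : NilProdStmt.{u} := p_nilprod
  have d_a1a : A1aStmt.{u} := p_a1a d_kq d_split
  have d_a1 : A1Stmt.{u} := p_a1 d_a1a d_itonil d_nilprod d_kq
  have d_a2h : A2HStmt.{u} := p_a2h d_split d_kq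
  have d_a2k1 : A2K1Stmt.{u} := p_a2k1 d_l3 d_w1
  have d_a2k2 : A2K2Stmt.{u} := p_a2k2 d_prim d_kq d_split
  have d_a2k3 : A2K3Stmt.{u} := p_a2k3 d_a2k1 d_a2k2 d_itonil
  have d_z2d : Z2DStmt.{u} := p_z2d
  have d_z2a : Z2AStmt.{u} := p_z2a
  have d_z2b : Z2BStmt.{u} := p_z2b
  have d_z2e : Z2EStmt.{u} := p_z2e d_z2a d_z2d
  have d_z2f : Z2FStmt.{u} := p_z2f d_z2a d_z2b d_z2d
  have d_z2absa : Z2AbsAStmt.{u} := p_z2absa d_z2e d_z2f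
  have d_z2abs : Z2AbsStmt.{u} := p_z2abs d_z2absa
  have d_a2 : A2Stmt.{u} := p_a2 d_a2h d_a2k1 d_a2k2 d_a2k3 d_maxcen d_z2abs
  have d_thma : ThmAStmt.{u} := p_thma d_npc d_w d_a1 d_a2
  have d_final : FinalStmt.{u} := p_final d_thma d_caseb
  exact d_final

end Cfsg.Agent.Lib.Helper4.FC
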