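import Mathlib
import Cfsg.Agent.Lib.Helper4.FCDefs

namespace Cfsg.Agent.Lib.Helper4.FC

universe u

/-- the case `m < n` of FINAL -/
theorem final_helper4_lt (hA : ThmAStmt.{u}) (hB : CaseBStmt.{u}) (G : Type u) [Group G] [Finite G]
    (n m : ℕ) (hF : Four G n m) (hlt : m < n) : Goal G n m := by
  by_contra hG
  refine hB G n m hF hlt ?_ ?_
  · intro q hq hqi b hb hcs
    exact hG (hA G n m q b hF hq hqi hb hcs)
  · intro p hp hpj a ha hcs
    exact hG (goal_symm (hA G m n p a (four_symm hF) hp hpj ha hcs))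

theorem fc_final : ThmAStmt.{u} → CaseBStmt.{u} → FinalStmt.{u} := by
  intro hA hB G _ _ n m hF
  have hne : n ≠ m := by
    intro h
    obtain ⟨h1, _, h3, _⟩ := hF
    rw [h] at h3 h1
    rw [Nat.coprime_self] at h3
    omega
  rcases Nat.lt_or_gt_of_ne hne with h | h
  · exact goal_symm (final_helper4_lt hA hB G m n (four_symm hF) h)
  · exact final_helper4_lt hA hB G n m hF h

end Cfsg.Agent.Lib.Helper4.FC
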