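import Mathlib
import Cfsg.Agent.Lib.Helper4.FCDefs

namespace Cfsg.Agent.Lib.Helper4.FC

universe u

theorem step4_helper4_central {G : Type u} [Group G] (x : G) (h1 : cs x = 1) :
    x ∈ Subgroup.center G := by
  have htop : Cen x = ⊤ := Subgroup.index_eq_one.mp h1
  rw [Subgroup.mem_center_iff]
  intro g
  have hg : g ∈ Cen x := by
    rw [htop]
    trivial
  exact ((Subgroup.mem_centralizer_iff.mp hg) x (Set.mem_singleton x)).symm

theorem fc_step4 : APStmt.{u} → V1aStmt.{u} → V1bStmt.{u} → FixPtStmt.{u} → S2iStmt.{u} →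
    MaxCenStmt.{u} → Step4Stmt.{u} := by
  intro hAP hV1a hV1b hFix hS2i hMax G _ _ n m s t b hF hlt hs ht hst hmi hnj hB1 hB2 htb hcsb
  obtain ⟨i, hmi⟩ := hmi
  obtain ⟨j, hnj⟩ := hnj
  obtain ⟨hn1, hm1, hcop, hall, -, -, -⟩ := id hF
  have hj : j ≠ 0 := by
    rintro rfl
    rw [pow_zero] at hnj
    omega
  have hi : 0 < i := by
    rcases Nat.eq_zero_or_pos i with h | h
    · rw [h, pow_zero] at hmi
      omega
    · exact h
  have htn : t ∣ n := by
    rw [hnj]
    exact dvd_pow_self t hj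
  obtain ⟨A, hAn, hAp, hAab, hAcs, hAmem⟩ := hAP G n m t hF hlt ht htn
  have hbA : b ∈ A := hAmem b htb (Or.inr hcsb)
  obtain ⟨V1, hVn, hVA, hVne, hVcs, hVdec⟩ :=
    hV1a G t s m i A ht hs hst hm1 hmi hAn hAp hAab hAcs ⟨b, hbA, hcsb⟩
  have hVp : IsPGroup t V1 := hAp.to_le hVA
  obtain ⟨h, hsh, hfix⟩ := hV1b G t s i V1 ht hs hst hi hVn hVp hVne
    (fun u hu v hv => hAab u (hVA hu) v (hVA hv))
    (fun v hv hv1 => by rw [← hmi]; exact hVcs v hv hv1)
  obtain ⟨v0, hv0, hv01⟩ : ∃ v ∈ V1, v ≠ 1 := by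
    by_contra hcon
    push Not at hcon
    apply hVne
    rw [Subgroup.eq_bot_iff_forall]
    exact hcon
  have hhZ : h ∉ Subgroup.center G := by
    intro hz
    apply hv01
    apply hfix v0 hv0
    exact (Subgroup.mem_center_iff.mp hz v0).symm
  have hcsh : cs h = n ∨ cs h = n * m := by
    rcases hall h with h1 | h1 | h1 | h1
    · exact absurd (step4_helper4_central h h1) hhZ
    · exact Or.inl h1
    · exact absurd h1 (hB1 h hsh)
    · exact Or.inr h1
  obtain ⟨p, u, hp, hpn, hpu, huC, huZ⟩ := hS2i G n m h hF hlt hcsh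
  have hpt : p = t := by
    rw [hnj] at hpn
    exact (Nat.prime_dvd_prime_iff_eq hp ht).mp (hp.dvd_of_dvd_pow hpn)
  rw [hpt] at hpu
  have hhu : h * u = u * h := (Subgroup.mem_centralizer_iff.mp huC) h (Set.mem_singleton h)
  have hcsu : cs u = n * m := by
    rcases hall u with h1 | h1 | h1 | h1
    · exact absurd (step4_helper4_central u h1) huZ
    · exact absurd h1 (hB2 u hpu)
    · exfalso
      have huA : u ∈ A := hAmem u hpu (Or.inr h1)
      obtain ⟨z, hz, v, hv, huzv⟩ := hVdec u huA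
      have hv1 : v = 1 := by
        apply hfix v hv
        have hzc : ∀ g : G, g * z = z * g := Subgroup.mem_center_iff.mp hz
        have hveq : v = z⁻¹ * u := by
          rw [huzv]
          group
        rw [hveq]
        have hz' : h * z⁻¹ = z⁻¹ * h := by
          have := hzc h
          calc h * z⁻¹ = z⁻¹ * (z * h) * z⁻¹ := by group
            _ = z⁻¹ * (h * z) * z⁻¹ := by rw [this]
            _ = z⁻¹ * h := by group
        calc h * (z⁻¹ * u) = (h * z⁻¹) * u := by group
          _ = z⁻¹ * h * u := by rw [hz']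
          _ = z⁻¹ * (h * u) := by group
          _ = z⁻¹ * (u * h) := by rw [hhu]
          _ = z⁻¹ * u * h := by group
      apply huZ
      rw [huzv, hv1, mul_one]
      exact hz
    · exact h1
  obtain ⟨v, hv, hv1, huv⟩ := hFix G t V1 u ht hVn hVp hVne hpu
  have hhCu : h ∈ Cen u := by
    rw [Subgroup.mem_centralizer_iff]
    intro x hx
    rw [Set.mem_singleton_iff] at hx
    rw [hx]
    exact hhu.symm
  have hcopo : (orderOf u).Coprime (orderOf h) := by
    obtain ⟨a, ha⟩ := hpu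
    obtain ⟨c, hc⟩ := hsh
    rw [ha, hc]
    exact Nat.Coprime.pow _ _ ((Nat.coprime_primes ht hs).mpr (Ne.symm hst))
  have hle := hMax G n m u h hF hcsu hhCu hcopo
  have hvCu : v ∈ Cen u := by
    rw [Subgroup.mem_centralizer_iff]
    intro x hx
    rw [Set.mem_singleton_iff] at hx
    rw [hx]
    exact huv
  have hvCh := hle hvCu
  exact hv1 (hfix v hv ((Subgroup.mem_centralizer_iff.mp hvCh) h (Set.mem_singleton h)))

end Cfsg.Agent.Lib.Helper4.FC
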