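import Mathlib
import Cfsg.Agent.Lib.Helper4.FCDefs

namespace Cfsg.Agent.Lib.Helper4.FC

universe u

theorem fc_thma : NPCStmt.{u} → WStmt.{u} → A1Stmt.{u} → A2Stmt.{u} → ThmAStmt.{u} := by
  intro hNPC hW hA1 hA2 G _ _ n m q b hF hq hqi hb hcs
  obtain ⟨i, hmi⟩ := hqi
  obtain ⟨K, hKn, hKc, hKi⟩ := hNPC G n m q i b hF hq hmi hb hcs
  have hfact : Fact q.Prime := ⟨hq⟩
  have hpg : IsPGroup q (Subgroup.zpowers b) := by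
    obtain ⟨k, hk⟩ := hb
    apply IsPGroup.of_card (n := k)
    rw [Nat.card_zpowers]
    exact hk
  obtain ⟨Q, hQ⟩ := hpg.exists_le_sylow
  have hbQ : b ∈ Q := hQ (Subgroup.mem_zpowers b)
  have hWp : ∀ b' : G, b' ∈ Q → cs b' = m → ∀ x : G, x ∈ Q → x ∈ Cen b' →
      ∀ u ∈ K, x * u = u * x :=
    fun b' hb' hc' x hx hxc => hW G n m q K Q b' x hF hq ⟨i, hmi⟩ hKn hKc hKi hb' hc' hx hxc
  by_cases hcen : ∀ x ∈ Q, ∀ u ∈ K, x * u = u * x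
  · exact hA1 G n m q K Q hF hq ⟨i, hmi⟩ hKn hKc hKi hcen
  · exfalso
    push Not at hcen
    obtain ⟨h, hhQ, u, huK, hne⟩ := hcen
    exact hA2 G n m q K Q h ⟨hF, hq, ⟨i, hmi⟩, hKn, hKc, hKi, hWp, ⟨b, hbQ, hcs⟩⟩ hhQ
      ⟨u, huK, hne⟩

end Cfsg.Agent.Lib.Helper4.FC
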