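import Mathlib
import Cfsg.Agent.Lib.Helper4.FCDefs

namespace Cfsg.Agent.Lib.Helper4.FC

universe u

theorem fc_v1b : SylIdxStmt.{u} → V1b2Stmt.{u} → V1b3Stmt.{u} → V1bStmt.{u} := by
  intro hSyl h2 h3 G _ _ t s i V1 ht hs hst hi hVn hVp hVne hVab hVcs
  have hfact : Fact s.Prime := ⟨hs⟩
  obtain ⟨S⟩ : Nonempty (Sylow s G) := inferInstance
  have hrel : ∀ v ∈ V1, v ≠ 1 → (Cen v).relIndex (S : Subgroup G) = s ^ i :=
    fun v hv hv1 => hSyl G s i (Cen v) S hs (hVcs v hv hv1)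
  obtain ⟨v0, hv0, hv01⟩ : ∃ v ∈ V1, v ≠ 1 := by
    by_contra hcon
    push Not at hcon
    apply hVne
    rw [Subgroup.eq_bot_iff_forall]
    exact hcon
  have hnot : ¬ ((S : Subgroup G) ≤ Subgroup.centralizer (V1 : Set G)) := by
    intro hle
    have h1 : (Cen v0).relIndex (S : Subgroup G) = 1 := by
      rw [Subgroup.relIndex_eq_one]
      intro y hy
      have hyc := hle hy
      rw [Subgroup.mem_centralizer_iff]
      intro x hx
      rw [Set.mem_singleton_iff] at hx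
      rw [hx]
      exact (Subgroup.mem_centralizer_iff.mp hyc) v0 hv0
    rw [hrel v0 hv0 hv01] at h1
    have : 1 < s ^ i := Nat.one_lt_pow (by omega) hs.one_lt
    omega
  obtain ⟨z, hzS, hzn, hzc⟩ := h2 G s S V1 hs hVn hnot
  refine ⟨z, ?_, h3 G t s (s ^ i) S V1 z ht hs hst hVn hVp hVab hrel hzS hzn hzc⟩
  obtain ⟨k, hk⟩ := (IsPGroup.iff_orderOf.mp S.isPGroup') ⟨z, hzS⟩
  exact ⟨k, by rw [← hk]; exact (Subgroup.orderOf_mk z hzS).symm⟩

end Cfsg.Agent.Lib.Helper4.FC
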