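import Mathlib
import Cfsg.Agent.Lib.Helper4.FCDefs

namespace Cfsg.Agent.Lib.Helper4.FC

universe u

theorem fc_z2absa : Z2EStmt.{u} → Z2FStmt.{u} → Z2AbsAStmt.{u} := by
  intro hE hF K _ _ φ hctx hnil
  by_cases h : ∃ u : K, φ u = u ∧ u ∈ Subgroup.upperCentralSeries K 2 ∧ u ∉ Subgroup.center K
  · obtain ⟨u, h1, h2, h3⟩ := h
    exact hE K φ u hctx h1 h3 h2
  · refine hF K φ hctx hnil ?_
    intro u h1 h2
    by_contra h3
    exact h ⟨u, h1, h2, h3⟩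

end Cfsg.Agent.Lib.Helper4.FC
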