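import Mathlib
import Cfsg.Agent.Lib.Helper84.Gagola3

set_option autoImplicit false

namespace Cfsg.Agent.Lib.Helper84.G39

open Cfsg Cfsg.Agent.Lib.Helper84

universe u

variable {G : Type u} [Group G] [Finite G]

theorem index_odd_p (hG : 2 < Nat.card G) (χ : IrrCharacter G)
    (hχ : Nat.card {C : ConjClasses G // ∃ g ∈ C.carrier, χ.1 g ≠ 0} = 2)
    (p : ℕ) [hp : Fact p.Prime] (hp2 : p ≠ 2) (N : Subgroup G) [N.Normal]
    (hN : ∀ g, g ∈ N ↔ χ.1 g ≠ 0) (hNp : IsPGroup p N)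
    (hcent : Subgroup.centralizer (N : Set G) ≤ N) : ¬ p ∣ N.index := by
  intro hdvd
  have hNn : N.Normal := inferInstance
  obtain ⟨x₀, hx₀, hx₀1⟩ := N_ne_bot χ hχ N hN
  have hNcard := N_card χ hχ N hN x₀ hx₀ hx₀1
  obtain ⟨k, hk⟩ := hNp.exists_card_eq
  have hpodd : Odd p := hp.out.odd_of_ne_two hp2
  have hNodd : Odd (Nat.card N) := by rw [hk]; exact hpodd.pow
  have h2G : 2 ∣ Nat.card G := by
    have h1 : 2 ∣ classSize x₀ := by
      rcases hNodd with ⟨j, hj⟩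
      exact ⟨j, by omega⟩
    exact h1.trans (classSize_dvd x₀)
  haveI : Fact (Nat.Prime 2) := ⟨Nat.prime_two⟩
  obtain ⟨τ, hτ⟩ := exists_prime_orderOf_dvd_card' 2 h2G
  have hτ2 : τ * τ = 1 := by
    have := pow_orderOf_eq_one τ
    rw [hτ, pow_two] at this
    exact this
  have hτinv : τ⁻¹ = τ := inv_eq_of_mul_eq_one_left hτ2
  -- τ commutes with no nontrivial element of N
  have hnc : ∀ n ∈ N, τ * n = n * τ → n = 1 := by
    intro n hn hc
    by_contra hn1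
    have hP := centralizer_isPGroup hG χ hχ N hN p hNp n hn hn1
    have hτC : τ ∈ Subgroup.centralizer ({n} : Set G) := by
      rw [Subgroup.mem_centralizer_iff]
      intro w hw
      rw [Set.mem_singleton_iff] at hw
      subst hw
      exact hc.symm
    obtain ⟨j, hj⟩ := hP ⟨τ, hτC⟩
    have hj' : τ ^ p ^ j = 1 := by simpa using congrArg Subtype.val hj
    have h2 : 2 ∣ p ^ j := by rw [← hτ]; exact orderOf_dvd_of_pow_eq_one hj'
    have h3 : 2 ∣ p := Nat.Prime.dvd_of_dvd_pow Nat.prime_two h2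
    exact hp2 ((Nat.prime_dvd_prime_iff_eq Nat.prime_two hp.out).mp h3).symm
  -- τ inverts N
  have hfmem : ∀ n ∈ N, n⁻¹ * (τ * n * τ⁻¹) ∈ N := fun n hn =>
    N.mul_mem (N.inv_mem hn) (hNn.conj_mem _ hn τ)
  have hinv : ∀ n ∈ N, τ * n * τ⁻¹ = n⁻¹ := by
    have hf : Function.Injective
        (fun n : N => (⟨(n : G)⁻¹ * (τ * n * τ⁻¹), hfmem _ n.2⟩ : N)) := by
      intro a b hab
      have hab' : (a : G)⁻¹ * (τ * a * τ⁻¹) = (b : G)⁻¹ * (τ * b * τ⁻¹) :=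
        congrArg Subtype.val hab
      have h2 : τ * (a : G) = (a : G) * (b : G)⁻¹ * τ * b := by
        calc τ * (a : G) = (a : G) * ((a : G)⁻¹ * (τ * a * τ⁻¹)) * τ := by group
          _ = (a : G) * ((b : G)⁻¹ * (τ * b * τ⁻¹)) * τ := by rw [hab']
          _ = (a : G) * (b : G)⁻¹ * τ * b := by group
      have h1 : τ * ((a : G) * (b : G)⁻¹) = ((a : G) * (b : G)⁻¹) * τ := by
        calc τ * ((a : G) * (b : G)⁻¹) = (τ * (a : G)) * (b : G)⁻¹ := by group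
          _ = ((a : G) * (b : G)⁻¹ * τ * b) * (b : G)⁻¹ := by rw [h2]
          _ = (a : G) * (b : G)⁻¹ * τ := by group
      have h3 := hnc _ (N.mul_mem a.2 (N.inv_mem b.2)) h1
      exact Subtype.ext (mul_inv_eq_one.mp h3)
    have hs := Finite.surjective_of_injective hf
    intro n hn
    obtain ⟨m, hm⟩ := hs ⟨n, hn⟩
    have hm' : (m : G)⁻¹ * (τ * m * τ⁻¹) = n := congrArg Subtype.val hm
    rw [← hm', hτinv]
    calc τ * ((m : G)⁻¹ * (τ * m * τ)) * τ = τ * (m : G)⁻¹ * τ * m * (τ * τ) := by group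
      _ = τ * (m : G)⁻¹ * τ * m := by rw [hτ2, mul_one]
      _ = τ⁻¹ * (m : G)⁻¹ * τ⁻¹ * m := by rw [hτinv]
      _ = ((m : G)⁻¹ * (τ * m * τ))⁻¹ := by
        have e : ((m : G)⁻¹ * (τ * m * τ))⁻¹ = τ⁻¹ * (m : G)⁻¹ * τ⁻¹ * m := by group
        rw [e]
  -- decomposition G = N * C(τ)
  have hdec : ∀ g : G, ∃ m ∈ N, ∃ h : G, h * τ = τ * h ∧ g = m * h := by
    intro g
    obtain ⟨c, hc⟩ : ∃ c, c = g * τ * g⁻¹ * τ⁻¹ := ⟨_, rfl⟩
    have hcN : c ∈ N := by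
      apply hcent
      rw [Subgroup.mem_centralizer_iff]
      intro n hn
      have e1 : τ⁻¹ * n * τ = n⁻¹ := by
        have := hinv n hn
        rw [hτinv] at this ⊢
        exact this
      have e2 : τ * (g⁻¹ * n⁻¹ * g) * τ⁻¹ = g⁻¹ * n * g := by
        have hmem : g⁻¹ * n⁻¹ * g ∈ N := by
          have := hNn.conj_mem _ (N.inv_mem hn) g⁻¹
          simpa using this
        rw [hinv _ hmem]
        group
      symm
      calc c * n = g * τ * g⁻¹ * (τ⁻¹ * n * τ) * τ⁻¹ := by rw [hc]; group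
        _ = g * τ * g⁻¹ * n⁻¹ * τ⁻¹ := by rw [e1]
        _ = g * (τ * (g⁻¹ * n⁻¹ * g) * τ⁻¹) * (τ * g⁻¹ * τ⁻¹) := by group
        _ = g * (g⁻¹ * n * g) * (τ * g⁻¹ * τ⁻¹) := by rw [e2]
        _ = n * c := by rw [hc]; group
    have hcpow : c ^ Nat.card N = 1 :=
      orderOf_dvd_iff_pow_eq_one.mp (Subgroup.orderOf_dvd_natCard N hcN)
    obtain ⟨m, hmdef⟩ : ∃ m, m = c ^ ((Nat.card N + 1) / 2) := ⟨_, rfl⟩
    have hmN : m ∈ N := by rw [hmdef]; exact N.pow_mem hcN _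
    have hmm : m * m = c := by
      rw [hmdef, ← pow_add]
      rcases hNodd with ⟨j, hj⟩
      have : (Nat.card N + 1) / 2 + (Nat.card N + 1) / 2 = Nat.card N + 1 := by omega
      rw [this, pow_succ, hcpow, one_mul]
    have e3 : τ * m⁻¹ * τ⁻¹ = m := by
      rw [hinv _ (N.inv_mem hmN), inv_inv]
    refine ⟨m, hmN, m⁻¹ * g, ?_, by group⟩
    calc m⁻¹ * g * τ = m⁻¹ * (g * τ * g⁻¹ * τ⁻¹) * τ * g := by group
      _ = m⁻¹ * c * τ * g := by rw [hc]
      _ = m⁻¹ * (m * m) * τ * g := by rw [hmm]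
      _ = m * τ * g := by group
      _ = (τ * m⁻¹ * τ⁻¹) * τ * g := by rw [e3]
      _ = τ * (m⁻¹ * g) := by group
  -- a Sylow p-subgroup
  obtain ⟨P⟩ : Nonempty (Sylow p G) := inferInstance
  have hNP : N ≤ (P : Subgroup G) := hNp.le_sylow_of_normal P
  have hPN : ∃ x ∈ (P : Subgroup G), x ∉ N := by
    by_contra hcon
    push_neg at hcon
    have hPeq : (P : Subgroup G) = N := le_antisymm hcon hNP
    have := P.not_dvd_index
    rw [hPeq] at this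
    exact this hdvd
  obtain ⟨x, hxP, hxN⟩ := hPN
  obtain ⟨m, hm, h, hhτ, hxmh⟩ := hdec x
  have hhP : h ∈ (P : Subgroup G) := by
    have : h = m⁻¹ * x := by rw [hxmh]; group
    rw [this]
    exact (P : Subgroup G).mul_mem ((P : Subgroup G).inv_mem (hNP hm)) hxP
  have hhN : h ∉ N := by
    intro hh
    exact hxN (by rw [hxmh]; exact N.mul_mem hm hh)
  -- central element
  haveI : Nontrivial (P : Subgroup G) :=
    ⟨⟨⟨x₀, hNP hx₀⟩, 1, fun h => hx₀1 (congrArg Subtype.val h)⟩⟩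
  haveI hcen := IsPGroup.center_nontrivial P.isPGroup'
  obtain ⟨v, hv1⟩ := exists_ne (1 : Subgroup.center (P : Subgroup G))
  have hvN : ((v : (P : Subgroup G)) : G) ∈ N :=
    center_le hG χ hχ N hN p hNp P (Subgroup.mem_map.mpr ⟨v.1, v.2, rfl⟩)
  have hvh : h * ((v : (P : Subgroup G)) : G) = ((v : (P : Subgroup G)) : G) * h := by
    have := Subgroup.mem_center_iff.mp v.2 ⟨h, hhP⟩
    exact congrArg Subtype.val this
  have hvne : ((v : (P : Subgroup G)) : G) ≠ 1 := by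
    intro h1
    apply hv1
    apply Subtype.ext
    apply Subtype.ext
    exact h1
  -- the map ψ
  have hψmem : ∀ m ∈ N, m * h * m⁻¹ * h⁻¹ ∈ N := by
    intro m hm
    have := N.mul_mem hm (hNn.conj_mem _ (N.inv_mem hm) h)
    simpa [mul_assoc] using this
  have hψs : Function.Surjective
      (fun m : N => (⟨(m : G) * h * (m : G)⁻¹ * h⁻¹, hψmem _ m.2⟩ : N)) := by
    rintro ⟨n, hn⟩
    obtain ⟨g, hg⟩ := camina_conj hG χ hχ N hN h hhN n hn
    obtain ⟨m', hm', k, hkτ, hgmk⟩ := hdec g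
    have hkτ' : k⁻¹ * τ = τ * k⁻¹ := by
      calc k⁻¹ * τ = k⁻¹ * (τ * k) * k⁻¹ := by group
        _ = k⁻¹ * (k * τ) * k⁻¹ := by rw [hkτ]
        _ = τ * k⁻¹ := by group
    have hhτ' : h⁻¹ * τ = τ * h⁻¹ := by
      calc h⁻¹ * τ = h⁻¹ * (τ * h) * h⁻¹ := by group
        _ = h⁻¹ * (h * τ) * h⁻¹ := by rw [hhτ]
        _ = τ * h⁻¹ := by group
    have hd : k * h * k⁻¹ * h⁻¹ ∈ N := by
      have e : k * h * k⁻¹ * h⁻¹ = m'⁻¹ * n * (h * m' * h⁻¹) := by
        have e1 : k * h * k⁻¹ = m'⁻¹ * (g * h * g⁻¹) * m' := by rw [hgmk]; group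
        rw [e1, hg]; group
      rw [e]
      exact N.mul_mem (N.mul_mem (N.inv_mem hm') hn) (hNn.conj_mem _ hm' h)
    have hdτ : τ * (k * h * k⁻¹ * h⁻¹) = (k * h * k⁻¹ * h⁻¹) * τ := by
      calc τ * (k * h * k⁻¹ * h⁻¹) = (τ * k) * h * k⁻¹ * h⁻¹ := by group
        _ = (k * τ) * h * k⁻¹ * h⁻¹ := by rw [hkτ]
        _ = k * (τ * h) * k⁻¹ * h⁻¹ := by group
        _ = k * (h * τ) * k⁻¹ * h⁻¹ := by rw [hhτ]
        _ = k * h * (τ * k⁻¹) * h⁻¹ := by group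
        _ = k * h * (k⁻¹ * τ) * h⁻¹ := by rw [hkτ']
        _ = k * h * k⁻¹ * (τ * h⁻¹) := by group
        _ = k * h * k⁻¹ * (h⁻¹ * τ) := by rw [hhτ']
        _ = (k * h * k⁻¹ * h⁻¹) * τ := by group
    have hd1 := hnc _ hd hdτ
    have hkh : k * h * k⁻¹ = h := mul_inv_eq_one.mp hd1
    refine ⟨⟨m', hm'⟩, Subtype.ext ?_⟩
    show m' * h * m'⁻¹ * h⁻¹ = n
    have e4 : m' * h * m'⁻¹ = n * h := by
      rw [← hg, hgmk]
      calc m' * h * m'⁻¹ = m' * (k * h * k⁻¹) * m'⁻¹ := by rw [hkh]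
        _ = m' * k * h * (m' * k)⁻¹ := by group
    rw [e4]; group
  have hψi := Finite.injective_iff_surjective.mpr hψs
  have heq : (⟨((v : (P : Subgroup G)) : G), hvN⟩ : N) = ⟨1, N.one_mem⟩ := by
    apply hψi
    apply Subtype.ext
    show ((v : (P : Subgroup G)) : G) * h * ((v : (P : Subgroup G)) : G)⁻¹ * h⁻¹
      = 1 * h * (1 : G)⁻¹ * h⁻¹
    rw [← hvh]; group
  exact hvne (congrArg Subtype.val heq)

end Cfsg.Agent.Lib.Helper84.G39
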