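import Mathlib
import Cfsg.Agent.Lib.Helper4.GalP1

/-!
# p-groups whose nonlinear characters of equal degree are Galois conjugate, part 2 (helper4)

* `galConj_of_cyclic`: cyclic centre and derived subgroup of order `p` imply `GalConj`.
* `pow_mem_center_of_comm`, `card_center_quotient_le`, `pow_eq_one_of_quotient`: group-theoretic
  lemmas on a central subgroup `Y` of order `p`.
-/

set_option autoImplicit false

namespace Cfsg.Agent.Lib.Helper4.GalP

open Cfsg Cfsg.Agent.Lib.Helper83

section converse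

variable {P : Type*} [Group P] [Finite P]

theorem galConj_of_cyclic {p : ℕ} [Fact p.Prime] (hP : IsPGroup p P)
    (hcyc : IsCyclic (Subgroup.center P)) (hcard : Nat.card (commutator P) = p) : GalConj P := by
  classical
  have hp : p.Prime := Fact.out
  have hpc : (Nat.card (commutator P)).Prime := by rw [hcard]; exact hp
  have hc : commutator P ≤ Subgroup.center P := le_center_of_card_prime hP (commutator P) hcard
  obtain ⟨g₀, hg₀⟩ := hcyc.exists_generator
  obtain ⟨c, hcn⟩ := (hP.to_subgroup (Subgroup.center P)).exists_card_eq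
  have hord : orderOf g₀ = p ^ c := by rw [orderOf_eq_card_of_forall_mem_zpowers hg₀, hcn]
  have hordP : orderOf (g₀ : P) = p ^ c := by rw [Subgroup.orderOf_coe]; exact hord
  have hc1 : 1 ≤ c := by
    by_contra h0
    have h00 : c = 0 := by omega
    have h1 : Nat.card (commutator P) ≤ Nat.card (Subgroup.center P) := Subgroup.card_le_of_le hc
    rw [hcard, hcn, h00, pow_zero] at h1
    have := hp.one_lt
    omega
  have key : ∀ χ : IrrCharacter P, charDegree (χ : P → ℂ) ≠ 1 →
      IsPrimitiveRoot ((χ : P → ℂ) g₀ / (χ : P → ℂ) 1) (p ^ c) ∧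
      ∀ j : ℕ, (χ : P → ℂ) ((g₀ : P) ^ j) =
        (χ : P → ℂ) 1 * ((χ : P → ℂ) g₀ / (χ : P → ℂ) 1) ^ j := by
    intro χ hχ
    have h0 : (χ : P → ℂ) 1 ≠ 0 := Helper83.irr_one_ne_zero χ.2
    have hpow : ∀ j : ℕ, (χ : P → ℂ) ((g₀ : P) ^ j) =
        (χ : P → ℂ) 1 * ((χ : P → ℂ) g₀ / (χ : P → ℂ) 1) ^ j := by
      intro j
      induction j with
      | zero => simp
      | succ j ih =>
        have h1 := irr_central_mul χ (g₀ : P) g₀.2 ((g₀ : P) ^ j)
        rw [ih] at h1
        rw [pow_succ' (g₀ : P), pow_succ]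
        field_simp
        field_simp at h1
        linear_combination h1
    refine ⟨?_, hpow⟩
    have hapow : ((χ : P → ℂ) g₀ / (χ : P → ℂ) 1) ^ (p ^ c) = 1 := by
      have h1 := hpow (orderOf (g₀ : P))
      rw [pow_orderOf_eq_one, hordP] at h1
      have h2 : (χ : P → ℂ) 1 * 1 = (χ : P → ℂ) 1 *
          ((χ : P → ℂ) g₀ / (χ : P → ℂ) 1) ^ (p ^ c) := by rw [mul_one]; exact h1
      exact (mul_left_cancel₀ h0 h2).symm
    have hdvd : orderOf ((χ : P → ℂ) g₀ / (χ : P → ℂ) 1) ∣ p ^ c :=
      orderOf_dvd_of_pow_eq_one hapow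
    obtain ⟨b, hb, hab⟩ := (Nat.dvd_prime_pow hp).mp hdvd
    rcases Nat.lt_or_ge b c with hlt | hge
    · exfalso
      have h2 : ((χ : P → ℂ) g₀ / (χ : P → ℂ) 1) ^ (p ^ (c - 1)) = 1 := by
        apply orderOf_dvd_iff_pow_eq_one.mp
        rw [hab]
        exact pow_dvd_pow p (by omega)
      have h3 : (χ : P → ℂ) ((g₀ : P) ^ (p ^ (c - 1))) = (χ : P → ℂ) 1 := by
        rw [hpow, h2, mul_one]
      apply hχ
      rw [irr_charDegree_eq_one_iff χ.2]
      apply irr_linear_of_commutator_le_ker χ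
      intro x hx
      have hxz : x ∈ Subgroup.center P := hc hx
      have hmem := hg₀ ⟨x, hxz⟩
      rw [← mem_powers_iff_mem_zpowers, Submonoid.mem_powers_iff] at hmem
      obtain ⟨j, hj⟩ := hmem
      have hj' : (g₀ : P) ^ j = x := by
        have := congrArg Subtype.val hj
        simpa using this
      have hxp : x ^ p = 1 := by
        have h4 : (⟨x, hx⟩ : commutator P) ^ p = 1 := by
          rw [← hcard]
          exact pow_card_eq_one'
        simpa using congrArg Subtype.val h4
      rw [← hj', ← pow_mul] at hxp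
      have h4 : p ^ c ∣ j * p := by
        rw [← hordP]
        exact orderOf_dvd_of_pow_eq_one hxp
      have h5 : p ^ (c - 1) ∣ j := by
        have h6 : p ^ (c - 1) * p ∣ j * p := by
          rw [← pow_succ, Nat.sub_add_cancel hc1]
          exact h4
        exact Nat.dvd_of_mul_dvd_mul_right hp.pos h6
      obtain ⟨m, hm⟩ := h5
      rw [← hj', hm, pow_mul]
      exact (mem_irrKer χ _).mp (pow_mem ((mem_irrKer χ _).mpr h3) m)
    · have hbc : b = c := le_antisymm hb hge
      rw [← hbc, ← hab]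
      exact IsPrimitiveRoot.orderOf _
  intro χ ψ hχ hdeg
  have hψ : charDegree (ψ : P → ℂ) ≠ 1 := by rw [← hdeg]; exact hχ
  obtain ⟨hprimχ, hpowχ⟩ := key χ hχ
  obtain ⟨hprimψ, hpowψ⟩ := key ψ hψ
  have hne : NeZero (p ^ c) := ⟨(pow_pos hp.pos c).ne'⟩
  obtain ⟨k, hk, hkeq⟩ := hprimχ.eq_pow_of_pow_eq_one hprimψ.pow_eq_one
  have hcop : k.Coprime (p ^ c) := by
    rw [← hprimχ.pow_iff_coprime (pow_pos hp.pos c) k, hkeq]
    exact hprimψ
  have h1eq : (ψ : P → ℂ) 1 = (χ : P → ℂ) 1 := by
    rw [(irr_degree χ.2).2, (irr_degree ψ.2).2, hdeg]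
  have hkp : k.Coprime p :=
    Nat.Coprime.coprime_dvd_right (dvd_pow_self p (by omega)) hcop
  obtain ⟨n, hn⟩ := hP.exists_card_eq
  have hkP : k.Coprime (Nat.card P) := by
    rw [hn]
    exact Nat.Coprime.pow_right n hkp
  refine ⟨k, hkP, ?_⟩
  intro g
  by_cases hg : g ∈ Subgroup.center P
  · have hmem := hg₀ ⟨g, hg⟩
    rw [← mem_powers_iff_mem_zpowers, Submonoid.mem_powers_iff] at hmem
    obtain ⟨j, hj⟩ := hmem
    have hj' : (g₀ : P) ^ j = g := by
      have := congrArg Subtype.val hj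
      simpa using this
    rw [← hj', ← pow_mul, hpowψ, hpowχ, ← hkeq, h1eq, ← pow_mul, mul_comm j k]
  · rw [vanish_off_center hpc hc ψ hψ g hg]
    symm
    apply vanish_off_center hpc hc χ hχ
    intro hgk
    apply hg
    have hcop2 : (Nat.card P).Coprime k := hkP.symm
    have h2 : g = (powCoprime hcop2).symm (g ^ k) := by
      rw [← powCoprime_apply hcop2 g, Equiv.symm_apply_apply]
    rw [h2, powCoprime_symm_apply]
    exact Subgroup.zpow_mem _ hgk _

end converse

section grp

variable {G : Type*} [Group G]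

/-- if all commutators `[x, h]` lie in a central subgroup of exponent `n`, then `x ^ n` is
central -/
theorem pow_mem_center_of_comm (N : Subgroup G) (hN : N ≤ Subgroup.center G) (n : ℕ)
    (hexp : ∀ c ∈ N, c ^ n = 1) (x : G) (hx : ∀ h : G, x * h * x⁻¹ * h⁻¹ ∈ N) :
    x ^ n ∈ Subgroup.center G := by
  rw [Subgroup.mem_center_iff]
  intro h
  have key : ∀ m : ℕ, x ^ m * h = (x * h * x⁻¹ * h⁻¹) ^ m * h * x ^ m := by
    intro m
    induction m with
    | zero => simp
    | succ m ih =>
      have hcm : (x * h * x⁻¹ * h⁻¹) ^ m ∈ Subgroup.center G :=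
        Subgroup.pow_mem _ (hN (hx h)) m
      have hcx : x * (x * h * x⁻¹ * h⁻¹) ^ m = (x * h * x⁻¹ * h⁻¹) ^ m * x :=
        Subgroup.mem_center_iff.mp hcm x
      have hxh : x * h = (x * h * x⁻¹ * h⁻¹) * h * x := by group
      calc x ^ (m + 1) * h = x * (x ^ m * h) := by rw [pow_succ', mul_assoc]
        _ = x * ((x * h * x⁻¹ * h⁻¹) ^ m * h * x ^ m) := by rw [ih]
        _ = (x * (x * h * x⁻¹ * h⁻¹) ^ m) * h * x ^ m := by simp only [mul_assoc]
        _ = (x * h * x⁻¹ * h⁻¹) ^ m * (x * h) * x ^ m := by rw [hcx]; simp only [mul_assoc]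
        _ = (x * h * x⁻¹ * h⁻¹) ^ m * ((x * h * x⁻¹ * h⁻¹) * h * x) * x ^ m := by rw [← hxh]
        _ = (x * h * x⁻¹ * h⁻¹) ^ (m + 1) * h * x ^ (m + 1) := by
          rw [pow_succ, pow_succ' x]; simp only [mul_assoc]
  rw [key n, hexp _ (hx h), one_mul]

end grp

section quot

variable {P : Type*} [Group P] [Finite P]

/-- the centre of the quotient by a central subgroup of order `p`, if cyclic, is not larger than
the centre of the group -/
theorem card_center_quotient_le {p : ℕ} [Fact p.Prime] (Y : Subgroup P) [Y.Normal]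
    (hYc : Y ≤ Subgroup.center P) (hYcard : Nat.card Y = p)
    (hcyc : IsCyclic (Subgroup.center (P ⧸ Y))) :
    Nat.card (Subgroup.center (P ⧸ Y)) ≤ Nat.card (Subgroup.center P) := by
  have hp : p.Prime := Fact.out
  obtain ⟨γ, hγ⟩ := hcyc.exists_generator
  obtain ⟨g, hg⟩ := QuotientGroup.mk_surjective (γ : P ⧸ Y)
  have hn : orderOf (γ : P ⧸ Y) = Nat.card (Subgroup.center (P ⧸ Y)) := by
    rw [Subgroup.orderOf_coe]
    exact orderOf_eq_card_of_forall_mem_zpowers hγ
  -- `g ^ p` is central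
  have hgp : g ^ p ∈ Subgroup.center P := by
    apply pow_mem_center_of_comm Y hYc p
    · intro c hc
      have h1 : (⟨c, hc⟩ : Y) ^ p = 1 := by
        rw [← hYcard]
        exact pow_card_eq_one'
      simpa using congrArg Subtype.val h1
    · intro h
      rw [← QuotientGroup.eq_one_iff]
      have h1 := Subgroup.mem_center_iff.mp γ.2 (h : P ⧸ Y)
      rw [QuotientGroup.mk_mul, QuotientGroup.mk_mul, QuotientGroup.mk_mul, QuotientGroup.mk_inv,
        QuotientGroup.mk_inv, hg, ← h1]
      group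
  -- the image of the centre
  have hC : (γ : P ⧸ Y) ^ p ∈ (Subgroup.center P).map (QuotientGroup.mk' Y) := by
    refine ⟨g ^ p, hgp, ?_⟩
    rw [map_pow]
    congr 1
  have hcard1 : orderOf ((γ : P ⧸ Y) ^ p) ≤
      Nat.card ((Subgroup.center P).map (QuotientGroup.mk' Y)) :=
    Nat.le_of_dvd Nat.card_pos (Subgroup.orderOf_dvd_natCard _ hC)
  have hcomap : ((Subgroup.center P).map (QuotientGroup.mk' Y)).comap (QuotientGroup.mk' Y) =
      Subgroup.center P := by
    rw [Subgroup.comap_map_eq, QuotientGroup.ker_mk', sup_of_le_left hYc]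
  have hidx : ((Subgroup.center P).map (QuotientGroup.mk' Y)).index = (Subgroup.center P).index := by
    have h := Subgroup.index_comap_of_surjective ((Subgroup.center P).map (QuotientGroup.mk' Y))
      (QuotientGroup.mk'_surjective Y)
    rw [hcomap] at h
    exact h.symm
  have h1 := Subgroup.card_mul_index (Subgroup.center P)
  have h2 := Subgroup.card_mul_index ((Subgroup.center P).map (QuotientGroup.mk' Y))
  have h3 := Subgroup.card_eq_card_quotient_mul_card_subgroup Y
  rw [hYcard] at h3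
  rw [hidx] at h2
  have hidxpos : 0 < (Subgroup.center P).index :=
    Nat.pos_of_ne_zero Subgroup.FiniteIndex.index_ne_zero
  have h4 : Nat.card ((Subgroup.center P).map (QuotientGroup.mk' Y)) * p =
      Nat.card (Subgroup.center P) := by
    have h5 : Nat.card ((Subgroup.center P).map (QuotientGroup.mk' Y)) * p *
        (Subgroup.center P).index = Nat.card (Subgroup.center P) * (Subgroup.center P).index := by
      rw [h1, h3, ← h2]
      ring
    exact Nat.eq_of_mul_eq_mul_right hidxpos h5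
  have h5 : orderOf ((γ : P ⧸ Y) ^ p) * Nat.gcd (orderOf (γ : P ⧸ Y)) p =
      orderOf (γ : P ⧸ Y) := by
    rw [orderOf_pow' _ hp.ne_zero]
    exact Nat.div_mul_cancel (Nat.gcd_dvd_left _ _)
  have h6 : Nat.gcd (orderOf (γ : P ⧸ Y)) p ≤ p := Nat.gcd_le_right _ hp.pos
  rw [← hn, ← h5, ← h4]
  exact Nat.mul_le_mul hcard1 h6

/-- exponent bound from the quotient by a central subgroup of order `p` -/
theorem pow_eq_one_of_quotient {p : ℕ} [Fact p.Prime] (Y : Subgroup P) [Y.Normal]
    (hYcard : Nat.card Y = p)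
    (hQc : commutator (P ⧸ Y) ≤ Subgroup.center (P ⧸ Y))
    (hQcard : Nat.card (commutator (P ⧸ Y)) = p) (x : P) :
    x ^ (p * Nat.card (Subgroup.center (P ⧸ Y)) * p) = 1 := by
  have h1 : (x : P ⧸ Y) ^ p ∈ Subgroup.center (P ⧸ Y) := by
    apply pow_mem_center_of_comm (commutator (P ⧸ Y)) hQc p
    · intro c hc
      have h1 : (⟨c, hc⟩ : commutator (P ⧸ Y)) ^ p = 1 := by
        rw [← hQcard]
        exact pow_card_eq_one'
      simpa using congrArg Subtype.val h1
    · intro h
      rw [commutator_def]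
      exact Subgroup.commutator_mem_commutator (Subgroup.mem_top _) (Subgroup.mem_top h)
  have h2 : ((x : P ⧸ Y) ^ p) ^ Nat.card (Subgroup.center (P ⧸ Y)) = 1 := by
    have h3 : (⟨_, h1⟩ : Subgroup.center (P ⧸ Y)) ^ Nat.card (Subgroup.center (P ⧸ Y)) = 1 :=
      pow_card_eq_one'
    have h4 := congrArg Subtype.val h3
    rw [Subgroup.coe_pow, Subgroup.coe_one] at h4
    exact h4
  have h3 : x ^ (p * Nat.card (Subgroup.center (P ⧸ Y))) ∈ Y := by
    rw [← QuotientGroup.eq_one_iff, QuotientGroup.mk_pow, pow_mul]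
    exact h2
  have h4 : (⟨_, h3⟩ : Y) ^ Nat.card Y = 1 := pow_card_eq_one'
  rw [hYcard] at h4
  have h5 := congrArg Subtype.val h4
  rw [Subgroup.coe_pow, Subgroup.coe_one] at h5
  rw [pow_mul]
  exact h5

end quot

end Cfsg.Agent.Lib.Helper4.GalP
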