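import Mathlib
import Cfsg.Agent.Lib.Helper4.GalP2

/-!
# p-groups whose nonlinear characters of equal degree are Galois conjugate, part 3 (helper4)

The counting step: a `p`-group satisfying `GalConj` cannot have a central subgroup `Y` of order
`p` inside its derived subgroup such that the quotient by `Y` has derived subgroup of order `p`.
Consequently (`card_commutator_aux`) the derived subgroup has order `p`.
-/

set_option autoImplicit false

namespace Cfsg.Agent.Lib.Helper4.GalP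

open Cfsg Cfsg.Agent.Lib.Helper83
open scoped commutatorElement

theorem geom_lt (p : ℕ) (hp : 2 ≤ p) (m : ℕ) :
    p * ∑ a ∈ Finset.range m, p ^ (2 * a) < p ^ (2 * m) := by
  induction m with
  | zero => simp
  | succ m ih =>
    rw [Finset.sum_range_succ, mul_add]
    have h1 : p * p ^ (2 * m) + p ^ (2 * m) ≤ p ^ (2 * (m + 1)) := by
      have h3 : p ^ (2 * (m + 1)) = p ^ (2 * m) * (p * p) := by ring
      rw [h3]
      have h2 : p + 1 ≤ p * p := by nlinarith
      calc p * p ^ (2 * m) + p ^ (2 * m) = p ^ (2 * m) * (p + 1) := by ring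
        _ ≤ p ^ (2 * m) * (p * p) := Nat.mul_le_mul_left _ h2
    linarith

theorem step {p : ℕ} [Fact p.Prime] {R : Type*} [Group R] [Finite R] (hR : IsPGroup p R)
    (hgal : GalConj R) (Y : Subgroup R) [Y.Normal] (hYc : Y ≤ Subgroup.center R)
    (hYcard : Nat.card Y = p) (hYcomm : Y ≤ commutator R)
    (hQ : Nat.card (commutator (R ⧸ Y)) = p) : False := by
  classical
  have hp : p.Prime := Fact.out
  let _ : Fintype (IrrCharacter R) := Fintype.ofFinite _
  let _ : Fintype (IrrCharacter (R ⧸ Y)) := Fintype.ofFinite _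
  have hQp : IsPGroup p (R ⧸ Y) := hR.to_quotient Y
  have hgalQ : GalConj (R ⧸ Y) := galConj_quotient hgal Y
  have hQprime : (Nat.card (commutator (R ⧸ Y))).Prime := by rw [hQ]; exact hp
  have hQc : commutator (R ⧸ Y) ≤ Subgroup.center (R ⧸ Y) := le_center_of_card_prime hQp _ hQ
  have hQne : commutator (R ⧸ Y) ≠ ⊥ := by
    intro h
    rw [h, Subgroup.card_bot] at hQ
    exact hp.one_lt.ne hQ
  obtain ⟨ξ, hξ⟩ := exists_nonlinear hQne
  have hξker := faithful_of_gal hgalQ hQprime ξ hξ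
  have hcyc := center_cyclic_of_faithful ξ hξker
  have hd0 := degree_sq_mul_center hQprime hQc ξ hξ
  have hRQ : Nat.card R = Nat.card (R ⧸ Y) * p := by
    rw [← hYcard]
    exact Subgroup.card_eq_card_quotient_mul_card_subgroup Y
  have hzle : Nat.card (Subgroup.center (R ⧸ Y)) ≤ Nat.card (Subgroup.center R) :=
    card_center_quotient_le Y hYc hYcard hcyc
  have hzpos : 0 < Nat.card (Subgroup.center (R ⧸ Y)) := Nat.card_pos
  obtain ⟨nQ, hnQ⟩ := hQp.exists_card_eq
  obtain ⟨nR, hnR⟩ := hR.exists_card_eq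
  have hd0dvd : charDegree (ξ : R ⧸ Y → ℂ) ∣ p ^ nQ := by
    rw [← hnQ]
    exact irr_degree_dvd_card ξ
  obtain ⟨m, -, hm⟩ := (Nat.dvd_prime_pow hp).mp hd0dvd
  have hzdvd : Nat.card (Subgroup.center (R ⧸ Y)) ∣ p ^ nQ := by
    rw [← hnQ]
    exact Subgroup.card_subgroup_dvd_card _
  obtain ⟨cz, -, hcz⟩ := (Nat.dvd_prime_pow hp).mp hzdvd
  rw [hm, hcz] at hd0
  rw [hcz] at hzle hzpos
  have hexp : ∀ x : R, x ^ (p * p ^ cz * p) = 1 := by
    intro x
    have := pow_eq_one_of_quotient Y hYcard hQc hQ x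
    rw [hcz] at this
    exact this
  -- the characters not containing `Y` in their kernel
  let S : Finset (IrrCharacter R) :=
    Finset.univ.filter (fun χ => ¬ ∀ y ∈ Y, (χ : R → ℂ) y = (χ : R → ℂ) 1)
  have hsumS : ∑ χ ∈ S, charDegree (χ : R → ℂ) ^ 2 = (p ^ m) ^ 2 * p ^ cz * (p - 1) := by
    have h1 := sum_charDegree_sq (G := R)
    have h2 := sum_charDegree_sq (G := R ⧸ Y)
    have h3 := Finset.sum_filter_add_sum_filter_not (Finset.univ : Finset (IrrCharacter R))
      (fun χ => ∀ y ∈ Y, (χ : R → ℂ) y = (χ : R → ℂ) 1) (fun χ => charDegree (χ : R → ℂ) ^ 2)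
    have h4 : ∑ χ ∈ Finset.univ.filter
        (fun χ : IrrCharacter R => ∀ y ∈ Y, (χ : R → ℂ) y = (χ : R → ℂ) 1),
        charDegree (χ : R → ℂ) ^ 2 = Nat.card (R ⧸ Y) := by
      rw [← h2]
      rw [Finset.sum_subtype (p := fun χ : IrrCharacter R =>
        ∀ y ∈ Y, (χ : R → ℂ) y = (χ : R → ℂ) 1) (Finset.univ.filter
        (fun χ : IrrCharacter R => ∀ y ∈ Y, (χ : R → ℂ) y = (χ : R → ℂ) 1)) (by simp)
        (fun χ => charDegree (χ : R → ℂ) ^ 2)]
      symm
      apply Fintype.sum_equiv (inflateEquiv Y)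
      intro ψ
      show charDegree (ψ : R ⧸ Y → ℂ) ^ 2 = charDegree (inflate Y ψ : R → ℂ) ^ 2
      rw [charDegree_inflate]
    rw [h4, h1] at h3
    have h5 : ∑ χ ∈ S, charDegree (χ : R → ℂ) ^ 2 = Nat.card R - Nat.card (R ⧸ Y) := by
      have h6 : ∑ χ ∈ S, charDegree (χ : R → ℂ) ^ 2 =
          ∑ χ ∈ Finset.univ.filter
            (fun χ : IrrCharacter R => ¬ ∀ y ∈ Y, (χ : R → ℂ) y = (χ : R → ℂ) 1),
            charDegree (χ : R → ℂ) ^ 2 := rfl
      omega
    rw [h5, hRQ, ← hd0]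
    have hp1 : 1 ≤ p := hp.one_lt.le
    obtain ⟨q, hq⟩ : ∃ q, p = q + 1 := ⟨p - 1, by omega⟩
    rw [hq]
    simp only [Nat.add_sub_cancel]
    rw [Nat.mul_succ, Nat.add_sub_cancel]
  -- degrees of the members of `S`
  have hdegS : ∀ χ ∈ S, charDegree (χ : R → ℂ) ≠ 1 ∧
      ∃ a, a < m ∧ charDegree (χ : R → ℂ) = p ^ a := by
    intro χ hχS
    have hχ : ¬ ∀ y ∈ Y, (χ : R → ℂ) y = (χ : R → ℂ) 1 := (Finset.mem_filter.mp hχS).2
    have hne1 : charDegree (χ : R → ℂ) ≠ 1 := by
      intro h1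
      apply hχ
      intro y hy
      have h2 := (irr_charDegree_eq_one_iff χ.2).mp h1
      rw [irr_linear_commutator χ.2 h2 (hYcomm hy), h2]
    refine ⟨hne1, ?_⟩
    have hned : charDegree (χ : R → ℂ) ≠ p ^ m := by
      intro h1
      apply hχ
      intro y hy
      have hinf1 : charDegree (inflate Y ξ : R → ℂ) ≠ 1 := by
        rw [charDegree_inflate]; exact hξ
      have hinf2 : charDegree (inflate Y ξ : R → ℂ) = charDegree (χ : R → ℂ) := by
        rw [charDegree_inflate, hm, h1]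
      exact ker_transfer hgal (inflate Y ξ) χ hinf1 hinf2 y (inflate_ker Y ξ y hy)
    have hdvd : charDegree (χ : R → ℂ) ∣ p ^ nR := by
      rw [← hnR]
      exact irr_degree_dvd_card χ
    obtain ⟨a, -, ha⟩ := (Nat.dvd_prime_pow hp).mp hdvd
    refine ⟨a, ?_, ha⟩
    have h1 := degree_sq_mul_card_le χ (Subgroup.center R) le_rfl
    rw [ha, hRQ, ← hd0] at h1
    have h2 : (p ^ a) ^ 2 * p ^ cz ≤ (p ^ m) ^ 2 * p ^ cz * p :=
      le_trans (Nat.mul_le_mul_left _ hzle) h1
    have h3 : p ^ (2 * a + cz) ≤ p ^ (2 * m + cz + 1) := by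
      have e1 : p ^ (2 * a + cz) = (p ^ a) ^ 2 * p ^ cz := by ring
      have e2 : p ^ (2 * m + cz + 1) = (p ^ m) ^ 2 * p ^ cz * p := by ring
      rw [e1, e2]
      exact h2
    have h4 : 2 * a + cz ≤ 2 * m + cz + 1 := (Nat.pow_le_pow_iff_right hp.one_lt).mp h3
    have h5 : a ≠ m := by
      intro h
      apply hned
      rw [ha, h]
    omega
  -- the fibres of the degree map on `S` are small
  have hfib : ∀ a : ℕ, (S.filter (fun χ : IrrCharacter R => charDegree (χ : R → ℂ) = p ^ a)).card ≤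
      p ^ cz * p * (p - 1) := by
    intro a
    rcases Finset.eq_empty_or_nonempty (S.filter (fun χ : IrrCharacter R => charDegree (χ : R → ℂ) = p ^ a))
      with hemp | ⟨χ₀, hχ₀⟩
    · rw [hemp]
      simp
    · have hχ₀S : χ₀ ∈ S := (Finset.mem_filter.mp hχ₀).1
      have hχ₀d : charDegree (χ₀ : R → ℂ) = p ^ a := (Finset.mem_filter.mp hχ₀).2
      have hE : NeZero (p * p ^ cz * p) :=
        ⟨(Nat.mul_pos (Nat.mul_pos hp.pos (pow_pos hp.pos cz)) hp.pos).ne'⟩
      let Φ : (ZMod (p * p ^ cz * p))ˣ → (R → ℂ) :=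
        fun u g => (χ₀ : R → ℂ) (g ^ (u : ZMod (p * p ^ cz * p)).val)
      have hmaps : Set.MapsTo (fun χ : IrrCharacter R => (χ : R → ℂ))
          ↑(S.filter (fun χ : IrrCharacter R => charDegree (χ : R → ℂ) = p ^ a))
          ↑(Finset.univ.image Φ) := by
        intro χ hχ
        have hχ' := Finset.mem_coe.mp hχ
        have hχd : charDegree (χ : R → ℂ) = p ^ a := (Finset.mem_filter.mp hχ').2
        obtain ⟨k, hk, hkg⟩ := hgal χ₀ χ (hdegS χ₀ hχ₀S).1 (by rw [hχ₀d, hχd])
        have hpdvd : p ∣ Nat.card R := by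
          rw [hRQ]
          exact dvd_mul_left p _
        have hkp : k.Coprime p := Nat.Coprime.coprime_dvd_right hpdvd hk
        have hkE : k.Coprime (p * p ^ cz * p) :=
          Nat.Coprime.mul_right (Nat.Coprime.mul_right hkp (Nat.Coprime.pow_right cz hkp)) hkp
        rw [Finset.mem_coe, Finset.mem_image]
        refine ⟨ZMod.unitOfCoprime k hkE, Finset.mem_univ _, ?_⟩
        funext g
        show (χ₀ : R → ℂ) (g ^ ((ZMod.unitOfCoprime k hkE : (ZMod (p * p ^ cz * p))ˣ) :
          ZMod (p * p ^ cz * p)).val) = (χ : R → ℂ) g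
        rw [ZMod.coe_unitOfCoprime, ZMod.val_natCast, ← pow_eq_pow_mod k (hexp g), hkg g]
      have hinj : Set.InjOn (fun χ : IrrCharacter R => (χ : R → ℂ))
          ↑(S.filter (fun χ : IrrCharacter R => charDegree (χ : R → ℂ) = p ^ a)) :=
        Subtype.val_injective.injOn
      have h1 := Finset.card_le_card_of_injOn _ hmaps hinj
      have h2 : (Finset.univ.image Φ).card ≤ Fintype.card (ZMod (p * p ^ cz * p))ˣ :=
        Finset.card_image_le
      have h3 : Fintype.card (ZMod (p * p ^ cz * p))ˣ = p ^ cz * p * (p - 1) := by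
        rw [ZMod.card_units_eq_totient]
        have e1 : p * p ^ cz * p = p ^ (cz + 2) := by ring
        rw [e1, Nat.totient_prime_pow hp (by omega)]
        have e2 : cz + 2 - 1 = cz + 1 := by omega
        rw [e2, pow_succ]
      rw [h3] at h2
      exact le_trans h1 h2
  -- the final count
  have hmap : ∀ χ ∈ S, Nat.log p (charDegree (χ : R → ℂ)) ∈ Finset.range m := by
    intro χ hχ
    obtain ⟨-, a, ham, ha⟩ := hdegS χ hχ
    rw [ha, Nat.log_pow hp.one_lt, Finset.mem_range]
    exact ham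
  have hfw := Finset.sum_fiberwise_of_maps_to hmap
    (fun χ : IrrCharacter R => charDegree (χ : R → ℂ) ^ 2)
  have hle : ∑ χ ∈ S, charDegree (χ : R → ℂ) ^ 2 ≤
      ∑ j ∈ Finset.range m, p ^ cz * p * (p - 1) * p ^ (2 * j) := by
    rw [← hfw]
    apply Finset.sum_le_sum
    intro j _
    have h1 : ∀ χ ∈ S.filter (fun χ : IrrCharacter R => Nat.log p (charDegree (χ : R → ℂ)) = j),
        charDegree (χ : R → ℂ) ^ 2 = p ^ (2 * j) := by
      intro χ hχ
      obtain ⟨hχS, hχj⟩ := Finset.mem_filter.mp hχ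
      obtain ⟨-, a, -, ha⟩ := hdegS χ hχS
      rw [ha, Nat.log_pow hp.one_lt] at hχj
      rw [ha, hχj, ← pow_mul, mul_comm]
    rw [Finset.sum_congr rfl h1, Finset.sum_const, smul_eq_mul]
    apply Nat.mul_le_mul_right
    refine le_trans (Finset.card_le_card ?_) (hfib j)
    intro χ hχ
    obtain ⟨hχS, hχj⟩ := Finset.mem_filter.mp hχ
    obtain ⟨-, a, -, ha⟩ := hdegS χ hχS
    rw [ha, Nat.log_pow hp.one_lt] at hχj
    rw [Finset.mem_filter]
    exact ⟨hχS, by rw [ha, hχj]⟩
  rw [hsumS, ← Finset.mul_sum] at hle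
  have hg := geom_lt p hp.two_le m
  have hp1 : 0 < p - 1 := by have := hp.two_le; omega
  have hpos : 0 < p ^ cz * (p - 1) := Nat.mul_pos (pow_pos hp.pos cz) hp1
  have h7 : p ^ cz * (p - 1) * (p * ∑ j ∈ Finset.range m, p ^ (2 * j)) <
      p ^ cz * (p - 1) * p ^ (2 * m) := Nat.mul_lt_mul_of_pos_left hg hpos
  have e1 : (p ^ m) ^ 2 * p ^ cz * (p - 1) = p ^ cz * (p - 1) * p ^ (2 * m) := by ring
  have e2 : p ^ cz * p * (p - 1) * ∑ j ∈ Finset.range m, p ^ (2 * j) =
      p ^ cz * (p - 1) * (p * ∑ j ∈ Finset.range m, p ^ (2 * j)) := by ring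
  rw [e1, e2] at hle
  omega

universe u

theorem card_commutator_aux (p : ℕ) [Fact p.Prime] (n : ℕ) :
    ∀ (P : Type u) [Group P] [Finite P], Nat.card P ≤ n → IsPGroup p P → commutator P ≠ ⊥ →
      GalConj P → Nat.card (commutator P) = p := by
  induction n with
  | zero =>
    intro P _ _ hcard
    have := Nat.card_pos (α := P)
    omega
  | succ n ih =>
    intro P _ _ hcard hP hne hgal
    by_contra hcp
    have hp : p.Prime := Fact.out
    have h1 := normal_inf_center_ne_bot p hP (commutator P) hne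
    have hIp : IsPGroup p (commutator P ⊓ Subgroup.center P : Subgroup P) := hP.to_subgroup _
    have hIn : Nontrivial (commutator P ⊓ Subgroup.center P : Subgroup P) :=
      (Subgroup.nontrivial_iff_ne_bot _).mpr h1
    obtain ⟨k, hk0, hk⟩ := hIp.nontrivial_iff_card.mp hIn
    have hdvd : p ∣ Nat.card (commutator P ⊓ Subgroup.center P : Subgroup P) := by
      rw [hk]
      exact dvd_pow_self p (Nat.pos_iff_ne_zero.mp hk0)
    obtain ⟨y, hy⟩ := exists_prime_orderOf_dvd_card' p hdvd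
    have hycomm : (y : P) ∈ commutator P := (Subgroup.mem_inf.mp y.2).1
    have hycent : (y : P) ∈ Subgroup.center P := (Subgroup.mem_inf.mp y.2).2
    obtain ⟨Y, hYdef⟩ : ∃ Y : Subgroup P, Y = Subgroup.zpowers (y : P) := ⟨_, rfl⟩
    have hYc : Y ≤ Subgroup.center P := by
      rw [hYdef]; exact Subgroup.zpowers_le.mpr hycent
    have hYcomm : Y ≤ commutator P := by
      rw [hYdef]; exact Subgroup.zpowers_le.mpr hycomm
    have hYcard : Nat.card Y = p := by
      rw [hYdef, Nat.card_zpowers, Subgroup.orderOf_coe, hy]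
    have hYn : Y.Normal := ⟨fun a ha g => by
      have h2 := Subgroup.mem_center_iff.mp (hYc ha) g
      rw [h2, mul_inv_cancel_right]
      exact ha⟩
    have hQne : commutator (P ⧸ Y) ≠ ⊥ := by
      intro hbot
      apply hcp
      have hle : commutator P ≤ Y := by
        have h3 : ⁅(⊤ : Subgroup P), (⊤ : Subgroup P)⁆ ≤ Y := by
          rw [Subgroup.commutator_le]
          intro a _ b _
          rw [← QuotientGroup.eq_one_iff]
          have h2 : ⁅(a : P ⧸ Y), (b : P ⧸ Y)⁆ ∈ commutator (P ⧸ Y) := by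
            rw [commutator_def]
            exact Subgroup.commutator_mem_commutator (Subgroup.mem_top _) (Subgroup.mem_top _)
          rw [hbot, Subgroup.mem_bot] at h2
          exact h2
        rw [commutator_def]
        exact h3
      rw [← hYcard, le_antisymm hle hYcomm]
    have hlt : Nat.card (P ⧸ Y) ≤ n := by
      have h2 := Subgroup.card_eq_card_quotient_mul_card_subgroup Y
      rw [hYcard] at h2
      have h3 : 2 ≤ p := hp.two_le
      have hpos : 0 < Nat.card (P ⧸ Y) := Nat.card_pos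
      nlinarith
    have hQ := ih (P ⧸ Y) hlt (hP.to_quotient _) hQne (galConj_quotient hgal _)
    exact step hP hgal Y hYc hYcard hYcomm hQ

end Cfsg.Agent.Lib.Helper4.GalP
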