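-- helper4: piece PLUSCNT for S2487 (helper49): over F_2 the hyperbolic form Σ x_i y_i has more
-- singular than non-singular vectors.
import Mathlib

set_option autoImplicit false

namespace Cfsg.Agent.Lib.Helper4.O2Syl

/-- PLUSCNT -/
theorem plus_count {F : Type*} [Field F] [Fintype F] (hF : Fintype.card F = 2) (m : ℕ) :
    Nat.card (Fin m ⊕ Fin m → F) <
      2 * Set.ncard {x : Fin m ⊕ Fin m → F | ∑ i : Fin m, x (Sum.inl i) * x (Sum.inr i) = 0} := by
  classical
  have h01 : ∀ a : F, a = 0 ∨ a = 1 := by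
    intro a
    by_cases ha : a = 0
    · exact Or.inl ha
    · right
      have h := FiniteField.pow_card_sub_one_eq_one a ha
      rw [hF] at h
      simpa using h
  have h2 : (1 : F) + 1 = 0 := by
    rcases h01 (1 + 1) with h | h
    · exact h
    · exfalso
      have : (1 : F) = 0 := by
        have h' : (1 : F) + 1 = 1 + 0 := by rw [h, add_zero]
        exact add_left_cancel h'
      exact one_ne_zero this
  let Q : (Fin m ⊕ Fin m → F) → F := fun x => ∑ i : Fin m, x (Sum.inl i) * x (Sum.inr i)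
  let J : (Fin m → F) → Option (Fin m) := fun a =>
    if h : ∃ i, a i ≠ 0 then some (Classical.choose h) else none
  have hJ1 : ∀ (a : Fin m → F) (j : Fin m), J a = some j → a j ≠ 0 := by
    intro a j hj
    by_cases h : ∃ i, a i ≠ 0
    · have e : J a = some (Classical.choose h) := dif_pos h
      rw [e] at hj
      have := Classical.choose_spec h
      rw [Option.some.inj hj] at this
      exact this
    · have e : J a = none := dif_neg h
      rw [e] at hj
      exact absurd hj (by simp)
  have hJ2 : ∀ a : Fin m → F, (∃ i, a i ≠ 0) → ∃ j, J a = some j := by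
    intro a h
    exact ⟨Classical.choose h, dif_pos h⟩
  let A : (Fin m ⊕ Fin m → F) → (Fin m → F) := fun x i => x (Sum.inl i)
  let T : (Fin m ⊕ Fin m → F) → (Fin m ⊕ Fin m → F) := fun x =>
    match J (A x) with
    | some j => x + Pi.single (Sum.inr j) 1
    | none => x
  have hT : ∀ (x : Fin m ⊕ Fin m → F) (j : Fin m), J (A x) = some j →
      T x = x + Pi.single (Sum.inr j) 1 := by
    intro x j hj
    show (match J (A x) with
      | some j => x + Pi.single (Sum.inr j) 1
      | none => x) = _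
    rw [hj]
  -- non-singular vectors
  have hB : ∀ x : Fin m ⊕ Fin m → F, Q x ≠ 0 → ∃ j, J (A x) = some j := by
    intro x hx
    apply hJ2
    by_contra h
    push Not at h
    apply hx
    exact Finset.sum_eq_zero (fun i _ => by
      have : x (Sum.inl i) = 0 := h i
      rw [this, zero_mul])
  have hAT : ∀ (x : Fin m ⊕ Fin m → F) (j : Fin m), J (A x) = some j → A (T x) = A x := by
    intro x j hj
    rw [hT x j hj]
    funext i
    show (x + Pi.single (Sum.inr j) 1 : Fin m ⊕ Fin m → F) (Sum.inl i) = x (Sum.inl i)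
    rw [Pi.add_apply, Pi.single_apply, if_neg (by simp), add_zero]
  have hQT : ∀ (x : Fin m ⊕ Fin m → F) (j : Fin m), J (A x) = some j →
      Q (T x) = Q x + x (Sum.inl j) := by
    intro x j hj
    rw [hT x j hj]
    show ∑ i : Fin m, (x + Pi.single (Sum.inr j) 1 : Fin m ⊕ Fin m → F) (Sum.inl i) *
      (x + Pi.single (Sum.inr j) 1 : Fin m ⊕ Fin m → F) (Sum.inr i) = (∑ i : Fin m, x (Sum.inl i) * x (Sum.inr i)) +
        x (Sum.inl j)
    have e : ∀ i : Fin m, (x + Pi.single (Sum.inr j) 1 : Fin m ⊕ Fin m → F) (Sum.inl i) *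
        (x + Pi.single (Sum.inr j) 1 : Fin m ⊕ Fin m → F) (Sum.inr i) =
        x (Sum.inl i) * x (Sum.inr i) + (if i = j then x (Sum.inl j) else 0) := by
      intro i
      rw [Pi.add_apply, Pi.add_apply, Pi.single_apply, Pi.single_apply, if_neg (by simp), add_zero]
      by_cases hij : i = j
      · subst hij
        rw [if_pos rfl, if_pos rfl, mul_add, mul_one]
      · rw [if_neg hij, if_neg (fun h => hij (Sum.inr.inj h)), add_zero, add_zero]
    rw [Finset.sum_congr rfl (fun i _ => e i), Finset.sum_add_distrib, Finset.sum_ite_eq'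
      Finset.univ j, if_pos (Finset.mem_univ j)]
  set S : Set (Fin m ⊕ Fin m → F) :=
    {x : Fin m ⊕ Fin m → F | ∑ i : Fin m, x (Sum.inl i) * x (Sum.inr i) = 0} with hS
  have hmemS : ∀ x : Fin m ⊕ Fin m → F, x ∈ S ↔ Q x = 0 := fun x => Iff.rfl
  have h0S : (0 : Fin m ⊕ Fin m → F) ∈ S := by
    rw [hmemS]
    exact Finset.sum_eq_zero (fun i _ => by rw [Pi.zero_apply, zero_mul])
  -- the injection
  have hmaps : ∀ x ∈ Sᶜ, T x ∈ S \ {0} := by
    intro x hx
    have hx' : Q x ≠ 0 := fun h => hx ((hmemS x).mpr h)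
    obtain ⟨j, hj⟩ := hB x hx'
    have hxj : x (Sum.inl j) ≠ 0 := hJ1 (A x) j hj
    have hxj1 : x (Sum.inl j) = 1 := (h01 _).resolve_left hxj
    have hQ1 : Q x = 1 := (h01 _).resolve_left hx'
    refine ⟨?_, ?_⟩
    · rw [hmemS, hQT x j hj, hQ1, hxj1, h2]
    · intro h0
      rw [Set.mem_singleton_iff] at h0
      have h1 := congrFun (hAT x j hj) j
      rw [h0] at h1
      exact hxj h1.symm
  have hinj : Set.InjOn T Sᶜ := by
    intro x hx y hy hxy
    have hx' : Q x ≠ 0 := fun h => hx ((hmemS x).mpr h)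
    have hy' : Q y ≠ 0 := fun h => hy ((hmemS y).mpr h)
    obtain ⟨j, hj⟩ := hB x hx'
    obtain ⟨j', hj'⟩ := hB y hy'
    have hA : A x = A y := by
      rw [← hAT x j hj, ← hAT y j' hj', hxy]
    have hjj : j = j' := by
      rw [hA, hj'] at hj
      exact (Option.some.inj hj).symm
    subst hjj
    rw [hT x j hj, hT y j hj'] at hxy
    exact add_right_cancel hxy
  have hle : Sᶜ.ncard ≤ (S \ {0}).ncard :=
    Set.ncard_le_ncard_of_injOn T hmaps hinj (Set.toFinite _)
  have hdiff : (S \ {0}).ncard = S.ncard - 1 :=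
    Set.ncard_sdiff_singleton_of_mem h0S
  have hpos : 0 < S.ncard := (Set.ncard_pos (Set.toFinite _)).mpr ⟨0, h0S⟩
  have hsum : S.ncard + Sᶜ.ncard = Nat.card (Fin m ⊕ Fin m → F) :=
    Set.ncard_add_ncard_compl S (Set.toFinite _) (Set.toFinite _)
  omega

end Cfsg.Agent.Lib.Helper4.O2Syl
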