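-- helper4: piece COUNT for S4025 (helper69): semilinear maps transitive on F_p-planes of a
-- finite field of order p^n force p^n - p ≤ |S| p^2 (p+1).
import Mathlib

set_option autoImplicit false

namespace Cfsg.Agent.Lib.Helper4.SAF

theorem count_planes (p n : ℕ) [Fact p.Prime] (hn : 2 ≤ n) (F : Type) [Field F] [Fintype F]
    (hF : Nat.card F = p ^ n) (S : Set (F ≃+* F))
    (htr : ∀ U U' : AddSubgroup F, Nat.card ↥U = p ^ 2 → Nat.card ↥U' = p ^ 2 →
      ∃ (a : F) (σ : F ≃+* F), a ≠ 0 ∧ σ ∈ S ∧ ∀ u ∈ U, a * σ u ∈ U') :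
    p ^ n - p ≤ Nat.card ↥S * (p ^ 2 * (p + 1)) := by
  classical
  have hp : p.Prime := Fact.out
  -- the characteristic is `p`
  have hchar : CharP F p := by
    obtain ⟨q, hq⟩ := CharP.exists F
    have := hq
    have hqp : q.Prime := CharP.char_is_prime F q
    obtain ⟨m, -, hm⟩ := FiniteField.card F q
    rw [Nat.card_eq_fintype_card, hm] at hF
    have h1 : q ∣ p ^ n := by
      rw [← hF]
      exact dvd_pow_self q m.ne_zero
    have h2 : q = p := (Nat.prime_dvd_prime_iff_eq hqp hp).mp (hqp.dvd_of_dvd_pow h1)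
    rw [← h2]
    exact hq
  let i : ZMod p →+* F := ZMod.castHom (dvd_refl p) F
  have hi : Function.Injective i := i.injective
  have hfix : ∀ (σ : F ≃+* F) (α : ZMod p), σ (i α) = i α := by
    intro σ α
    have h := Subsingleton.elim ((σ : F →+* F).comp i) i
    exact congrArg (fun f : ZMod p →+* F => f α) h
  have : Finite (F ≃+* F) :=
    Finite.of_injective (fun σ : F ≃+* F => (σ : F → F)) DFunLike.coe_injective
  -- an element outside the prime field
  have hex : ∃ c₀ : F, c₀ ∉ Set.range i := by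
    by_contra hcon
    push Not at hcon
    have hsurj : Function.Surjective i := fun c => hcon c
    have h1 := Nat.card_le_card_of_surjective i hsurj
    rw [hF, Nat.card_zmod] at h1
    have h2 : p ^ 2 ≤ p ^ n := Nat.pow_le_pow_right hp.pos hn
    have h3 : p < p ^ 2 := by
      have := hp.one_lt
      nlinarith
    omega
  obtain ⟨c₀, hc₀⟩ := hex
  -- the planes
  let φ : F → (ZMod p × ZMod p →+ F) := fun c =>
    AddMonoidHom.mk' (fun x => i x.1 + i x.2 * c) (by
      intro a b
      simp only [Prod.fst_add, Prod.snd_add, map_add]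
      ring)
  have hφ : ∀ (c : F) (x : ZMod p × ZMod p), φ c x = i x.1 + i x.2 * c := fun _ _ => rfl
  have hφinj : ∀ c : F, c ∉ Set.range i → Function.Injective (φ c) := by
    intro c hc
    rw [injective_iff_map_eq_zero]
    rintro ⟨α, β⟩ h
    rw [hφ] at h
    simp only at h
    have hβ : β = 0 := by
      by_contra hβ
      apply hc
      refine ⟨-α / β, ?_⟩
      have hiβ : i β ≠ 0 := fun h0 => hβ (hi (by rw [h0, map_zero]))
      rw [map_div₀, map_neg]
      field_simp
      linear_combination -h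
    subst hβ
    rw [map_zero, zero_mul, add_zero] at h
    have hα : α = 0 := hi (by rw [h, map_zero])
    rw [hα]
    rfl
  have hcard : ∀ c : F, c ∉ Set.range i → Nat.card ↥((φ c).range) = p ^ 2 := by
    intro c hc
    have e : (ZMod p × ZMod p) ≃ ↥((φ c).range) :=
      Equiv.ofInjective (φ c) (hφinj c hc)
    rw [← Nat.card_congr e, Nat.card_prod, Nat.card_zmod, pow_two]
  -- the parametrisation
  let w : Option (ZMod p) → F := fun o => o.elim c₀ (fun β => 1 + i β * c₀)
  let Φ : ↥S × Option (ZMod p) × (ZMod p × ZMod p) → F := fun d =>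
    (d.1 : F ≃+* F) ((i d.2.2.1 + i d.2.2.2 * c₀) / w d.2.1)
  have hcover : ∀ c : F, c ∉ Set.range i → ∃ d, Φ d = c := by
    intro c hc
    obtain ⟨a, σ, ha, hσ, hmap⟩ := htr (φ c₀).range (φ c).range (hcard c₀ hc₀) (hcard c hc)
    let g : ↥((φ c₀).range) → ↥((φ c).range) := fun u => ⟨a * σ u, hmap u u.2⟩
    have hginj : Function.Injective g := by
      intro u u' h
      have h1 : a * σ (u : F) = a * σ (u' : F) := congrArg Subtype.val h
      have h2 := mul_left_cancel₀ ha h1
      exact Subtype.ext (σ.injective h2)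
    have hgbij : Function.Bijective g :=
      hginj.bijective_of_nat_card_le (by rw [hcard c₀ hc₀, hcard c hc])
    have h1mem : (1 : F) ∈ (φ c).range := ⟨(1, 0), by rw [hφ]; simp⟩
    have hcmem : c ∈ (φ c).range := ⟨(0, 1), by rw [hφ]; simp⟩
    obtain ⟨⟨u₁, hu₁⟩, h1⟩ := hgbij.2 ⟨1, h1mem⟩
    obtain ⟨⟨u₂, hu₂⟩, h2⟩ := hgbij.2 ⟨c, hcmem⟩
    have h1' : a * σ u₁ = 1 := congrArg Subtype.val h1
    have h2' : a * σ u₂ = c := congrArg Subtype.val h2
    have hc' : c = σ (u₂ / u₁) := by
      rw [map_div₀, ← mul_div_mul_left _ _ ha, h1', h2', div_one]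
    have hu₁0 : u₁ ≠ 0 := by
      rintro rfl
      rw [map_zero, mul_zero] at h1'
      exact zero_ne_one h1'
    obtain ⟨⟨α, β⟩, rfl⟩ := hu₁
    obtain ⟨⟨γ, δ⟩, rfl⟩ := hu₂
    rw [hφ, hφ] at hc'
    rw [hφ] at hu₁0
    simp only at hc' hu₁0
    by_cases hα : α = 0
    · subst hα
      rw [map_zero, zero_add] at hc' hu₁0
      have hβ : β ≠ 0 := by
        rintro rfl
        rw [map_zero, zero_mul] at hu₁0
        exact hu₁0 rfl
      have hiβ : i β ≠ 0 := fun h0 => hβ (hi (by rw [h0, map_zero]))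
      refine ⟨(⟨σ, hσ⟩, none, (γ / β, δ / β)), ?_⟩
      show σ ((i (γ / β) + i (δ / β) * c₀) / c₀) = c
      have hc₀0 : c₀ ≠ 0 := by
        rintro rfl
        rw [mul_zero] at hu₁0
        exact hu₁0 rfl
      rw [hc']
      congr 1
      rw [map_div₀ i, map_div₀ i]
      field_simp
    · have hiα : i α ≠ 0 := fun h0 => hα (hi (by rw [h0, map_zero]))
      refine ⟨(⟨σ, hσ⟩, some (β / α), (γ / α, δ / α)), ?_⟩
      show σ ((i (γ / α) + i (δ / α) * c₀) / (1 + i (β / α) * c₀)) = c
      rw [hc']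
      congr 1
      rw [map_div₀ i, map_div₀ i, map_div₀ i]
      have e1 : i γ / i α + i δ / i α * c₀ = (i γ + i δ * c₀) / i α := by
        field_simp
      have e2 : 1 + i β / i α * c₀ = (i α + i β * c₀) / i α := by
        field_simp
      rw [e1, e2, div_div_div_cancel_right₀ hiα]
  -- counting
  let Θ : ZMod p ⊕ (↥S × Option (ZMod p) × (ZMod p × ZMod p)) → F := fun x =>
    Sum.elim (fun α => i α) Φ x
  have hΘ : Function.Surjective Θ := by
    intro c
    by_cases hc : c ∈ Set.range i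
    · obtain ⟨α, rfl⟩ := hc
      exact ⟨Sum.inl α, rfl⟩
    · obtain ⟨d, hd⟩ := hcover c hc
      exact ⟨Sum.inr d, hd⟩
  have h1 := Nat.card_le_card_of_surjective Θ hΘ
  rw [hF, Nat.card_sum, Nat.card_prod, Nat.card_prod, Nat.card_prod, Finite.card_option,
    Nat.card_zmod] at h1
  rw [tsub_le_iff_right]
  calc p ^ n ≤ p + Nat.card ↥S * ((p + 1) * (p * p)) := h1
    _ = Nat.card ↥S * (p ^ 2 * (p + 1)) + p := by ring

end Cfsg.Agent.Lib.Helper4.SAF
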