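-- helper4: piece PSTEP2 for S2287 (helper93).
import Mathlib
import Cfsg.Agent.Lib.Helper93.Sl3Defs

set_option autoImplicit false

namespace Cfsg.Agent.Lib.Helper93.Sl3

section level3

variable {P : Type*} [Group P] {q : ℕ} {U T : Subgroup P} {t c : P}

theorem h4_U_le_Q (v : P) (hv : v ∈ U) : v ∈ Qsub U T t c :=
  Subgroup.subset_closure (Or.inl (Or.inl (Or.inl (Or.inl hv))))

theorem h4_V_le_Q (w : P) (hw : w ∈ cj c U) : w ∈ Qsub U T t c :=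
  Subgroup.subset_closure (Or.inl (Or.inl (Or.inl (Or.inr hw))))

theorem h4_Z_le_Q (z : P) (hz : z ∈ cj (t * c) U) : z ∈ Qsub U T t c :=
  Subgroup.subset_closure (Or.inl (Or.inl (Or.inr hz)))

theorem h4_T_le_Q (τ : P) (hτ : τ ∈ T) : τ ∈ Qsub U T t c :=
  Subgroup.subset_closure (Or.inl (Or.inr hτ))

theorem h4_t_mem_Q : t ∈ Qsub U T t c :=
  Subgroup.subset_closure (Or.inr rfl)

theorem h4_tU_le_Q (x : P) (hx : x ∈ cj t U) : x ∈ Qsub U T t c := by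
  obtain ⟨v, hv, rfl⟩ := mem_cj.mp hx
  exact (Qsub U T t c).mul_mem ((Qsub U T t c).mul_mem h4_t_mem_Q (h4_U_le_Q v hv))
    ((Qsub U T t c).inv_mem h4_t_mem_Q)

theorem h4_YP_one : (1 : P) ∈ YP U t c := Or.inl (Or.inl rfl)

theorem h4_YP_two (w : P) (hw : w ∈ cj c U) : c * w ∈ YP U t c :=
  Or.inl (Or.inr ⟨w, hw, rfl⟩)

theorem h4_YP_three (v : P) (hv : v ∈ U) (z : P) (hz : z ∈ cj (t * c) U) :
    c⁻¹ * v * z ∈ YP U t c :=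
  Or.inr ⟨v, hv, z, hz, rfl⟩

/-- `τ⁻¹ v τ ∈ U` -/
theorem h4_TU_inv (D : BNData q U T t c) (τ : P) (hτ : τ ∈ T) (v : P) (hv : v ∈ U) :
    τ⁻¹ * v * τ ∈ U := by
  have := D.TU τ⁻¹ (T.inv_mem hτ) v hv
  rwa [inv_inv] at this

/-- `τ⁻¹ z τ ∈ U₁₃` -/
theorem h4_TZ_inv (N : NAct U T t c) (τ : P) (hτ : τ ∈ T) (z : P) (hz : z ∈ cj (t * c) U) :
    τ⁻¹ * z * τ ∈ cj (t * c) U := by
  have h1 : τ⁻¹ * z * τ⁻¹⁻¹ ∈ cj τ⁻¹ (cj (t * c) U) := conj_mem_cj hz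
  rw [N.TZ τ⁻¹ (T.inv_mem hτ), inv_inv] at h1
  exact h1

/-- `τ w τ⁻¹ ∈ U₂₃` -/
theorem h4_TV (N : NAct U T t c) (τ : P) (hτ : τ ∈ T) (w : P) (hw : w ∈ cj c U) :
    τ * w * τ⁻¹ ∈ cj c U := by
  have h1 : τ * w * τ⁻¹ ∈ cj τ (cj c U) := conj_mem_cj hw
  rw [N.TV τ hτ] at h1
  exact h1

/-- `t⁻¹ z t ∈ U₂₃` for `z ∈ U₁₃` -/
theorem h4_tinv_Z (D : BNData q U T t c) (N : NAct U T t c) (z : P) (hz : z ∈ cj (t * c) U) :
    t⁻¹ * z * t ∈ cj c U := by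
  have h1 : t * z * t⁻¹ ∈ cj c U := by
    have h2 : t * z * t⁻¹ ∈ cj t (cj (t * c) U) := conj_mem_cj hz
    rw [N.tZ] at h2
    exact h2
  have h3 := h4_TV N (t ^ 2)⁻¹ (T.inv_mem D.t2) _ h1
  have e : (t ^ 2)⁻¹ * (t * z * t⁻¹) * (t ^ 2)⁻¹⁻¹ = t⁻¹ * z * t := by group
  rw [e] at h3
  exact h3

/-- `c⁻¹ w c ∈ U` for `w ∈ U₂₃` -/
theorem h4_cinv_V (w : P) (hw : w ∈ cj c U) : c⁻¹ * w * c ∈ U := by
  have h1 : c⁻¹ * w * c⁻¹⁻¹ ∈ cj c⁻¹ (cj c U) := conj_mem_cj hw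
  rw [cj_inv_cj, inv_inv] at h1
  exact h1

/-- `c⁻¹ x c ∈ U₁₃` for `x ∈ U₂₁` -/
theorem h4_cinv_U21 (N : NAct U T t c) (x : P) (hx : x ∈ cj t U) :
    c⁻¹ * x * c ∈ cj (t * c) U := by
  have h1 : c⁻¹ * x * c⁻¹⁻¹ ∈ cj c⁻¹ (cj t U) := conj_mem_cj hx
  rw [N.cinvU21, inv_inv] at h1
  exact h1

/-- PSTEP2 -/
theorem p_step2 (D : BNData q U T t c) (N : NAct U T t c) :
    ∀ v ∈ U, ∀ z ∈ cj (t * c) U, ∀ s ∈ ((U : Set P) ∪ T ∪ {t}),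
      ∃ a ∈ Qsub U T t c, ∃ y' ∈ YP U t c, c⁻¹ * v * z * s = a * y' := by
  intro v hv z hz s hs
  rcases hs with (hs | hs) | hs
  · -- `s ∈ U`
    have hcomm : z * s = s * z := (D.comm1 s hs z hz).eq.symm
    refine ⟨1, (Qsub U T t c).one_mem, c⁻¹ * (v * s) * z,
      h4_YP_three (v * s) (U.mul_mem hv hs) z hz, ?_⟩
    calc c⁻¹ * v * z * s = c⁻¹ * v * (z * s) := by group
      _ = c⁻¹ * v * (s * z) := by rw [hcomm]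
      _ = 1 * (c⁻¹ * (v * s) * z) := by group
  · -- `s ∈ T`
    refine ⟨c⁻¹ * s * c, h4_T_le_Q _ (N.Tcinv s hs), c⁻¹ * (s⁻¹ * v * s) * (s⁻¹ * z * s),
      h4_YP_three _ (h4_TU_inv D s hs v hv) _ (h4_TZ_inv N s hs z hz), ?_⟩
    group
  · -- `s = t`
    have hst : s = t := hs
    subst hst
    set w' := s⁻¹ * z * s with hw'
    have hw'V : w' ∈ cj c U := h4_tinv_Z D N z hz
    have h1 : z * s = s * w' := by rw [hw']; group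
    by_cases hv1 : v = 1
    · subst hv1
      refine ⟨s⁻¹, (Qsub U T s c).inv_mem h4_t_mem_Q, c * w', h4_YP_two w' hw'V, ?_⟩
      have h2 := N.ct2
      calc c⁻¹ * 1 * z * s = c⁻¹ * (z * s) := by group
        _ = c⁻¹ * (s * w') := by rw [h1]
        _ = (c⁻¹ * s) * w' := by group
        _ = (s⁻¹ * c) * w' := by rw [h2]
        _ = s⁻¹ * (c * w') := by group
    · obtain ⟨w0, hw0, τ, hτ, v', hv', hr⟩ := D.rank1 v hv hv1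
      set ζ₁ := v' * w' * v'⁻¹ * w'⁻¹ with hζ₁
      have hζ₁Z : ζ₁ ∈ cj (s * c) U := D.st v' hv' w' hw'V
      have hc1 : ζ₁ * w' = w' * ζ₁ := (D.comm2 w' hw'V ζ₁ hζ₁Z).eq.symm
      have hc2 : ζ₁ * v' = v' * ζ₁ := (D.comm1 v' hv' ζ₁ hζ₁Z).eq.symm
      have h3 : v' * w' = w' * v' * ζ₁ := by
        calc v' * w' = ζ₁ * w' * v' := by rw [hζ₁]; group
          _ = w' * ζ₁ * v' := by rw [hc1]
          _ = w' * (ζ₁ * v') := by group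
          _ = w' * (v' * ζ₁) := by rw [hc2]
          _ = w' * v' * ζ₁ := by group
      have ha1 : c⁻¹ * (s * w0 * s⁻¹) * c ∈ Qsub U T s c :=
        h4_Z_le_Q _ (h4_cinv_U21 N _ (conj_mem_cj hw0))
      have ha2 : c⁻¹ * τ * c ∈ Qsub U T s c := h4_T_le_Q _ (N.Tcinv τ hτ)
      have ha3 : c⁻¹ * w' * c ∈ Qsub U T s c := h4_U_le_Q _ (h4_cinv_V w' hw'V)
      refine ⟨c⁻¹ * (s * w0 * s⁻¹) * c * (c⁻¹ * τ * c) * (c⁻¹ * w' * c),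
        (Qsub U T s c).mul_mem ((Qsub U T s c).mul_mem ha1 ha2) ha3,
        c⁻¹ * v' * ζ₁, h4_YP_three v' hv' ζ₁ hζ₁Z, ?_⟩
      calc c⁻¹ * v * z * s = c⁻¹ * v * (z * s) := by group
        _ = c⁻¹ * v * (s * w') := by rw [h1]
        _ = c⁻¹ * (v * s) * w' := by group
        _ = c⁻¹ * (s * w0 * s⁻¹ * τ * v') * w' := by rw [hr]
        _ = c⁻¹ * (s * w0 * s⁻¹ * τ) * (v' * w') := by group
        _ = c⁻¹ * (s * w0 * s⁻¹ * τ) * (w' * v' * ζ₁) := by rw [h3]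
        _ = c⁻¹ * (s * w0 * s⁻¹) * c * (c⁻¹ * τ * c) * (c⁻¹ * w' * c) * (c⁻¹ * v' * ζ₁) := by
          group

end level3

end Cfsg.Agent.Lib.Helper93.Sl3
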