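-- helper4: piece PSTEP3 for S2287 (helper93).
import Mathlib
import Cfsg.Agent.Lib.Helper93.Sl3Defs
import Cfsg.Agent.Lib.Helper4.Sl3PSTEP2

set_option autoImplicit false

namespace Cfsg.Agent.Lib.Helper93.Sl3

section level3

variable {P : Type*} [Group P] {q : ℕ} {U T : Subgroup P} {t c : P}

/-- `c⁻² = c` -/
theorem h4_c_inv_sq (D : BNData q U T t c) : c⁻¹ * c⁻¹ = c := by
  have h := D.c3
  have e : c⁻¹ * c⁻¹ = c ^ 3 * c⁻¹ * c⁻¹ := by rw [h, one_mul]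
  rw [e]
  group

/-- `c t c⁻¹ = t (c⁻¹ t² c) c` -/
theorem h4_ctc (D : BNData q U T t c) (N : NAct U T t c) :
    c * t * c⁻¹ = t * (c⁻¹ * t ^ 2 * c) * c := by
  have h1 := N.ct3
  have h2 := h4_c_inv_sq D
  calc c * t * c⁻¹ = (c * t * c) * (c⁻¹ * c⁻¹) := by group
    _ = t * (c⁻¹ * t ^ 2 * c) * c := by rw [h1, h2]

/-- `c⁻¹ t c = t⁻¹ c⁻¹` -/
theorem h4_cinv_t_c (D : BNData q U T t c) (N : NAct U T t c) :
    c⁻¹ * t * c = t⁻¹ * c⁻¹ := by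
  have h1 := N.ct2
  have h2 := h4_c_inv_sq D
  have h3 : c * c = c⁻¹ := by
    have h := D.c3
    rw [pow_succ, pow_two] at h
    exact eq_inv_of_mul_eq_one_left h
  calc c⁻¹ * t * c = (c⁻¹ * t) * c := by group
    _ = (t⁻¹ * c) * c := by rw [h1]
    _ = t⁻¹ * (c * c) := by group
    _ = t⁻¹ * c⁻¹ := by rw [h3]

/-- PSTEP3 -/
theorem p_step3 (D : BNData q U T t c) (N : NAct U T t c) :
    ∀ v ∈ U, ∀ z ∈ cj (t * c) U,
      ∃ a ∈ Qsub U T t c, ∃ y' ∈ YP U t c, c⁻¹ * v * z * c = a * y' := by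
  intro v hv z hz
  -- `w~ = c⁻¹ z c ∈ U₃₂`
  have hwt : c⁻¹ * z * c ∈ cj (c * t) U := by
    have h1 : c⁻¹ * z * c⁻¹⁻¹ ∈ cj c⁻¹ (cj (t * c) U) := conj_mem_cj hz
    rw [N.cinvZ, inv_inv] at h1
    exact h1
  by_cases hv1 : v = 1
  · subst hv1
    by_cases hz1 : z = 1
    · subst hz1
      exact ⟨1, (Qsub U T t c).one_mem, 1, h4_YP_one, by group⟩
    · obtain ⟨w, hw, hwz⟩ := mem_cj.mp hwt
      have hw1 : w ≠ 1 := by
        rintro rfl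
        apply hz1
        have e : c⁻¹ * z * c = 1 := by rw [← hwz]; group
        have e2 : z = c * (c⁻¹ * z * c) * c⁻¹ := by group
        rw [e2, e]
        group
      obtain ⟨v1, hv1U, τ, hτ, v2, hv2U, hr⟩ := D.rank1' w hw hw1
      have hctc := h4_ctc D N
      have ha1 : c * v1 * c⁻¹ ∈ Qsub U T t c := h4_V_le_Q _ (conj_mem_cj hv1U)
      have ha2 : c * τ * c⁻¹ ∈ Qsub U T t c := h4_T_le_Q _ (D.Tc τ hτ)
      have ha3 : c⁻¹ * t ^ 2 * c ∈ Qsub U T t c := h4_T_le_Q _ (N.Tcinv _ D.t2)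
      refine ⟨c * v1 * c⁻¹ * (c * τ * c⁻¹) * t * (c⁻¹ * t ^ 2 * c),
        (Qsub U T t c).mul_mem ((Qsub U T t c).mul_mem ((Qsub U T t c).mul_mem ha1 ha2)
          h4_t_mem_Q) ha3,
        c * (c * v2 * c⁻¹), h4_YP_two _ (conj_mem_cj hv2U), ?_⟩
      calc c⁻¹ * 1 * z * c = c⁻¹ * z * c := by group
        _ = c * t * w * (c * t)⁻¹ := hwz.symm
        _ = c * (t * w * t⁻¹) * c⁻¹ := by group
        _ = c * (v1 * τ * t * v2) * c⁻¹ := by rw [hr]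
        _ = c * v1 * c⁻¹ * (c * τ * c⁻¹) * (c * t * c⁻¹) * (c * v2 * c⁻¹) := by group
        _ = c * v1 * c⁻¹ * (c * τ * c⁻¹) * (t * (c⁻¹ * t ^ 2 * c) * c) * (c * v2 * c⁻¹) := by
          rw [hctc]
        _ = c * v1 * c⁻¹ * (c * τ * c⁻¹) * t * (c⁻¹ * t ^ 2 * c) * (c * (c * v2 * c⁻¹)) := by
          group
  · obtain ⟨w, hw, τ, hτ, w', hw', hr⟩ := N.rank1'' v hv hv1
    set z1 := c⁻¹ * (t * w * t⁻¹) * c with hz1
    set z2 := c⁻¹ * (t * w' * t⁻¹) * c with hz2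
    have hz1Z : z1 ∈ cj (t * c) U := h4_cinv_U21 N _ (conj_mem_cj hw)
    have hz2Z : z2 ∈ cj (t * c) U := h4_cinv_U21 N _ (conj_mem_cj hw')
    set wt := c⁻¹ * z * c with hwtdef
    set v3 := z2 * wt * z2⁻¹ * wt⁻¹ with hv3
    have hv3U : v3 ∈ U := N.st' z2 hz2Z wt hwt
    have hc3 : v3 * wt = wt * v3 := (N.comm3 v3 hv3U wt hwt).eq
    have h3 : z2 * wt = wt * v3 * z2 := by
      calc z2 * wt = v3 * wt * z2 := by rw [hv3]; group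
        _ = wt * v3 * z2 := by rw [hc3]
    have hctc := h4_cinv_t_c D N
    -- `c⁻¹ w~ c ∈ U₂₁`
    have hx : c⁻¹ * wt * c ∈ cj t U := by
      have h1 : c⁻¹ * wt * c⁻¹⁻¹ ∈ cj c⁻¹ (cj (c * t) U) := conj_mem_cj hwt
      rw [← cj_mul, inv_mul_cancel_left, inv_inv] at h1
      exact h1
    have ha1 : z1 ∈ Qsub U T t c := h4_Z_le_Q _ hz1Z
    have ha2 : c⁻¹ * τ * c ∈ Qsub U T t c := h4_T_le_Q _ (N.Tcinv τ hτ)
    have ha3 : t⁻¹ ∈ Qsub U T t c := (Qsub U T t c).inv_mem h4_t_mem_Q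
    have ha4 : c⁻¹ * wt * c ∈ Qsub U T t c := h4_tU_le_Q _ hx
    refine ⟨z1 * (c⁻¹ * τ * c) * t⁻¹ * (c⁻¹ * wt * c),
      (Qsub U T t c).mul_mem ((Qsub U T t c).mul_mem ((Qsub U T t c).mul_mem ha1 ha2) ha3) ha4,
      c⁻¹ * v3 * z2, h4_YP_three v3 hv3U z2 hz2Z, ?_⟩
    calc c⁻¹ * v * z * c = c⁻¹ * v * c * (c⁻¹ * z * c) := by group
      _ = c⁻¹ * (t * w * t⁻¹ * τ * t * (t * w' * t⁻¹)) * c * wt := by rw [← hwtdef, ← hr]
      _ = z1 * (c⁻¹ * τ * c) * (c⁻¹ * t * c) * z2 * wt := by rw [hz1, hz2]; group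
      _ = z1 * (c⁻¹ * τ * c) * (t⁻¹ * c⁻¹) * (z2 * wt) := by rw [hctc]; group
      _ = z1 * (c⁻¹ * τ * c) * (t⁻¹ * c⁻¹) * (wt * v3 * z2) := by rw [h3]
      _ = z1 * (c⁻¹ * τ * c) * t⁻¹ * (c⁻¹ * wt * c) * (c⁻¹ * v3 * z2) := by group

end level3

end Cfsg.Agent.Lib.Helper93.Sl3
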