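-- helper4: piece TP-NT for S4150 (helper76): for m ≥ 17 there are primes p, q with
-- m < 2p, p + 4 ≤ q ≤ m.
import Mathlib

set_option autoImplicit false

namespace Cfsg.Agent.Lib.Helper4.TwoPr

open Nat

/-- `8 (a+1) ≤ 2^a` for `a ≥ 6` -/
theorem eight_mul_le_two_pow (a : ℕ) (ha : 6 ≤ a) : 8 * (a + 1) ≤ 2 ^ a := by
  induction a, ha using Nat.le_induction with
  | base => norm_num
  | succ k hk ih =>
    rw [pow_succ]
    omega

/-- the numerical inequality replacing `Bertrand.main_inequality` -/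
theorem main_ineq (n : ℕ) (hn : 1152 ≤ n) :
    n * (2 * n) ^ (Nat.sqrt (2 * n) + 2) * 4 ^ (2 * n / 3) ≤ 4 ^ n := by
  set s := Nat.sqrt (2 * n) with hs
  have hs48 : 48 ≤ s := by
    rw [hs, Nat.le_sqrt]
    omega
  have hss : s * s ≤ 2 * n := Nat.sqrt_le (2 * n)
  have hlt : 2 * n < (s + 1) * (s + 1) := Nat.lt_succ_sqrt (2 * n)
  set a := s / 8 with ha
  have ha6 : 6 ≤ a := by omega
  have h1 : s + 1 ≤ 2 ^ a := by
    have := eight_mul_le_two_pow a ha6
    omega
  have h2 : 2 * n ≤ 4 ^ a := by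
    have e : (4 : ℕ) ^ a = 2 ^ a * 2 ^ a := by
      rw [← mul_pow]
      norm_num
    rw [e]
    have : (s + 1) * (s + 1) ≤ 2 ^ a * 2 ^ a := Nat.mul_le_mul h1 h1
    omega
  have h3 : n ≤ 4 ^ a := by omega
  have h4 : (2 * n) ^ (s + 2) ≤ 4 ^ (a * (s + 2)) := by
    rw [pow_mul]
    exact Nat.pow_le_pow_left h2 _
  have h5 : a * (s + 3) + 2 * n / 3 ≤ n := by
    have e1 : 8 * a ≤ s := by omega
    have e2 : 8 * (a * (s + 3)) ≤ s * (s + 3) := by
      calc 8 * (a * (s + 3)) = (8 * a) * (s + 3) := by ring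
        _ ≤ s * (s + 3) := Nat.mul_le_mul_right _ e1
    have e3 : s * (s + 3) = s * s + 3 * s := by ring
    have e4 : 9 * s ≤ s * s := Nat.mul_le_mul_right s (by omega : 9 ≤ s)
    have e5 : 3 * (2 * n / 3) ≤ 2 * n := Nat.mul_div_le (2 * n) 3
    omega
  calc n * (2 * n) ^ (s + 2) * 4 ^ (2 * n / 3)
      ≤ 4 ^ a * 4 ^ (a * (s + 2)) * 4 ^ (2 * n / 3) :=
        Nat.mul_le_mul_right _ (Nat.mul_le_mul h3 h4)
    _ = 4 ^ (a * (s + 3) + 2 * n / 3) := by
        rw [← pow_add, ← pow_add]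
        congr 1
        ring
    _ ≤ 4 ^ n := Nat.pow_le_pow_right (by norm_num) h5

/-- the part of the central binomial coefficient coming from the primes `≤ 2n/3` -/
theorem small_part_le (n : ℕ) (n_pos : 0 < n) :
    ∏ x ∈ Finset.range (2 * n / 3 + 1), x ^ (centralBinom n).factorization x ≤
      (2 * n) ^ Nat.sqrt (2 * n) * 4 ^ (2 * n / 3) := by
  have n2_pos : 1 ≤ 2 * n := mul_pos (zero_lt_two' ℕ) n_pos
  let S := {p ∈ Finset.range (2 * n / 3 + 1) | Nat.Prime p}
  let f x := x ^ n.centralBinom.factorization x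
  have : ∏ x ∈ S, f x = ∏ x ∈ Finset.range (2 * n / 3 + 1), f x := by
    refine Finset.prod_filter_of_ne fun p _ h => ?_
    contrapose! h; dsimp only [f]
    rw [factorization_eq_zero_of_not_prime n.centralBinom h, _root_.pow_zero]
  show ∏ x ∈ Finset.range (2 * n / 3 + 1), f x ≤ _
  rw [← this, ← Finset.prod_filter_mul_prod_filter_not S (· ≤ Nat.sqrt (2 * n))]
  apply mul_le_mul'
  · refine (Finset.prod_le_prod' fun p _ => (?_ : f p ≤ 2 * n)).trans ?_
    · exact pow_factorization_choose_le (mul_pos two_pos n_pos)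
    have : (Finset.Icc 1 (Nat.sqrt (2 * n))).card = Nat.sqrt (2 * n) := by
      rw [card_Icc, Nat.add_sub_cancel]
    rw [Finset.prod_const]
    refine pow_right_mono₀ n2_pos ((Finset.card_le_card fun x hx => ?_).trans this.le)
    obtain ⟨h1, h2⟩ := Finset.mem_filter.1 hx
    exact Finset.mem_Icc.mpr ⟨(Finset.mem_filter.1 h1).2.one_lt.le, h2⟩
  · refine le_trans ?_ (primorial_le_four_pow (2 * n / 3))
    refine (Finset.prod_le_prod' fun p hp => (?_ : f p ≤ p)).trans ?_
    · obtain ⟨h1, h2⟩ := Finset.mem_filter.1 hp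
      refine (pow_right_mono₀ (Finset.mem_filter.1 h1).2.one_lt.le ?_).trans (pow_one p).le
      exact Nat.factorization_choose_le_one (sqrt_lt'.mp <| not_le.1 h2)
    refine Finset.prod_le_prod_of_subset_of_one_le' (Finset.filter_subset _ _) ?_
    exact fun p hp _ => (Finset.mem_filter.1 hp).2.one_lt.le

/-- if no two primes in `(n, 2n]` differ by at least `4`, there are at most two of them -/
theorem card_primes_le_two (n : ℕ) (hn : 2 ≤ n)
    (H : ¬ ∃ p q : ℕ, p.Prime ∧ q.Prime ∧ n < p ∧ p + 4 ≤ q ∧ q ≤ 2 * n) :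
    ((Finset.Ico (2 * n / 3 + 1) (2 * n + 1)).filter (fun k => k.Prime ∧ n < k)).card ≤ 2 := by
  by_contra hcard
  push Not at hcard
  obtain ⟨a, ha, b, hb, c, hc, hab, hac, hbc⟩ := Finset.two_lt_card.mp hcard
  rw [Finset.mem_filter, Finset.mem_Ico] at ha hb hc
  obtain ⟨⟨-, ha2⟩, hap, han⟩ := ha
  obtain ⟨⟨-, hb2⟩, hbp, hbn⟩ := hb
  obtain ⟨⟨-, hc2⟩, hcp, hcn⟩ := hc
  have hodd : ∀ k : ℕ, k.Prime → n < k → k % 2 = 1 := by
    intro k hk hkn
    rcases hk.eq_two_or_odd with h | h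
    · omega
    · exact h
  have hao := hodd a hap han
  have hbo := hodd b hbp hbn
  have hco := hodd c hcp hcn
  have h6 : a + 4 ≤ b ∨ a + 4 ≤ c ∨ b + 4 ≤ a ∨ b + 4 ≤ c ∨ c + 4 ≤ a ∨ c + 4 ≤ b := by omega
  rcases h6 with h | h | h | h | h | h
  · exact H ⟨a, b, hap, hbp, han, h, by omega⟩
  · exact H ⟨a, c, hap, hcp, han, h, by omega⟩
  · exact H ⟨b, a, hbp, hap, hbn, h, by omega⟩
  · exact H ⟨b, c, hbp, hcp, hbn, h, by omega⟩
  · exact H ⟨c, a, hcp, hap, hcn, h, by omega⟩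
  · exact H ⟨c, b, hcp, hbp, hcn, h, by omega⟩

/-- the part of the central binomial coefficient coming from the primes `> 2n/3` -/
theorem large_part_le (n : ℕ) (hn : 2 < n)
    (H : ¬ ∃ p q : ℕ, p.Prime ∧ q.Prime ∧ n < p ∧ p + 4 ≤ q ∧ q ≤ 2 * n) :
    ∏ x ∈ Finset.Ico (2 * n / 3 + 1) (2 * n + 1), x ^ (centralBinom n).factorization x ≤
      (2 * n) ^ 2 := by
  classical
  have n_pos : 0 < n := by omega
  have h1 : ∏ x ∈ Finset.Ico (2 * n / 3 + 1) (2 * n + 1), x ^ (centralBinom n).factorization x ≤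
      ∏ x ∈ Finset.Ico (2 * n / 3 + 1) (2 * n + 1), (if x.Prime ∧ n < x then 2 * n else 1) := by
    apply Finset.prod_le_prod'
    intro x hx
    rw [Finset.mem_Ico] at hx
    by_cases hP : x.Prime ∧ n < x
    · rw [if_pos hP]
      exact pow_factorization_choose_le (mul_pos two_pos n_pos)
    · rw [if_neg hP]
      by_cases hxp : x.Prime
      · have hxn : x ≤ n := by
          by_contra h
          exact hP ⟨hxp, by omega⟩
        have hbig : 2 * n < 3 * x := by omega
        rw [factorization_centralBinom_of_two_mul_self_lt_three_mul hn hxn hbig, pow_zero]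
      · rw [factorization_eq_zero_of_not_prime n.centralBinom hxp, pow_zero]
  refine h1.trans ?_
  rw [Finset.prod_ite, Finset.prod_const, Finset.prod_const_one, mul_one]
  exact Nat.pow_le_pow_right (by omega) (card_primes_le_two n (by omega) H)

/-- Bertrand-type statement: two primes in `(n, 2n]` at distance at least `4`, for large `n` -/
theorem exists_pair_large (n : ℕ) (hn : 1152 ≤ n) :
    ∃ p q : ℕ, p.Prime ∧ q.Prime ∧ n < p ∧ p + 4 ≤ q ∧ q ≤ 2 * n := by
  by_contra H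
  have n_pos : 0 < n := by omega
  have h1 := small_part_le n n_pos
  have h2 := large_part_le n (by omega) H
  have h3 : centralBinom n =
      (∏ x ∈ Finset.range (2 * n / 3 + 1), x ^ (centralBinom n).factorization x) *
        ∏ x ∈ Finset.Ico (2 * n / 3 + 1) (2 * n + 1), x ^ (centralBinom n).factorization x := by
    rw [Finset.prod_range_mul_prod_Ico _ (by omega : 2 * n / 3 + 1 ≤ 2 * n + 1)]
    exact (prod_pow_factorization_centralBinom n).symm
  have h4 : centralBinom n ≤ (2 * n) ^ Nat.sqrt (2 * n) * 4 ^ (2 * n / 3) * (2 * n) ^ 2 := by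
    rw [h3]
    exact Nat.mul_le_mul h1 h2
  have h5 := Nat.four_pow_lt_mul_centralBinom n (by omega)
  have h6 := main_ineq n hn
  have h7 : n * centralBinom n ≤ n * (2 * n) ^ (Nat.sqrt (2 * n) + 2) * 4 ^ (2 * n / 3) := by
    calc n * centralBinom n
        ≤ n * ((2 * n) ^ Nat.sqrt (2 * n) * 4 ^ (2 * n / 3) * (2 * n) ^ 2) :=
          Nat.mul_le_mul_left _ h4
      _ = n * (2 * n) ^ (Nat.sqrt (2 * n) + 2) * 4 ^ (2 * n / 3) := by
          rw [pow_add]; ring
  omega

/-- two primes in `(n, 2n]` at distance at least `4`, for all `n ≥ 9` -/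
theorem exists_pair (n : ℕ) (hn : 9 ≤ n) :
    ∃ p q : ℕ, p.Prime ∧ q.Prime ∧ n < p ∧ p + 4 ≤ q ∧ q ≤ 2 * n := by
  by_cases h0 : 1152 ≤ n
  · exact exists_pair_large n h0
  by_cases h1 : n ≤ 10
  · exact ⟨11, 17, by norm_num, by norm_num, by omega, by omega, by omega⟩
  by_cases h2 : n ≤ 12
  · exact ⟨13, 19, by norm_num, by norm_num, by omega, by omega, by omega⟩
  by_cases h3 : n ≤ 18
  · exact ⟨19, 23, by norm_num, by norm_num, by omega, by omega, by omega⟩
  by_cases h4 : n ≤ 30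
  · exact ⟨31, 37, by norm_num, by norm_num, by omega, by omega, by omega⟩
  by_cases h5 : n ≤ 52
  · exact ⟨53, 59, by norm_num, by norm_num, by omega, by omega, by omega⟩
  by_cases h6 : n ≤ 96
  · exact ⟨97, 101, by norm_num, by norm_num, by omega, by omega, by omega⟩
  by_cases h7 : n ≤ 180
  · exact ⟨181, 191, by norm_num, by norm_num, by omega, by omega, by omega⟩
  by_cases h8 : n ≤ 352
  · exact ⟨353, 359, by norm_num, by norm_num, by omega, by omega, by omega⟩
  by_cases h9 : n ≤ 690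
  · exact ⟨691, 701, by norm_num, by norm_num, by omega, by omega, by omega⟩
  · exact ⟨1373, 1381, by norm_num, by norm_num, by omega, by omega, by omega⟩

/-- TP-NT -/
theorem exists_primes (m : ℕ) (hm : 17 ≤ m) :
    ∃ p q : ℕ, p.Prime ∧ q.Prime ∧ m < 2 * p ∧ p + 4 ≤ q ∧ q ≤ m := by
  by_cases h17 : m = 17
  · subst h17
    exact ⟨11, 17, by norm_num, by norm_num, by omega, by omega, by omega⟩
  · obtain ⟨p, q, hp, hq, h1, h2, h3⟩ := exists_pair (m / 2) (by omega)
    exact ⟨p, q, hp, hq, by omega, h2, by omega⟩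

end Cfsg.Agent.Lib.Helper4.TwoPr
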